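import Cfsg.Agent.Lib.Forms.Transvection
import Mathlib.Algebra.Algebra.Subalgebra.IsSimpleOrder

/-!
Square-zero unipotents, and lines over a larger field of prime degree.
-/

set_option autoImplicit false

namespace Cfsg.Agent.Lib.Forms

open Matrix

variable {ι : Type} [Fintype ι] [DecidableEq ι] {F : Type*} [Field F]

open scoped Classical in
/-- `1 + N` for a square-zero map. -/
noncomputable def uni (N : (ι → F) →ₗ[F] (ι → F)) : GL ι F :=
  if h : N ∘ₗ N = 0 then
    ⟨1 + LinearMap.toMatrix' N, 1 - LinearMap.toMatrix' N, by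
      have : LinearMap.toMatrix' N * LinearMap.toMatrix' N = 0 := by
        rw [← LinearMap.toMatrix'_comp, h, map_zero]
      simp [mul_sub, add_mul, this], by
      have : LinearMap.toMatrix' N * LinearMap.toMatrix' N = 0 := by
        rw [← LinearMap.toMatrix'_comp, h, map_zero]
      simp [sub_mul, mul_add, this]⟩
  else 1

lemma uni_mulVec {N : (ι → F) →ₗ[F] (ι → F)} (hN : ∀ v, N (N v) = 0) (v : ι → F) :
    (uni N : Matrix ι ι F) *ᵥ v = v + N v := by
  rw [uni, dif_pos (LinearMap.ext hN)]
  simp only [add_mulVec, one_mulVec]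
  rw [← Matrix.toLin'_apply, Matrix.toLin'_toMatrix']

variable (F) in
/-- A stabiliser of a proper subspace of a field of prime degree consists of scalars. -/
lemma scalar_of_stab {L : Type*} [Field L] [Algebra F L] (hp : (Module.finrank F L).Prime)
    {W : Submodule F L} (h0 : W ≠ ⊥) (h1 : W ≠ ⊤) {l : L} (hl : ∀ k ∈ W, l * k ∈ W) :
    ∃ a : F, algebraMap F L a = l := by
  let A : Subalgebra F L :=
    { carrier := {l | ∀ k ∈ W, l * k ∈ W}
      mul_mem' := fun {x y} hx hy k hk => by rw [mul_assoc]; exact hx _ (hy k hk)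
      one_mem' := fun k hk => by rwa [one_mul]
      add_mem' := fun {x y} hx hy k hk => by rw [add_mul]; exact W.add_mem (hx k hk) (hy k hk)
      zero_mem' := fun k _ => by rw [zero_mul]; exact W.zero_mem
      algebraMap_mem' := fun c k hk => by rw [← Algebra.smul_def]; exact W.smul_mem c hk }
  rcases (Subalgebra.isSimpleOrder_of_finrank_prime F L hp).eq_bot_or_eq_top A with e | e
  · exact Algebra.mem_bot.1 (show l ∈ (⊥ : Subalgebra F L) by rw [← e]; exact hl)
  · refine absurd (eq_top_iff.2 fun k _ => ?_) h1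
    obtain ⟨w, hw, hw0⟩ := W.exists_mem_ne_zero_of_ne_bot h0
    have : k / w ∈ A := e ▸ Algebra.mem_top
    simpa [hw0] using this w hw

variable {L : Type*} [Field L] [Algebra F L] [Module L (ι → F)] [IsScalarTower F L (ι → F)]

/-- The multiples of a vector over the larger field. -/
def lineMap (a : ι → F) : L →ₗ[F] (ι → F) :=
  (LinearMap.toSpanSingleton L (ι → F) a).restrictScalars F

omit [Fintype ι] [DecidableEq ι] in
lemma lineMap_apply (a : ι → F) (k : L) : lineMap a k = k • a := rfl

omit [Fintype ι] [DecidableEq ι] in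
lemma lineMap_injective {a : ι → F} (ha : a ≠ 0) :
    Function.Injective (lineMap (L := L) a) := smul_left_injective L ha

/-- The part of a line that an element carries into another line. -/
noncomputable def lineCap (g : GL ι F) (a e : ι → F) : Submodule F L :=
  Submodule.comap (Matrix.toLin' (g : Matrix ι ι F) ∘ₗ lineMap a)
    (LinearMap.range (lineMap (L := L) e))

lemma mem_lineCap {g : GL ι F} {a e : ι → F} {k : L} :
    k ∈ lineCap g a e ↔ ∃ l : L, l • e = (g : Matrix ι ι F) *ᵥ (k • a) := by
  simp [lineCap, lineMap_apply]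

omit [Fintype ι] [DecidableEq ι] [Algebra F L] [IsScalarTower F L (ι → F)] in
/-- A map preserving every line over the larger field is a scalar. -/
lemma scalar_of_lines (T : (ι → F) →ₗ[F] (ι → F))
    (h2 : ∀ a : ι → F, ∃ b, ∀ k : L, b ≠ k • a) (hT : ∀ v, ∃ l : L, T v = l • v) :
    ∃ l : L, ∀ v, T v = l • v := by
  choose f hf using hT
  have indep : ∀ {v w : ι → F}, v ≠ 0 → (∀ k : L, w ≠ k • v) → f w = f v := by
    intro v w hv hw
    have e := map_add T v w
    rw [hf, hf, hf, smul_add] at e
    have hc : f (v + w) - f w = 0 := by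
      by_contra hne
      apply hw ((f v - f (v + w)) / (f (v + w) - f w))
      rw [div_eq_inv_mul, mul_smul, eq_inv_smul_iff₀ hne]
      linear_combination (norm := module) e
    have e' : (f (v + w) - f v) • v = 0 := by
      linear_combination (norm := module) e - congrArg (fun z : L => z • w) hc
    have := (smul_eq_zero.1 e').resolve_right hv
    linear_combination this - hc
  by_cases hz : ∀ v : ι → F, v = 0
  · exact ⟨0, fun v => by rw [hz v]; simp⟩
  push Not at hz
  obtain ⟨v₀, hv₀⟩ := hz
  obtain ⟨v₁, hv₁⟩ := h2 v₀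
  refine ⟨f v₀, fun v => ?_⟩
  rcases eq_or_ne v 0 with rfl | hv
  · simp
  by_cases hd : ∃ k : L, v = k • v₀
  · obtain ⟨k, rfl⟩ := hd
    rw [hf, ← indep hv (w := v₁) (fun c e => hv₁ (c * k) (by rw [e, mul_smul])),
      indep hv₀ hv₁]
  · push Not at hd
    rw [hf, indep hv₀ hd]

end Cfsg.Agent.Lib.Forms
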