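import Cfsg.Agent.Lib.Forms.FieldLineBasic

/-!
A field subalgebra of matrices acting on column vectors.
-/

set_option autoImplicit false

namespace Cfsg.Agent.Lib.Forms

open Matrix

variable {ι : Type} [Fintype ι] [DecidableEq ι] {F : Type*} [Field F] {r : ℕ}
  {K : Subalgebra F (Matrix ι ι F)}

lemma isField_fieldSubalg [Nonempty ι] (hK : Cfsg.Geo.IsFieldSubalgebra r K) : IsField K where
  exists_pair_ne := ⟨0, 1, zero_ne_one⟩
  mul_comm x y := Subtype.ext (hK.comm x x.2 y y.2)
  mul_inv_cancel {x} hx := by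
    obtain ⟨y, hy, hxy⟩ := hK.inv x x.2 fun h => hx (Subtype.ext h)
    exact ⟨⟨y, hy⟩, Subtype.ext hxy⟩

/-- The action of the subalgebra on column vectors. -/
@[reducible] def fieldModule (K : Subalgebra F (Matrix ι ι F)) : Module K (ι → F) :=
  Module.compHom (ι → F) (((Matrix.toLinAlgEquiv' : Matrix ι ι F ≃ₐ[F] _).toAlgHom.comp K.val).toRingHom)

/-- Normalising the subalgebra is the same as permuting its lines. -/
lemma normalizer_iff_lines (h2 : ∀ a : ι → F, ∃ b, ∀ k ∈ K, b ≠ k *ᵥ a)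
    (hfield : IsField K) (g : GL ι F) :
    g ∈ Cfsg.Geo.subalgebraNormalizer K ↔ ∀ a : ι → F, ∀ k ∈ K, ∃ l ∈ K,
      (g : Matrix ι ι F) *ᵥ (k *ᵥ a) = l *ᵥ ((g : Matrix ι ι F) *ᵥ a) := by
  constructor
  · intro hg a k hk
    refine ⟨_, (hg k).1 hk, ?_⟩
    simp [Matrix.mulVec_mulVec, mul_assoc]
  · intro hg
    letI : Field K := hfield.toField
    letI : Module K (ι → F) := fieldModule K
    have into : ∀ k ∈ K, (g : Matrix ι ι F) * k * ((g⁻¹ : GL ι F) : Matrix ι ι F) ∈ K := by
      intro k hk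
      obtain ⟨l, hl⟩ := scalar_of_lines (L := K)
        (Matrix.toLin' ((g : Matrix ι ι F) * k * ((g⁻¹ : GL ι F) : Matrix ι ι F)))
        (fun a => by
          obtain ⟨b, hb⟩ := h2 a
          exact ⟨b, fun c => hb c c.2⟩)
        fun v => by
          obtain ⟨l, hl, e⟩ := hg (((g⁻¹ : GL ι F) : Matrix ι ι F) *ᵥ v) k hk
          refine ⟨⟨l, hl⟩, ?_⟩
          show _ = l *ᵥ v
          rw [Matrix.toLin'_apply, ← Matrix.mulVec_mulVec, ← Matrix.mulVec_mulVec, e,
            mulVec_inv_mulVec]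
      convert l.2 using 1
      refine Matrix.ext_of_mulVec_single fun i => ?_
      have := hl (Pi.single i 1)
      rwa [Matrix.toLin'_apply] at this
    intro k
    refine ⟨into k, fun hk => ?_⟩
    let f : Subalgebra.toSubmodule K →ₗ[F] Subalgebra.toSubmodule K :=
      { toFun := fun z => ⟨_, into z.1 z.2⟩
        map_add' := fun z z' => Subtype.ext (by simp [mul_add, add_mul])
        map_smul' := fun c z => Subtype.ext (by simp) }
    obtain ⟨⟨z, hz⟩, e⟩ := (f.injective_iff_surjective.1 fun z z' e => Subtype.ext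
      ((Units.mul_right_inj g).1 ((Units.mul_left_inj g⁻¹).1 (congrArg Subtype.val e)))) ⟨_, hk⟩
    have e' : z = k :=
      (Units.mul_right_inj g).1 ((Units.mul_left_inj g⁻¹).1 (congrArg Subtype.val e))
    exact e' ▸ hz

end Cfsg.Agent.Lib.Forms
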