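import Cfsg.Agent.Lib.Forms.SympMaximal

/-!
The stabiliser of a pair of complementary Lagrangian subspaces is maximal in the symplectic group.
-/

set_option autoImplicit false

namespace Cfsg.Agent.Lib.Forms

open Matrix Cfsg.Geo

variable {ι : Type} [Fintype ι] [DecidableEq ι] {F : Type*} [Field F]
  {B : LinearMap.BilinForm F (ι → F)}

lemma fin2_cases {a b : Fin 2} (h : a ≠ b) : b = 0 ∧ a = 1 ∨ b = 1 ∧ a = 0 := by
  revert a b; decide

lemma fin2_or {i j : Fin 2} (h : i ≠ j) (k : Fin 2) : k = i ∨ k = j := by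
  revert i j k; decide

/-- The rank-two element `x ↦ x + c B(x, b) a + c B(x, a) b`. -/
noncomputable def symE (B : LinearMap.BilinForm F (ι → F)) (a b : ι → F) (c : F) : GL ι F :=
  tv a (c • bv B b) * tv b (c • bv B a)

lemma symE_mulVec (hA : B.IsAlt) {a b : ι → F} (h : B a b = 0) (c : F) (x : ι → F) :
    (symE B a b c : Matrix ι ι F) *ᵥ x = x + (c * B x b) • a + (c * B x a) • b := by
  have h' : B b a = 0 := by rw [← hA.neg_eq a b, h, neg_zero]
  rw [symE, mul_mulVec', tv_mulVec (by simp [bv_dot, h, h']), tv_mulVec (by simp [bv_dot, h, h'])]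
  simp only [smul_dotProduct, bv_dot, smul_eq_mul, map_add, map_smul, LinearMap.add_apply,
    LinearMap.smul_apply, h', hA.self_eq_zero, mul_zero, add_zero]
  module

lemma symE_mem_iso (hA : B.IsAlt) {a b : ι → F} (h : B a b = 0) (c : F) :
    symE B a b c ∈ isoGroup B := by
  have h' : B b a = 0 := by rw [← hA.neg_eq a b, h, neg_zero]
  rw [mem_isoGroup]
  intro x y
  simp only [symE_mulVec hA h, map_add, map_smul, LinearMap.add_apply, LinearMap.smul_apply,
    smul_eq_mul, h, h', hA.self_eq_zero, ← hA.neg_eq y a, ← hA.neg_eq y b]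
  ring

/-- A complementary pair of Lagrangian subspaces. -/
structure LagPair (B : LinearMap.BilinForm F (ι → F)) (D : Fin 2 → Submodule F (ι → F)) (m : ℕ) :
    Prop where
  alt : B.IsAlt
  nd : B.Nondegenerate
  two : (2 : F) ≠ 0
  rank : ∀ i, Module.finrank F (D i) = m
  large : 7 ≤ m
  total : Fintype.card ι = 2 * m
  singular : ∀ i, ∀ u ∈ D i, ∀ v ∈ D i, B u v = 0
  spans : ∀ x, ∃ p : Fin 2 → (ι → F), (∀ i, p i ∈ D i) ∧ p 0 + p 1 = x

namespace LagPair

variable {D : Fin 2 → Submodule F (ι → F)} {m : ℕ} (P : LagPair B D m)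
include P

lemma eq_zero_of_perp {i j : Fin 2} (hij : i ≠ j) {a : ι → F} (ha : a ∈ D i)
    (h : ∀ b ∈ D j, B a b = 0) : a = 0 := by
  refine P.nd.1 a fun x => ?_
  obtain ⟨p, hp, rfl⟩ := P.spans x
  have : ∀ k, B a (p k) = 0 := fun k => by
    rcases (fin2_or hij k) with
      rfl | rfl
    · exact P.singular _ a ha _ (hp _)
    · exact h _ (hp _)
  rw [map_add, this, this, add_zero]

lemma exists_pairing {i j : Fin 2} (hij : i ≠ j) {a : ι → F} (ha : a ∈ D i) (ha0 : a ≠ 0) :
    ∃ b ∈ D j, B a b = 1 := by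
  by_contra hcon
  push Not at hcon
  refine ha0 (P.eq_zero_of_perp hij ha fun b hb => ?_)
  by_contra hne
  exact hcon _ ((D j).smul_mem (B a b)⁻¹ hb) (by rw [map_smul, smul_eq_mul, inv_mul_cancel₀ hne])

/-- A functional on the other member separating two independent vectors. -/
lemma exists_sep {i j : Fin 2} (hij : i ≠ j) {a a' : ι → F} (ha : a ∈ D i) (ha' : a' ∈ D i)
    (hind : a ∉ Submodule.span F {a'}) : ∃ b ∈ D j, B a b = 1 ∧ B a' b = 0 := by
  rcases eq_or_ne a' 0 with rfl | ha0
  · obtain ⟨b, hb, hab⟩ := P.exists_pairing hij ha (fun e => hind (by simp [e]))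
    exact ⟨b, hb, hab, by simp⟩
  obtain ⟨b', hb', hab'⟩ := P.exists_pairing hij ha' ha0
  obtain ⟨b, hb, hab⟩ := P.exists_pairing hij
    ((D i).sub_mem ha ((D i).smul_mem (B a b') ha')) (fun e => hind (by
      rw [sub_eq_zero] at e; rw [e]
      exact Submodule.smul_mem _ _ (Submodule.mem_span_singleton_self a')))
  refine ⟨b - B a' b • b', (D j).sub_mem hb ((D j).smul_mem _ hb'), ?_, ?_⟩
  · rw [map_sub, map_smul, LinearMap.sub_apply, LinearMap.smul_apply, smul_eq_mul] at *
    linear_combination hab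
  · simp [hab']

lemma symE_mem_stab {a b : ι → F} {i j : Fin 2} (hij : i ≠ j) (ha : a ∈ D i) (hb : b ∈ D j)
    (h : B a b = 0) (c : F) : symE B a b c ∈ decompositionStabilizer D ⊓ isoGroup B := by
  refine ⟨⟨1, fun k => Submodule.eq_of_le_of_finrank_eq (map_le_of_mulVec_mem fun x hx => ?_)
    (by rw [finrank_map_gl]; rfl)⟩, symE_mem_iso P.alt h c⟩
  rw [symE_mulVec P.alt h]
  rcases (fin2_or hij k) with
    rfl | rfl
  · rw [P.singular _ x hx a ha, mul_zero, zero_smul, add_zero]
    exact (D _).add_mem hx ((D _).smul_mem _ ha)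
  · rw [P.singular _ x hx b hb, mul_zero, zero_smul, add_zero]
    exact (D _).add_mem hx ((D _).smul_mem _ hb)

variable {G : Subgroup (GL ι F)} (hle : decompositionStabilizer D ⊓ isoGroup B ≤ G)
include hle

/-- A symmetric product inside one member gives a centre there. -/
lemma centre_of_symE {j : Fin 2} {w p : ι → F} (hw : w ∈ D j) (hp : p ∈ D j)
    (hind : p ∉ Submodule.span F {w}) (γ : F) (hm : symE B w p 1 * sympT B w γ ∈ G) :
    w ∈ centres B G := by
  obtain ⟨i, hij⟩ : ∃ i : Fin 2, i ≠ j := exists_ne j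
  obtain ⟨b, hb, hpb, hwb⟩ := P.exists_sep (Ne.symm hij) hp hw hind
  intro c
  set s := c / 2 with hs
  have hh := symE_mem_stab P (Ne.symm hij) hw hb hwb s
  have hwp : B w p = 0 := P.singular j w hw p hp
  have hmove : (symE B w b s : Matrix ι ι F) *ᵥ p = p + s • w := by
    rw [symE_mulVec P.alt hwb, hpb, P.singular j p hp w hw]; simp
  have hfix : (symE B w b s : Matrix ι ι F) *ᵥ w = w := by
    rw [symE_mulVec P.alt hwb, hwb, P.alt.self_eq_zero]; simp
  have h1 := G.mul_mem (G.mul_mem (hle hh) hm) (G.inv_mem (hle hh))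
  have key : symE B w b s * symE B w p 1 * (symE B w b s)⁻¹ = sympT B w c * symE B w p 1 := by
    rw [mul_inv_eq_iff_eq_mul]
    apply gl_ext; intro x
    rw [mul_mulVec', mul_mulVec', mul_mulVec', symE_mulVec P.alt hwp, mulVec_add, mulVec_add,
      mulVec_smul, mulVec_smul, hfix, hmove, symE_mulVec P.alt hwp, sympT_mulVec P.alt]
    have e1 : B ((symE B w b s : Matrix ι ι F) *ᵥ x) w = B x w := by
      have := mem_isoGroup.1 hh.2 x w
      rwa [hfix] at this
    have e2 : B ((symE B w b s : Matrix ι ι F) *ᵥ x) p = B x p - s * B x w := by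
      have h2 := mem_isoGroup.1 hh.2 x p
      rw [hmove, map_add, map_smul, e1, smul_eq_mul] at h2
      linear_combination h2
    simp only [map_add, map_smul, LinearMap.add_apply, LinearMap.smul_apply, e1, e2,
      P.alt.self_eq_zero, hwp, P.singular j p hp w hw, smul_eq_mul]
    rw [hs]
    match_scalars <;> field_simp [P.two] <;> ring
  have key' : symE B w b s * (symE B w p 1 * sympT B w γ) * (symE B w b s)⁻¹ =
      sympT B w c * (symE B w p 1 * sympT B w γ) := by
    have e := sympT_conj P.alt hh.2 w γ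
    rw [hfix] at e
    rw [← mul_assoc (sympT B w c), ← key]
    calc _ = symE B w b s * symE B w p 1 * (symE B w b s)⁻¹ *
          (symE B w b s * sympT B w γ * (symE B w b s)⁻¹) := by group
      _ = _ := by rw [e]
  rw [key'] at h1
  have h2 := G.mul_mem h1 (G.inv_mem hm)
  rwa [mul_inv_cancel_right] at h2

/-- One centre spreads over its member. -/
lemma centres_spread {j : Fin 2} {w : ι → F} (hw : w ∈ D j) (hw0 : w ≠ 0)
    (hC : w ∈ centres B G) {u : ι → F} (hu : u ∈ D j) : u ∈ centres B G := by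
  obtain ⟨i, hij⟩ : ∃ i : Fin 2, i ≠ j := exists_ne j
  by_cases hmem : u ∈ Submodule.span F {w}
  · obtain ⟨c, rfl⟩ := Submodule.mem_span_singleton.1 hmem
    exact smul_mem_centres P.alt c hC
  have hind : w ∉ Submodule.span F {u - w} := fun h => hmem (by
    obtain ⟨c, hc⟩ := Submodule.mem_span_singleton.1 h
    have hc0 : c ≠ 0 := fun e => hw0 (by rw [← hc, e, zero_smul])
    refine Submodule.mem_span_singleton.2 ⟨c⁻¹ + 1, ?_⟩
    have : u - w = c⁻¹ • w := by
      conv_rhs => rw [← hc, smul_smul, inv_mul_cancel₀ hc0, one_smul]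
    rw [add_smul, one_smul, ← this, sub_add_cancel])
  obtain ⟨b, hb, hwb, hub⟩ := P.exists_sep (Ne.symm hij) hw ((D j).sub_mem hu hw) hind
  have hh := symE_mem_stab P (Ne.symm hij) ((D j).sub_mem hu hw) hb hub 1
  have := mulVec_mem_centres P.alt (hle hh) hh.2 hC
  rwa [symE_mulVec P.alt hub, hwb, P.singular j w hw _ ((D j).sub_mem hu hw), one_mul, mul_zero,
    one_smul, zero_smul, add_zero, add_sub_cancel] at this

lemma isoGroup_le_of_members (hC : ∀ j, ∀ u ∈ D j, u ∈ centres B G) : isoGroup B ≤ G := by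
  refine isoGroup_le_of_centres P.alt P.nd fun v => ?_
  obtain ⟨p, hp, rfl⟩ := P.spans v
  have h01 : (0 : Fin 2) ≠ 1 := by decide
  rcases eq_or_ne (p 1) 0 with e | e
  · rw [e, add_zero]; exact hC 0 _ (hp 0)
  by_cases hne : B (p 0) (p 1) = 0
  swap
  · simpa using add_smul_mem_centres P.alt (hC 0 _ (hp 0)) (hC 1 _ (hp 1)) hne 1
  obtain ⟨u, hu, hqu⟩ := P.exists_pairing h01.symm (hp 1) e
  have huq : B u (p 1) = -1 := by rw [← P.alt.neg_eq (p 1) u, hqu]
  have h1 : B (p 0 - u) (p 1) ≠ 0 := by simp [hne, huq]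
  have ha : (p 0 - u) + (1 : F) • p 1 ∈ centres B G :=
    add_smul_mem_centres P.alt (hC 0 _ ((D 0).sub_mem (hp 0) hu)) (hC 1 _ (hp 1)) h1 1
  have h2 : B (p 0 - u + (1 : F) • p 1) u ≠ 0 := by
    simp [P.singular 0 _ (hp 0) _ hu, P.alt.self_eq_zero, hqu]
  have h := add_smul_mem_centres P.alt ha (hC 0 _ hu) h2 1
  simp only [one_smul] at h
  rwa [show p 0 - u + p 1 + u = p 0 + p 1 by abel] at h

/-- An element outside the stabiliser gives a centre in one of the members. -/
lemma exists_centre {g : GL ι F} (hg : g ∈ G) (hgi : g ∈ isoGroup B)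
    (hgn : g ∉ decompositionStabilizer D) :
    ∃ j, ∃ w ∈ D j, w ≠ 0 ∧ w ∈ centres B G := by
  classical
  by_contra hnoC
  push Not at hnoC
  set M := (g : Matrix ι ι F)
  choose p hp hps using P.spans
  have h01 : (0 : Fin 2) ≠ 1 := by decide
  have puniq : ∀ x (q : Fin 2 → (ι → F)), (∀ i, q i ∈ D i) → q 0 + q 1 = x → p x = q := by
    intro x q hq hx
    have he : p x 0 - q 0 = q 1 - p x 1 := by
      rw [sub_eq_sub_iff_add_eq_add, hps, add_comm (q 1), hx]
    have h0 : p x 0 - q 0 = 0 := P.eq_zero_of_perp h01 ((D 0).sub_mem (hp x 0) (hq 0)) fun b hb => by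
      rw [he]; exact P.singular 1 _ ((D 1).sub_mem (hq 1) (hp x 1)) b hb
    funext i
    fin_cases i
    · exact sub_eq_zero.1 h0
    · rw [h0] at he; exact (sub_eq_zero.1 he.symm).symm
  have padd : ∀ x y, p (x + y) = p x + p y := fun x y => puniq _ _
    (fun i => (D i).add_mem (hp x i) (hp y i))
    (by rw [Pi.add_apply, Pi.add_apply, add_add_add_comm, hps, hps])
  have psmul : ∀ (c : F) x, p (c • x) = c • p x := fun c x => puniq _ _
    (fun i => (D i).smul_mem c (hp x i)) (by rw [Pi.smul_apply, Pi.smul_apply, ← smul_add, hps])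
  let π : ∀ (_ : Fin 2), (ι → F) →ₗ[F] (ι → F) := fun i =>
    { toFun := fun x => p (M *ᵥ x) i
      map_add' := fun x y => by rw [mulVec_add, padd]; rfl
      map_smul' := fun c x => by rw [mulVec_smul, psmul]; rfl }
  -- the good situation
  suffices H : ∀ b : Fin 2, ∀ u₁ u₂ : ι → F, ∀ i₁ i₂ : Fin 2, i₁ ≠ i₂ → u₁ ∈ D i₁ → u₂ ∈ D i₂ →
      B u₁ u₂ = 0 → π b u₂ ≠ 0 → π b u₁ ∈ Submodule.span F {π b u₂} by
    -- ranks force a kernel
    have hzero : ∀ b, (∀ u ∈ D 0, π b u = 0) ∨ (∀ u ∈ D 1, π b u = 0) := by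
      intro b
      by_contra hcon
      push Not at hcon
      obtain ⟨⟨u, hu, hfu⟩, ⟨w, hw, hhw⟩⟩ := hcon
      have hr : ∀ (i i' : Fin 2), i ≠ i' → ∀ w ∈ D i', π b w ≠ 0 →
          Module.finrank F ((D i).map (π b)) ≤ 2 := by
        intro i i' hii w hw hne
        let K : Submodule F (ι → F) := D i ⊓ LinearMap.ker (B.flip w)
        obtain ⟨v, hv, hwv⟩ := P.exists_pairing hii.symm hw (fun e => hne (by rw [e, map_zero]))
        have hle' : (D i).map (π b) ≤ Submodule.span F {π b w} ⊔ Submodule.span F {π b v} := by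
          rintro _ ⟨x, hx, rfl⟩
          have hx' : x + B x w • v ∈ D i := (D i).add_mem hx ((D i).smul_mem _ hv)
          have hperp : B (x + B x w • v) w = 0 := by
            rw [map_add, map_smul, LinearMap.add_apply, LinearMap.smul_apply, smul_eq_mul,
              ← P.alt.neg_eq w v, hwv]
            ring
          have h1 := H b _ w i i' hii hx' hw hperp hne
          rw [map_add, map_smul] at h1
          have h2 : B x w • π b v ∈ Submodule.span F {π b v} :=
            Submodule.smul_mem _ _ (Submodule.mem_span_singleton_self _)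
          simpa using Submodule.sub_mem _ (Submodule.mem_sup_left h1) (Submodule.mem_sup_right h2)
        refine le_trans (Submodule.finrank_mono hle') (le_trans (Submodule.finrank_add_le_finrank_add_finrank _ _) ?_)
        have := finrank_span_le_card (R := F) ({π b w} : Set (ι → F))
        have := finrank_span_le_card (R := F) ({π b v} : Set (ι → F))
        simp at *
        omega
      have hle' : D b ≤ (D 0).map (π b) ⊔ (D 1).map (π b) := by
        intro y hy
        set x := ((g⁻¹ : GL ι F) : Matrix ι ι F) *ᵥ y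
        have e : π b x = y := by
          change p (M *ᵥ x) b = y
          rw [mulVec_inv_mulVec, puniq y (fun k => if k = b then y else 0) (fun k => by
            split_ifs with hk
            · exact hk ▸ hy
            · exact Submodule.zero_mem _) (by fin_cases b <;> simp)]
          simp
        rw [← e, ← hps x, map_add]
        exact Submodule.add_mem_sup (Submodule.mem_map_of_mem (hp x 0)) (Submodule.mem_map_of_mem (hp x 1))
      have := Submodule.finrank_mono hle'
      have := Submodule.finrank_add_le_finrank_add_finrank ((D 0).map (π b)) ((D 1).map (π b))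
      have := hr 0 1 h01 w hw hhw
      have := hr 1 0 h01.symm u hu hfu
      have := P.rank b
      have := P.large
      omega
    exfalso
    apply hgn
    have hsum : ∀ x, M *ᵥ x = π 0 x + π 1 x := fun x => (hps _).symm
    have hmem : ∀ (i b : Fin 2), (∀ b', b' ≠ b → ∀ u ∈ D i, π b' u = 0) →
        (D i).map (Matrix.toLin' M) = D b := by
      intro i b hb
      refine Submodule.eq_of_le_of_finrank_eq (map_le_of_mulVec_mem fun u hu => ?_)
        (by rw [finrank_map_gl, P.rank, P.rank])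
      rw [hsum]
      fin_cases b
      · rw [hb 1 (by decide) u hu, add_zero]; exact hp _ 0
      · rw [hb 0 (by decide) u hu, zero_add]; exact hp _ 1
    have hnz : ∀ i, ¬ ((∀ u ∈ D i, π 0 u = 0) ∧ ∀ u ∈ D i, π 1 u = 0) := by
      rintro i ⟨h0, h1⟩
      obtain ⟨u, hu, hu0⟩ : ∃ u ∈ D i, u ≠ 0 := Submodule.exists_mem_ne_zero_of_ne_bot fun e => by
        have h := P.rank i; rw [e, finrank_bot] at h; have := P.large; omega
      apply hu0
      apply gl_mulVec_injective g
      change M *ᵥ u = M *ᵥ 0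
      rw [hsum, h0 u hu, h1 u hu, add_zero, mulVec_zero]
    rcases hzero 0 with a | a <;> rcases hzero 1 with a' | a'
    · exact absurd ⟨a, a'⟩ (hnz 0)
    · refine ⟨Equiv.swap 0 1, fun i => ?_⟩
      fin_cases i
      · simpa using hmem 0 1 (fun b' hb' => by fin_cases b' <;> simp_all)
      · simpa using hmem 1 0 (fun b' hb' => by fin_cases b' <;> simp_all)
    · refine ⟨1, fun i => ?_⟩
      fin_cases i
      · simpa using hmem 0 0 (fun b' hb' => by fin_cases b' <;> simp_all)
      · simpa using hmem 1 1 (fun b' hb' => by fin_cases b' <;> simp_all)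
    · exact absurd ⟨a, a'⟩ (hnz 1)
  intro b u₁ u₂ i₁ i₂ hi hu₁ hu₂ horth hne
  by_contra hind
  -- the rank two element
  set m₁ := M *ᵥ u₁
  set m₂ := M *ᵥ u₂
  have hm : B m₁ m₂ = 0 := by rw [mem_isoGroup.1 hgi]; exact horth
  obtain ⟨a, hab⟩ : ∃ a : Fin 2, a ≠ b := exists_ne b
  obtain ⟨v, hv, hv1, hv2⟩ := P.exists_sep hab.symm (hp m₁ b) (hp m₂ b) hind
  have hBsum : ∀ x, ∀ y ∈ D a, B x y = B (p x b) y := fun x y hy => by
    conv_lhs => rw [← hps x]
    rcases (fin2_cases hab) with
      ⟨rfl, rfl⟩ | ⟨rfl, rfl⟩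
    · simp [P.singular 1 _ (hp x 1) y hy]
    · simp [P.singular 0 _ (hp x 0) y hy]
  have hm1v : B m₁ v = 1 := by rw [hBsum _ _ hv]; exact hv1
  have hm2v : B m₂ v = 0 := by rw [hBsum _ _ hv]; exact hv2
  obtain ⟨w, hw, hwm1, hwm2, hwv, hwout⟩ : ∃ w ∈ D b, B w m₁ = 0 ∧ B w m₂ = 0 ∧ B w v = 0 ∧
      p m₂ b ∉ Submodule.span F {w} ∧ w ≠ 0 := by
    let L : D b →ₗ[F] (Fin 3 → F) :=
      { toFun := fun w => ![B (w : ι → F) m₁, B (w : ι → F) m₂, B (w : ι → F) v]
        map_add' := fun x y => by ext i; fin_cases i <;> simp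
        map_smul' := fun c x => by ext i; fin_cases i <;> simp }
    obtain ⟨w, hwK, hwout⟩ : ∃ w ∈ (LinearMap.ker L).map (D b).subtype,
        w ∉ Submodule.span F {p m₂ b} := by
      refine SetLike.not_le_iff_exists.1 fun hle' => ?_
      have h1 := Submodule.finrank_mono hle'
      rw [Submodule.finrank_map_subtype_eq] at h1
      have h2 := LinearMap.finrank_range_add_finrank_ker L
      have h3 := Submodule.finrank_le (LinearMap.range L)
      rw [Module.finrank_fin_fun] at h3
      have h4 := finrank_span_le_card (R := F) ({p m₂ b} : Set (ι → F))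
      have := P.rank b
      have := P.large
      simp at h4
      omega
    obtain ⟨⟨w, hw⟩, hker, rfl⟩ := hwK
    have e := LinearMap.mem_ker.1 hker
    refine ⟨w, hw, congrFun e 0, congrFun e 1, congrFun e 2, fun h => hwout ?_,
      fun e' => hwout (by simp [e'])⟩
    obtain ⟨c, hc⟩ := Submodule.mem_span_singleton.1 h
    rcases eq_or_ne c 0 with rfl | hc0
    · exfalso
      refine hne ?_
      change p m₂ b = 0
      rw [← hc, zero_smul]
    · refine Submodule.mem_span_singleton.2 ⟨c⁻¹, ?_⟩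
      simp [← hc, smul_smul, hc0]
  obtain ⟨hwout, hw0⟩ := hwout
  have hm1w : B m₁ w = 0 := by rw [← P.alt.neg_eq w m₁, hwm1, neg_zero]
  have hm2w : B m₂ w = 0 := by rw [← P.alt.neg_eq w m₂, hwm2, neg_zero]
  have hvw : B v w = 0 := by rw [← P.alt.neg_eq w v, hwv, neg_zero]
  -- conjugate of a stabiliser element
  have ht : symE B m₁ m₂ 1 ∈ G := by
    have h1 := G.mul_mem (G.mul_mem hg (hle (symE_mem_stab P hi hu₁ hu₂ horth 1))) (G.inv_mem hg)
    suffices e : g * symE B u₁ u₂ 1 * g⁻¹ = symE B m₁ m₂ 1 by rwa [e] at h1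
    apply gl_ext; intro x
    rw [mul_mulVec', mul_mulVec', symE_mulVec P.alt horth, symE_mulVec P.alt hm, mulVec_add,
      mulVec_add, mulVec_smul, mulVec_smul, mulVec_inv_mulVec]
    have e1 : ∀ y, B (((g⁻¹ : GL ι F) : Matrix ι ι F) *ᵥ x) y = B x (M *ᵥ y) := fun y => by
      rw [← mem_isoGroup.1 hgi, mulVec_inv_mulVec]
    rw [e1, e1]
  have hs := symE_mem_stab P hab hv hw hvw 1
  have h2 := G.mul_mem (G.mul_mem (hle hs) ht) (G.inv_mem (hle hs))
  have hwm2' : B w (p m₂ a) = 0 := by
    have e := hwm2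
    conv_lhs at e => rw [← hps m₂]
    rcases (fin2_cases hab) with
      ⟨rfl, rfl⟩ | ⟨rfl, rfl⟩
    · rw [map_add, P.singular 0 _ hw _ (hp m₂ 0), zero_add] at e; exact e
    · rw [map_add, P.singular 1 _ hw _ (hp m₂ 1), add_zero] at e; exact e
  have hwpb : B w (p m₂ b) = 0 := P.singular b _ hw _ (hp m₂ b)
  have key : symE B v w 1 * symE B m₁ m₂ 1 * (symE B v w 1)⁻¹ =
      symE B m₁ m₂ 1 * symE B w m₂ 1 := by
    rw [mul_inv_eq_iff_eq_mul]
    apply gl_ext; intro x
    have hs1 : (symE B v w 1 : Matrix ι ι F) *ᵥ m₁ = m₁ + w := by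
      rw [symE_mulVec P.alt hvw, hm1v, hm1w]; simp
    have hs2 : (symE B v w 1 : Matrix ι ι F) *ᵥ m₂ = m₂ := by
      rw [symE_mulVec P.alt hvw, hm2v, hm2w]; simp
    set X := (symE B v w 1 : Matrix ι ι F) *ᵥ x with hX
    have e2 : B x m₂ = B X m₂ := by
      have := mem_isoGroup.1 hs.2 x m₂; rw [hs2] at this; exact this.symm
    have e1 : B x m₁ = B X m₁ + B X w := by
      have := mem_isoGroup.1 hs.2 x m₁; rw [hs1, map_add] at this; exact this.symm
    have hm21 : B m₂ m₁ = 0 := by rw [← P.alt.neg_eq m₁ m₂, hm, neg_zero]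
    rw [mul_mulVec', mul_mulVec', mul_mulVec', symE_mulVec P.alt hm, mulVec_add,
      mulVec_add, mulVec_smul, mulVec_smul, hs1, hs2, ← hX, e1, e2,
      symE_mulVec P.alt hwm2, symE_mulVec P.alt hm]
    simp only [map_add, map_smul, LinearMap.add_apply, LinearMap.smul_apply, smul_eq_mul,
      P.alt.self_eq_zero, hwm1, hwm2, hm21]
    module
  rw [key] at h2
  have h3 := G.mul_mem (G.inv_mem ht) h2
  rw [inv_mul_cancel_left] at h3
  have hsum : p m₂ b + p m₂ a = m₂ := by
    rcases (fin2_cases hab) with ⟨rfl, rfl⟩ | ⟨rfl, rfl⟩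
    · exact hps m₂
    · rw [add_comm]; exact hps m₂
  obtain ⟨ma, hma⟩ : ∃ y, y = p m₂ a := ⟨_, rfl⟩
  obtain ⟨mb, hmb⟩ : ∃ y, y = p m₂ b := ⟨_, rfl⟩
  rw [← hma, ← hmb] at hsum
  rw [← hma] at hwm2'
  rw [← hmb] at hwpb
  have key2 : symE B w m₂ 1 = symE B w mb 1 * sympT B w (-(B ma mb)) * symE B w ma 1 := by
    apply gl_ext; intro x
    rw [mul_mulVec', mul_mulVec', symE_mulVec P.alt hwm2, symE_mulVec P.alt hwm2',
      sympT_mulVec P.alt, symE_mulVec P.alt hwpb]
    have h' : B ma w = 0 := by rw [← P.alt.neg_eq w ma, hwm2', neg_zero]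
    simp only [← hsum, map_add, map_smul, LinearMap.add_apply, LinearMap.smul_apply, smul_eq_mul,
      P.alt.self_eq_zero, hwm2', hwpb, h']
    module
  rw [key2] at h3
  have h4 := G.mul_mem h3 (G.inv_mem (hle (symE_mem_stab P hab.symm hw (hma ▸ hp m₂ a) hwm2' 1)))
  rw [mul_inv_cancel_right] at h4
  subst hmb
  exact hnoC b w hw hw0 (P.centre_of_symE hle hw (hp m₂ b) hwout _ h4)

omit hle in
/-- An isometry exchanging the members. -/
lemma exists_swap : ∃ J ∈ isoGroup B,
    (D 0).map (Matrix.toLin' (J : Matrix ι ι F)) = D 1 ∧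
      (D 1).map (Matrix.toLin' (J : Matrix ι ι F)) = D 0 := by
  classical
  have h01 : (0 : Fin 2) ≠ 1 := by decide
  let a := Module.finBasisOfFinrankEq F (D 0) (P.rank 0)
  let T : D 1 →ₗ[F] (Fin m → F) := LinearMap.pi fun i => ((B (a i : ι → F)).comp (D 1).subtype)
  have hTinj : Function.Injective T := by
    rw [← LinearMap.ker_eq_bot, LinearMap.ker_eq_bot']
    rintro ⟨y, hy⟩ hT
    have hT' : ∀ u : D 0, B (u : ι → F) y = 0 := fun u => by
      have := LinearMap.congr_fun (a.ext (f₁ := (B.flip y).comp (D 0).subtype) (f₂ := 0)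
        fun i => by simpa [T] using congrFun hT i) u
      simpa using this
    exact Subtype.ext (P.eq_zero_of_perp h01.symm hy fun u hu => by
      rw [← P.alt.neg_eq u y, hT' ⟨u, hu⟩, neg_zero])
  have hTsur : Function.Surjective T :=
    (LinearMap.injective_iff_surjective_of_finrank_eq_finrank
      (by rw [Module.finrank_fin_fun, P.rank])).1 hTinj
  choose b hb using fun i => hTsur (Pi.single i (1 : F))
  have hab : ∀ i j, B (a i : ι → F) (b j : ι → F) = if i = j then 1 else 0 := fun i j => by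
    have := congrFun (hb j) i
    simpa [T, Pi.single_apply] using this
  have haa : ∀ i j, B (a i : ι → F) (a j : ι → F) = 0 := fun i j =>
    P.singular 0 _ (a i).2 _ (a j).2
  have hbb : ∀ i j, B (b i : ι → F) (b j : ι → F) = 0 := fun i j =>
    P.singular 1 _ (b i).2 _ (b j).2
  have hba : ∀ i j, B (b i : ι → F) (a j : ι → F) = if j = i then -1 else 0 := fun i j => by
    rw [← P.alt.neg_eq, hab]; split_ifs <;> simp
  have hx : ∀ x, x = ∑ i, (B x (b i) • (a i : ι → F) - B x (a i) • (b i : ι → F)) := by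
    intro x
    rw [← sub_eq_zero]
    set z := x - _ with hz
    have hza : ∀ j, B z (a j) = 0 := fun j => by
      simp [hz, haa, hba, Finset.sum_ite_eq]
    have hzb : ∀ j, B z (b j) = 0 := fun j => by
      simp [hz, hbb, hab, Finset.sum_ite_eq']
    refine P.nd.1 z fun y => ?_
    obtain ⟨p, hp, rfl⟩ := P.spans y
    have e0 : B z (p 0) = 0 := by
      have := LinearMap.congr_fun (a.ext (f₁ := (B z).comp (D 0).subtype) (f₂ := 0)
        fun i => by simpa using hza i) ⟨p 0, hp 0⟩
      simpa using this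
    have hli : LinearIndependent F b := by
      refine Fintype.linearIndependent_iff.2 fun c hc i => ?_
      have := congrArg (fun y : D 1 => T y i) hc
      simpa [T, map_sum, hab, Finset.sum_ite_eq, Finset.sum_ite_eq'] using this
    let bb := basisOfLinearIndependentOfCardEqFinrank' b hli (by rw [Fintype.card_fin, P.rank])
    have e1 : B z (p 1) = 0 := by
      have := LinearMap.congr_fun (bb.ext (f₁ := (B z).comp (D 1).subtype) (f₂ := 0)
        fun i => by simpa [bb] using hzb i) ⟨p 1, hp 1⟩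
      simpa using this
    rw [map_add, e0, e1, add_zero]
  let J : (ι → F) →ₗ[F] (ι → F) := ∑ i, ((B.flip (b i : ι → F)).smulRight (b i : ι → F) +
    (B.flip (a i : ι → F)).smulRight (a i : ι → F))
  have hJ : ∀ x, J x = ∑ i, (B x (b i) • (b i : ι → F) + B x (a i) • (a i : ι → F)) := fun x => by
    simp [J]
  have hiso : ∀ x y, B (J x) (J y) = B x y := fun x y => by
    conv_rhs => rw [hx x]
    rw [hJ, hJ]
    simp only [map_sum, map_add, map_sub, map_smul, LinearMap.sum_apply, LinearMap.add_apply,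
      LinearMap.sub_apply, LinearMap.smul_apply, smul_eq_mul, haa, hbb, hab, hba, mul_zero,
      mul_ite, add_zero, zero_add, Finset.sum_const_zero, zero_mul, Finset.sum_ite_eq, Finset.sum_ite_eq', Finset.sum_add_distrib,
      Finset.mem_univ, if_true]
    rw [← Finset.sum_add_distrib]
    refine Finset.sum_congr rfl fun i _ => ?_
    rw [← P.alt.neg_eq y (a i), ← P.alt.neg_eq y (b i)]
    ring
  obtain ⟨g, hg⟩ : IsUnit (LinearMap.toMatrix' J) := Matrix.mulVec_injective_iff_isUnit.1
    fun x y h => by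
      simp only [LinearMap.toMatrix'_mulVec] at h
      rw [← sub_eq_zero]
      refine P.nd.1 _ fun z => ?_
      rw [← hiso, map_sub, h, sub_self, map_zero, LinearMap.zero_apply]
  have hgm : ∀ x, (g : Matrix ι ι F) *ᵥ x = J x := fun x => by
    rw [hg, LinearMap.toMatrix'_mulVec]
  refine ⟨g, mem_isoGroup.2 fun x y => by rw [hgm, hgm, hiso], ?_, ?_⟩ <;>
    refine Submodule.eq_of_le_of_finrank_eq (map_le_of_mulVec_mem fun x hx' => ?_)
      (by rw [finrank_map_gl, P.rank, P.rank])
  · rw [hgm, hJ]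
    refine Submodule.sum_mem _ fun i _ => ?_
    rw [P.singular 0 x hx' _ (a i).2, zero_smul, add_zero]
    exact (D 1).smul_mem _ (b i).2
  · rw [hgm, hJ]
    refine Submodule.sum_mem _ fun i _ => ?_
    rw [P.singular 1 x hx' _ (b i).2, zero_smul, zero_add]
    exact (D 0).smul_mem _ (a i).2

/-- An element outside the stabiliser generates the whole group with it. -/
lemma isoGroup_le {g : GL ι F} (hg : g ∈ G) (hgi : g ∈ isoGroup B)
    (hgn : g ∉ decompositionStabilizer D) : isoGroup B ≤ G := by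
  obtain ⟨j, w, hw, hw0, hC⟩ := P.exists_centre hle hg hgi hgn
  obtain ⟨J, hJ, hJ0, hJ1⟩ := P.exists_swap
  have hJG : J ∈ G := hle ⟨⟨Equiv.swap 0 1, fun i => by fin_cases i <;> simpa⟩, hJ⟩
  have hspread : ∀ u ∈ D j, u ∈ centres B G := fun u hu => P.centres_spread hle hw hw0 hC hu
  refine P.isoGroup_le_of_members hle fun k u hu => ?_
  obtain ⟨i, hij⟩ : ∃ i : Fin 2, i ≠ j := exists_ne j
  rcases fin2_or hij k with rfl | rfl
  · rcases fin2_cases hij with ⟨rfl, rfl⟩ | ⟨rfl, rfl⟩
    · rw [← hJ0] at hu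
      obtain ⟨y, hy, rfl⟩ := hu
      simpa using mulVec_mem_centres P.alt hJG hJ (hspread y hy)
    · rw [← hJ1] at hu
      obtain ⟨y, hy, rfl⟩ := hu
      simpa using mulVec_mem_centres P.alt hJG hJ (hspread y hy)
  · exact hspread u hu

end LagPair

end Cfsg.Agent.Lib.Forms
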