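import Cfsg.Agent.Lib.Forms.FieldLineBasic
import Mathlib.FieldTheory.Finite.GaloisField
import Mathlib.RingTheory.Norm.Transitivity
import Mathlib.LinearAlgebra.Transvection.Basic

/-!
Root elements and dilatations of a vector space over a larger field, and how one transvection
spreads to the special linear group.
-/

set_option autoImplicit false

namespace Cfsg.Agent.Lib.Forms

open Matrix

variable {ι : Type} [Fintype ι] [DecidableEq ι] {F : Type*} [Field F] [Finite F]
  {L : Type*} [Field L] [Algebra F L] [Module L (ι → F)] [IsScalarTower F L (ι → F)]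

/-- Over a finite field a square-zero unipotent has determinant one. -/
lemma uni_det (N : (ι → F) →ₗ[F] (ι → F)) : (uni N : Matrix ι ι F).det = 1 := by
  classical
  haveI : Fintype F := Fintype.ofFinite F
  by_cases h : N ∘ₗ N = 0
  swap
  · simp [uni, dif_neg h]
  rw [uni, dif_pos h]
  simp only
  set A := LinearMap.toMatrix' N with hA
  have hAA : A * A = 0 := by rw [hA, ← LinearMap.toMatrix'_comp, h, map_zero]
  have hpow : ∀ k : ℕ, (1 + A) ^ k = 1 + k • A := by
    intro k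
    induction k with
    | zero => simp
    | succ k ih =>
      rw [pow_succ, ih, add_mul, mul_add, mul_add, smul_mul_assoc, smul_mul_assoc, hAA,
        smul_zero, add_zero, mul_one, one_mul, succ_nsmul, mul_one]
      abel
  obtain ⟨p, hp⟩ := CharP.exists F
  haveI : Fact p.Prime := ⟨CharP.char_is_prime F p⟩
  have h1 := hpow p
  rw [← Nat.cast_smul_eq_nsmul F p A, CharP.cast_eq_zero F p, zero_smul, add_zero] at h1
  have h2 := congrArg Matrix.det h1
  rw [det_pow, det_one] at h2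
  have h3 : ((1 + A).det - 1) ^ p = 0 := by rw [sub_pow_char, h2, one_pow, sub_self]
  exact sub_eq_zero.1 (eq_zero_of_pow_eq_zero h3)

/-- The root map of a vector, a linear functional over the field, and an endomorphism. -/
noncomputable def rtN (e : ι → F) (Ψ : (ι → F) →ₗ[L] L) (A : L →ₗ[F] L) :
    (ι → F) →ₗ[F] (ι → F) :=
  lineMap e ∘ₗ A ∘ₗ Ψ.restrictScalars F

/-- The root element. -/
noncomputable def rtT (e : ι → F) (Ψ : (ι → F) →ₗ[L] L) (A : L →ₗ[F] L) : GL ι F :=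
  uni (rtN e Ψ A)

/-- The transvection of a vector and a functional. -/
noncomputable def tvF (w : ι → F) (φ : (ι → F) →ₗ[F] F) : GL ι F := uni (φ.smulRight w)

omit [Finite F] in
lemma tvF_mulVec {w : ι → F} {φ : (ι → F) →ₗ[F] F} (h : φ w = 0) (z : ι → F) :
    (tvF w φ : Matrix ι ι F) *ᵥ z = z + φ z • w :=
  uni_mulVec (fun v => by simp [h]) z

omit [Finite F] in
lemma rtT_mulVec {e : ι → F} {Ψ : (ι → F) →ₗ[L] L} (h : Ψ e = 0) (A : L →ₗ[F] L) (z : ι → F) :
    (rtT e Ψ A : Matrix ι ι F) *ᵥ z = z + A (Ψ z) • e :=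
  uni_mulVec (fun v => by simp [rtN, lineMap_apply, map_smul, h]) z

omit [Finite F] in
lemma rtT_add {e : ι → F} {Ψ : (ι → F) →ₗ[L] L} (h : Ψ e = 0) (A A' : L →ₗ[F] L) :
    rtT e Ψ (A + A') = rtT e Ψ A * rtT e Ψ A' := by
  refine gl_ext fun z => ?_
  rw [mul_mulVec', rtT_mulVec h, rtT_mulVec h, rtT_mulVec h]
  simp only [map_add, map_smul, h, smul_zero, add_zero, LinearMap.add_apply, add_smul]
  abel

omit [Finite F] in
lemma rtT_sub_mem {M : Subgroup (GL ι F)} {e : ι → F} {Ψ : (ι → F) →ₗ[L] L} (h : Ψ e = 0)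
    {A A' : L →ₗ[F] L} (hA : rtT e Ψ A ∈ M) (hA' : rtT e Ψ A' ∈ M) : rtT e Ψ (A - A') ∈ M := by
  have := mul_mem hA (inv_mem hA')
  rwa [← eq_mul_inv_of_mul_eq (show rtT e Ψ (A - A') * rtT e Ψ A' = rtT e Ψ A by
    rw [← rtT_add h, sub_add_cancel])] at this

omit [Finite F] in
lemma rtT_inv {e : ι → F} {Ψ : (ι → F) →ₗ[L] L} (h : Ψ e = 0) (A : L →ₗ[F] L) :
    (rtT e Ψ A)⁻¹ = rtT e Ψ (-A) := by
  refine inv_eq_of_mul_eq_one_right (gl_ext fun z => ?_)
  rw [← rtT_add h, rtT_mulVec h]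
  simp

variable [FiniteDimensional F L]

omit [Finite F] in
lemma finite_field_dim : Module.Finite L (ι → F) := Module.Finite.of_restrictScalars_finite F L _

omit [Finite F] [FiniteDimensional F L] in
lemma exists_dual_one {S : Submodule L (ι → F)} {x : ι → F} (hx : x ∉ S) :
    ∃ Ψ : (ι → F) →ₗ[L] L, Ψ x = 1 ∧ ∀ v ∈ S, Ψ v = 0 := by
  obtain ⟨Ψ, hΨ, hS⟩ := Submodule.exists_dual_map_eq_bot_of_notMem hx inferInstance
  refine ⟨(Ψ x)⁻¹ • Ψ, by simp [hΨ], fun v hv => ?_⟩
  have : Ψ v = 0 := by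
    have := Submodule.mem_map_of_mem (f := Ψ) hv
    rwa [hS, Submodule.mem_bot] at this
  simp [this]

omit [Finite F] [FiniteDimensional F L] in
lemma exists_dual_sep {a x : ι → F} (hx : ∀ k : L, x ≠ k • a) :
    ∃ Ψ : (ι → F) →ₗ[L] L, Ψ a = 0 ∧ Ψ x = 1 := by
  obtain ⟨Ψ, h1, h2⟩ := exists_dual_one (L := L) (S := L ∙ a) (x := x) fun h => by
    obtain ⟨k, hk⟩ := Submodule.mem_span_singleton.1 h
    exact hx k hk.symm
  exact ⟨Ψ, h2 a (Submodule.mem_span_singleton_self a), h1⟩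

omit [Finite F] in
/-- A dilatation. -/
lemma exists_dil (Ψ : (ι → F) →ₗ[L] L) {d : ι → F} (hd : Ψ d = 1) {u : L} (hu : u ≠ 0) :
    ∃ g : GL ι F, (∀ z, (g : Matrix ι ι F) *ᵥ z = z + ((u - 1) * Ψ z) • d) ∧
      (g : Matrix ι ι F).det = Algebra.norm F u := by
  haveI := finite_field_dim (ι := ι) (F := F) (L := L)
  set h := LinearMap.transvection ((u - 1) • Ψ) d with hh
  have hdet : LinearMap.det h = u := by
    rw [hh, LinearMap.transvection.det, LinearMap.smul_apply, hd, smul_eq_mul, mul_one,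
      add_sub_cancel]
  have hdetF : (LinearMap.toMatrix' (h.restrictScalars F)).det = Algebra.norm F u := by
    rw [LinearMap.det_toMatrix', LinearMap.det_restrictScalars, hdet]
  have hne : (LinearMap.toMatrix' (h.restrictScalars F)).det ≠ 0 := by
    rw [hdetF]; simpa using hu
  refine ⟨Matrix.GeneralLinearGroup.mkOfDetNeZero _ hne, fun z => ?_, hdetF⟩
  show LinearMap.toMatrix' (h.restrictScalars F) *ᵥ z = _
  rw [← Matrix.toLin'_apply, Matrix.toLin'_toMatrix']
  rfl

/-- The hypotheses: the subgroup contains the linear maps over the field of determinant one. -/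
def HasLin (L : Type*) [Field L] [Module L (ι → F)] (M : Subgroup (GL ι F)) : Prop :=
  ∀ g : GL ι F, (∀ (k : L) (z : ι → F), (g : Matrix ι ι F) *ᵥ (k • z) =
    k • ((g : Matrix ι ι F) *ᵥ z)) → (g : Matrix ι ι F).det = 1 → g ∈ M

variable {M : Subgroup (GL ι F)} (hM : HasLin L M)
include hM

omit [FiniteDimensional F L] in
lemma root_mem_lin {e : ι → F} {Ψ : (ι → F) →ₗ[L] L} (h : Ψ e = 0) (c : L) :
    rtT e Ψ (LinearMap.mulLeft F c) ∈ M := by
  refine hM _ (fun k z => ?_) (uni_det _)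
  rw [rtT_mulVec h, rtT_mulVec h, map_smul, smul_eq_mul, LinearMap.mulLeft_apply,
    LinearMap.mulLeft_apply, smul_add, smul_smul]
  congr 2
  ring

/-- A diagonal element scaling a vector and a complementary functional. -/
lemma exists_diag {e : ι → F} {Ψ : (ι → F) →ₗ[L] L} (h : Ψ e = 0) (hΨ : Ψ ≠ 0) (he : e ≠ 0)
    {u : L} (hu : u ≠ 0) :
    ∃ g ∈ M, (∀ (k : L) (z : ι → F), (g : Matrix ι ι F) *ᵥ (k • z) =
        k • ((g : Matrix ι ι F) *ᵥ z)) ∧ (g : Matrix ι ι F) *ᵥ e = u • e ∧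
      ∀ z, Ψ ((g : Matrix ι ι F) *ᵥ z) = u⁻¹ * Ψ z := by
  obtain ⟨d, hd⟩ : ∃ d, Ψ d = 1 := LinearMap.surjective hΨ 1
  obtain ⟨Φ, hΦd, hΦe⟩ := exists_dual_sep (L := L) (a := d) (x := e) fun k hk => he (by
    rw [hk, map_smul, hd, smul_eq_mul, mul_one] at h
    rw [hk, h, zero_smul])
  obtain ⟨g₁, hg₁, hd₁⟩ := exists_dil Φ hΦe hu
  obtain ⟨g₂, hg₂, hd₂⟩ := exists_dil Ψ hd (inv_ne_zero hu)
  have hz : ∀ z, ((g₁ * g₂ : GL ι F) : Matrix ι ι F) *ᵥ z =
      z + ((u⁻¹ - 1) * Ψ z) • d + ((u - 1) * Φ z) • e := fun z => by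
    rw [mul_mulVec', hg₁, hg₂, map_add, map_smul, hΦd, smul_zero, add_zero]
  have hlin : ∀ (k : L) (z : ι → F), ((g₁ * g₂ : GL ι F) : Matrix ι ι F) *ᵥ (k • z) =
      k • (((g₁ * g₂ : GL ι F) : Matrix ι ι F) *ᵥ z) := fun k z => by
    rw [hz, hz, map_smul, map_smul, smul_eq_mul, smul_eq_mul]
    module
  refine ⟨g₁ * g₂, hM _ hlin ?_, hlin, ?_, fun z => ?_⟩
  · rw [Units.val_mul, det_mul, hd₁, hd₂, ← map_mul, mul_inv_cancel₀ hu, map_one]
  · rw [hz, h, hΦe, mul_zero, zero_smul, add_zero, mul_one, sub_smul, one_smul, add_sub_cancel]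
  · rw [hz, map_add, map_add, map_smul, map_smul, hd, h, smul_zero, add_zero, smul_eq_mul]
    ring

/-- Congruence of the root endomorphisms. -/
lemma root_congr {e : ι → F} {Ψ : (ι → F) →ₗ[L] L} (h : Ψ e = 0) (hΨ : Ψ ≠ 0) (he : e ≠ 0)
    {u : L} (hu : u ≠ 0) {A : L →ₗ[F] L} (hA : rtT e Ψ A ∈ M) :
    rtT e Ψ (LinearMap.mulLeft F u ∘ₗ A ∘ₗ LinearMap.mulLeft F u) ∈ M := by
  obtain ⟨g, hg, hlin, hge, hgΨ⟩ := exists_diag hM h hΨ he hu
  convert mul_mem (mul_mem hg hA) (inv_mem hg) using 1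
  refine gl_ext fun z => ?_
  have e1 : Ψ (((g⁻¹ : GL ι F) : Matrix ι ι F) *ᵥ z) = u * Ψ z := by
    have := hgΨ (((g⁻¹ : GL ι F) : Matrix ι ι F) *ᵥ z)
    rw [mulVec_inv_mulVec] at this
    rw [this, ← mul_assoc, mul_inv_cancel₀ hu, one_mul]
  rw [mul_mulVec', mul_mulVec', rtT_mulVec h, rtT_mulVec h, mulVec_add, mulVec_inv_mulVec, hlin,
    hge, e1, smul_smul]
  simp [mul_comm]

omit [FiniteDimensional F L] in
/-- Linear maps over the field move any non-zero vector to any other. -/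
lemma exists_lin_move (h2 : ∀ a : ι → F, ∃ b, ∀ k : L, b ≠ k • a) {x y : ι → F} (hx : x ≠ 0)
    (hy : y ≠ 0) : ∃ g ∈ M, (∀ (k : L) (z : ι → F), (g : Matrix ι ι F) *ᵥ (k • z) =
      k • ((g : Matrix ι ι F) *ᵥ z)) ∧ (g : Matrix ι ι F) *ᵥ x = y := by
  have step : ∀ {x y : ι → F}, x ≠ 0 → (∀ k : L, y ≠ k • x) → ∃ g ∈ M,
      (∀ (k : L) (z : ι → F), (g : Matrix ι ι F) *ᵥ (k • z) =
        k • ((g : Matrix ι ι F) *ᵥ z)) ∧ (g : Matrix ι ι F) *ᵥ x = y := by
    intro x y hx hxy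
    obtain ⟨Ψ, hΨd, hΨx⟩ := exists_dual_sep (L := L) (a := y - x) (x := x) fun k hk => by
      rcases eq_or_ne k 0 with rfl | hk0
      · exact hx (by rw [hk, zero_smul])
      · refine hxy (k⁻¹ + 1) ?_
        rw [add_smul, one_smul, (inv_smul_eq_iff₀ hk0).2 hk, sub_add_cancel]
    refine ⟨_, root_mem_lin hM hΨd 1, fun k z => ?_, ?_⟩
    · rw [rtT_mulVec hΨd, rtT_mulVec hΨd, map_smul, smul_eq_mul, LinearMap.mulLeft_apply,
        LinearMap.mulLeft_apply, smul_add, smul_smul, one_mul, one_mul]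
    · rw [rtT_mulVec hΨd, LinearMap.mulLeft_apply, hΨx, mul_one, one_smul, add_sub_cancel]
  by_cases hd : ∃ k : L, y = k • x
  · obtain ⟨k, rfl⟩ := hd
    obtain ⟨b, hb⟩ := h2 x
    have hb0 : b ≠ 0 := fun e => hb 0 (by rw [e, zero_smul])
    obtain ⟨g₁, h1, l1, e1⟩ := step hx hb
    have hk : k ≠ 0 := fun e => hy (by rw [e, zero_smul])
    obtain ⟨g₂, h2', l2, e2⟩ := step (x := b) (y := k • x) hb0 fun l hl => by
      rcases eq_or_ne l 0 with rfl | hl0
      · exact hy (by rw [hl, zero_smul])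
      · exact hb (l⁻¹ * k) (by rw [mul_smul, hl, smul_smul, inv_mul_cancel₀ hl0, one_smul])
    exact ⟨g₂ * g₁, mul_mem h2' h1, fun l z => by rw [mul_mulVec', l1, l2, mul_mulVec'],
      by rw [mul_mulVec', e1, e2]⟩
  · push Not at hd
    exact step hx hd

/-- A transvection inside a line over the field spreads to the special linear group. -/
theorem sl_le_of_transvection (hp : (Module.finrank F L).Prime)
    (h2 : ∀ a : ι → F, ∃ b, ∀ k : L, b ≠ k • a) {w₀ : ι → F} (hw₀ : w₀ ≠ 0)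
    {Ψ₀ : (ι → F) →ₗ[L] L} (hΨ₀ : Ψ₀ ≠ 0) (hw : Ψ₀ w₀ = 0) {f : L →ₗ[F] F} (hf : f ≠ 0)
    (h : ∀ t : F, tvF w₀ ((t • f) ∘ₗ Ψ₀.restrictScalars F) ∈ M) :
    Cfsg.Geo.specialLinear ι F ≤ M := by
  classical
  haveI : Finite L := Module.finite_of_finite F
  -- the representation of functionals
  let Θ : L →ₗ[F] (L →ₗ[F] F) := LinearMap.compRight F f ∘ₗ LinearMap.mul F L
  have hΘ : ∀ a k, Θ a k = f (a * k) := fun a k => rfl
  have hinj : Function.Injective Θ := fun x y e => by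
    by_contra hne
    refine hf (LinearMap.ext fun l => ?_)
    have := congrArg (fun f => f (l / (x - y))) e
    simp only [hΘ] at this
    rw [← sub_eq_zero, ← map_sub, ← sub_mul, mul_div_cancel₀ _ (sub_ne_zero.2 hne)] at this
    simpa using this
  have hsurj : Function.Surjective Θ := (LinearMap.injective_iff_surjective_of_finrank_eq_finrank
    (Subspace.dual_finrank_eq (K := F) (V := L)).symm).1 hinj
  -- every functional through the given one
  let G : (ι → F) → ((ι → F) →ₗ[L] L) → Prop := fun w Ψ =>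
    ∀ l : L, tvF w ((Θ l) ∘ₗ Ψ.restrictScalars F) ∈ M
  have tv_conj : ∀ {g : GL ι F} {w : ι → F} {φ φ' : (ι → F) →ₗ[F] F}, g ∈ M → φ w = 0 →
      (∀ z, φ' ((g : Matrix ι ι F) *ᵥ z) = φ z) → tvF w φ ∈ M →
      tvF ((g : Matrix ι ι F) *ᵥ w) φ' ∈ M := by
    intro g w φ φ' hg hφ hφ' hm
    convert mul_mem (mul_mem hg hm) (inv_mem hg) using 1
    refine gl_ext fun z => ?_
    have e1 : φ' z = φ (((g⁻¹ : GL ι F) : Matrix ι ι F) *ᵥ z) := by
      rw [← hφ', mulVec_inv_mulVec]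
    rw [mul_mulVec', mul_mulVec', tvF_mulVec hφ, tvF_mulVec (by rw [hφ', hφ]), mulVec_add,
      mulVec_inv_mulVec, mulVec_smul, e1]
  have hG₀ : G w₀ Ψ₀ := by
    let S : Submodule F L :=
      { carrier := {l | ∀ t : F, tvF w₀ ((t • Θ l) ∘ₗ Ψ₀.restrictScalars F) ∈ M}
        add_mem' := fun {x y} hx hy t => by
          have := mul_mem (hx t) (hy t)
          convert this using 1
          refine gl_ext fun z => ?_
          rw [mul_mulVec', tvF_mulVec (by simp [hw]), tvF_mulVec (by simp [hw]),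
            tvF_mulVec (by simp [hw])]
          simp [hΘ, hw, add_mul]
          module
        zero_mem' := fun t => by
          convert M.one_mem
          refine gl_ext fun z => ?_
          rw [tvF_mulVec (by simp [hw])]
          simp
        smul_mem' := fun c x hx t => by
          convert hx (t * c) using 3
          rw [map_smul, smul_smul] }
    have h1 : (1 : L) ∈ S := fun t => by
      convert h t using 4
      exact LinearMap.ext fun k => by rw [hΘ, one_mul]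
    suffices hS : S = ⊤ by
      intro l
      have := (show l ∈ S from hS ▸ Submodule.mem_top) 1
      rwa [one_smul] at this
    by_contra hne
    have hbot : S ≠ ⊥ := fun e => one_ne_zero (α := L) (by rw [e] at h1; simpa using h1)
    obtain ⟨d, hd⟩ := LinearMap.surjective hΨ₀ 1
    have hone : ∀ u : L, Algebra.norm F u = 1 → ∃ c : F, algebraMap F L c = u := by
      intro u hu
      have hu0 : u ≠ 0 := fun e => by simp [e] at hu
      obtain ⟨g, hg, hdet⟩ := exists_dil Ψ₀ hd hu0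
      have hlin : ∀ (k : L) (z : ι → F), (g : Matrix ι ι F) *ᵥ (k • z) =
          k • ((g : Matrix ι ι F) *ᵥ z) := fun k z => by
        rw [hg, hg, map_smul, smul_eq_mul]
        module
      have hgM := hM g hlin (by rw [hdet, hu])
      obtain ⟨c, hc⟩ := scalar_of_stab F hp hbot hne (l := u⁻¹) fun l hl => fun t => by
        have hgw : (g : Matrix ι ι F) *ᵥ w₀ = w₀ := by simp [hg, hw]
        rw [← hgw]
        refine tv_conj hgM (by simp [hw]) (fun z => ?_) (hl t)
        simp only [LinearMap.comp_apply, LinearMap.smul_apply, LinearMap.coe_restrictScalars, hΘ,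
          hg, map_add, map_smul, smul_eq_mul, hd]
        rw [← mul_add, ← map_add]
        congr 2
        field_simp
        ring
      exact ⟨c⁻¹, by rw [map_inv₀, hc, inv_inv]⟩
    -- too many elements of norm one
    haveI : Fintype F := Fintype.ofFinite F
    haveI : Fintype L := Fintype.ofFinite L
    set q := Nat.card F with hq
    set r := Module.finrank F L with hr
    set N := Units.map (Algebra.norm F (S := L)) with hN
    have h3 := N.ker.card_mul_index
    rw [Subgroup.index_ker, MonoidHom.range_eq_top.2 (FiniteField.unitsMap_norm_surjective F L),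
      Subgroup.card_top, Nat.card_units, Nat.card_units, Module.natCard_eq_pow_finrank (K := F) (V := L)]
      at h3
    have h4 : Nat.card N.ker ≤ Nat.card Fˣ := by
      have : ∀ x : N.ker, ∃ c : Fˣ, algebraMap F L c = ((x : Lˣ) : L) := fun x => by
        obtain ⟨c, hc⟩ := hone ((x : Lˣ) : L) (congrArg Units.val (MonoidHom.mem_ker.1 x.2))
        exact ⟨Units.mk0 c fun e => Units.ne_zero (x : Lˣ) (by rw [← hc, e, map_zero]), hc⟩
      choose c hc using this
      exact Nat.card_le_card_of_injective c fun x y e =>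
        Subtype.ext (Units.ext (by rw [← hc x, ← hc y, e]))
    rw [Nat.card_units] at h4
    have hq2 : 2 ≤ q := Finite.one_lt_card
    have h5 : q ^ 2 ≤ q ^ r := Nat.pow_le_pow_right (by omega) hp.two_le
    have h6 : (q ^ r - 1) ≤ (q - 1) * (q - 1) := by
      rw [← h3]; exact Nat.mul_le_mul_right _ h4
    have h7' : ∀ x : ℕ, 2 ≤ x → (x - 1) * (x - 1) + 1 < x ^ 2 := by
      intro x hx
      obtain ⟨k, rfl⟩ : ∃ k, x = k + 2 := ⟨x - 2, by omega⟩
      simp only [show k + 2 - 1 = k + 1 by omega]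
      ring_nf
      omega
    have h7 := h7' q hq2
    omega
  -- transport
  have hGconj : ∀ {g : GL ι F} {w : ι → F} {Ψ Ψ' : (ι → F) →ₗ[L] L}, g ∈ M → Ψ w = 0 →
      (∀ z, Ψ' ((g : Matrix ι ι F) *ᵥ z) = Ψ z) → G w Ψ → G ((g : Matrix ι ι F) *ᵥ w) Ψ' :=
    fun hg hΨ hΨ' hG l => tv_conj hg (by simp [hΨ]) (fun z => by simp [hΨ']) (hG l)
  have hGall : ∀ (w : ι → F) (Ψ : (ι → F) →ₗ[L] L), w ≠ 0 → Ψ w = 0 → G w Ψ := by
    intro w Ψ hw0 hΨw
    rcases eq_or_ne Ψ 0 with rfl | hΨ0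
    · intro l
      convert M.one_mem
      refine gl_ext fun z => ?_
      rw [tvF_mulVec (by simp)]
      simp
    obtain ⟨g, hg, hlin, hgw⟩ := exists_lin_move hM h2 hw₀ hw0
    let gi : (ι → F) →ₗ[L] (ι → F) :=
      { toFun := fun z => ((g⁻¹ : GL ι F) : Matrix ι ι F) *ᵥ z
        map_add' := fun x y => mulVec_add _ _ _
        map_smul' := fun k z => gl_mulVec_injective g (by
          simp only [RingHom.id_apply]
          rw [mulVec_inv_mulVec, hlin, mulVec_inv_mulVec]) }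
    set Ψ₁ := Ψ₀ ∘ₗ gi with hΨ₁
    have hgi : ∀ z, gi ((g : Matrix ι ι F) *ᵥ z) = z := fun z => inv_mulVec_mulVec g z
    have hG1 : G w Ψ₁ := by
      rw [← hgw]
      exact hGconj hg hw (fun z => by rw [hΨ₁, LinearMap.comp_apply, hgi]) hG₀
    have hΨ₁w : Ψ₁ w = 0 := by rw [hΨ₁, ← hgw, LinearMap.comp_apply, hgi, hw]
    by_cases hdep : ∃ c : L, Ψ = c • Ψ₁
    · obtain ⟨c, rfl⟩ := hdep
      intro l
      convert hG1 (l * c) using 2
      refine LinearMap.ext fun z => ?_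
      simp [hΘ, mul_assoc]
    push Not at hdep
    obtain ⟨d, hd1, hd2⟩ : ∃ d, Ψ₁ d = 1 ∧ Ψ d = 1 := by
      have hΨ₁0 : Ψ₁ ≠ 0 := fun e => hΨ₀ (LinearMap.ext fun z => by
        have := LinearMap.congr_fun e ((g : Matrix ι ι F) *ᵥ z)
        rwa [hΨ₁, LinearMap.comp_apply, hgi] at this)
      obtain ⟨x, hx⟩ := LinearMap.surjective hΨ₁0 1
      obtain ⟨z, hz1, hz2⟩ : ∃ z, Ψ₁ z = 0 ∧ Ψ z = 1 := by
        by_contra hcon
        push Not at hcon
        refine hdep (Ψ x) (LinearMap.ext fun z => ?_)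
        have h0 : Ψ (z - Ψ₁ z • x) = 0 := by
          by_contra hne
          exact hcon ((Ψ (z - Ψ₁ z • x))⁻¹ • (z - Ψ₁ z • x)) (by simp [hx])
            (by rw [map_smul, smul_eq_mul, inv_mul_cancel₀ hne])
        rw [map_sub, map_smul, smul_eq_mul] at h0
        rw [LinearMap.smul_apply, smul_eq_mul]
        linear_combination h0
      exact ⟨x + (1 - Ψ x) • z, by simp [hx, hz1], by simp [hz2]⟩
    have hΦd : (Ψ₁ - Ψ) d = 0 := by simp [hd1, hd2]
    have hfix : (rtT d (Ψ₁ - Ψ) (LinearMap.mulLeft F (1 : L)) : Matrix ι ι F) *ᵥ w = w := by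
      rw [rtT_mulVec hΦd]
      simp [hΨ₁w, hΨw]
    rw [← hfix]
    refine hGconj (root_mem_lin hM hΦd 1) hΨ₁w (fun z => ?_) hG1
    rw [rtT_mulVec hΦd]
    simp [hd2]
  -- transvections with a centre line inside the axis
  have pure : ∀ (w : ι → F) (φ : (ι → F) →ₗ[F] F), (∀ k : L, φ (k • w) = 0) → tvF w φ ∈ M := by
    intro w φ hφ
    rcases eq_or_ne w 0 with rfl | hw0
    · convert M.one_mem
      refine gl_ext fun z => ?_
      rw [tvF_mulVec (map_zero φ)]
      simp
    let pr : (ι → F) → (L →ₗ[F] F) := fun z =>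
      { toFun := fun k => φ (k • z)
        map_add' := fun k l => by rw [add_smul, map_add]
        map_smul' := fun c k => by rw [smul_assoc, map_smul]; rfl }
    choose ψ hψ using fun z => hsurj (pr z)
    have hψ' : ∀ z k, f (ψ z * k) = φ (k • z) := fun z k => by rw [← hΘ, hψ]; rfl
    let Ψ : (ι → F) →ₗ[L] L :=
      { toFun := ψ
        map_add' := fun x y => hinj (LinearMap.ext fun k => by
          rw [hψ, hΘ, add_mul, map_add, hψ', hψ', ← map_add φ, ← smul_add]; rfl)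
        map_smul' := fun l x => hinj (LinearMap.ext fun k => by
          rw [hψ, RingHom.id_apply, hΘ, smul_eq_mul,
            show l * ψ x * k = ψ x * (k * l) by ring, hψ', mul_smul]; rfl) }
    have hΨw : Ψ w = 0 := hinj (LinearMap.ext fun k => by
      show Θ (ψ w) k = _
      rw [hψ, map_zero, LinearMap.zero_apply]
      exact hφ k)
    have := hGall w Ψ hw0 hΨw 1
    convert this using 2
    refine LinearMap.ext fun z => ?_
    show φ z = Θ 1 (ψ z)
    rw [hΘ, one_mul, ← mul_one (ψ z), hψ', one_smul]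
  refine specialLinear_le_of_tv M fun a v hva => ?_
  set φ : (ι → F) →ₗ[F] F := dotProductEquiv F ι v with hφdef
  have hφ : φ a = 0 := hva
  suffices tvF a φ ∈ M by
    convert this using 1
    exact gl_ext fun z => by rw [tv_mulVec hva, tvF_mulVec hφ]; rfl
  by_cases hline : ∀ k : L, φ (k • a) = 0
  · exact pure a φ hline
  push Not at hline
  obtain ⟨k₀, hk₀⟩ := hline
  have ha : a ≠ 0 := fun e => hk₀ (by rw [e, smul_zero, map_zero])
  -- a vector whose line lies in the axis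
  obtain ⟨w', hw', hw'a⟩ : ∃ w', (∀ k : L, φ (k • w') = 0) ∧ ∀ k : L, w' ≠ k • a := by
    obtain ⟨b, hb⟩ := h2 a
    let pr : (ι → F) → (L →ₗ[F] F) := fun z =>
      { toFun := fun k => φ (k • z)
        map_add' := fun k l => by rw [add_smul, map_add]
        map_smul' := fun c k => by rw [smul_assoc, map_smul]; rfl }
    obtain ⟨x, hx⟩ := hsurj (pr a)
    obtain ⟨y, hy⟩ := hsurj (pr b)
    have hx0 : x ≠ 0 := fun e => hk₀ (by
      have := LinearMap.congr_fun hx k₀
      rw [e, map_zero] at this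
      exact this.symm)
    refine ⟨b - (y / x) • a, fun k => ?_,
      fun k e => hb (k + y / x) (by rw [add_smul, ← e]; abel)⟩
    have e1 := LinearMap.congr_fun hx (k * (y / x))
    have e2 := LinearMap.congr_fun hy k
    rw [hΘ, show x * (k * (y / x)) = y * k by field_simp] at e1
    rw [hΘ] at e2
    rw [smul_sub, map_sub, smul_smul]
    show pr b k - pr a (k * (y / x)) = 0
    rw [← e1, ← e2, sub_self]
  obtain ⟨Ψ₁, hΨ₁a, hΨ₁w'⟩ := exists_dual_sep (L := L) (a := a) (x := w') hw'a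
  obtain ⟨k₁, hk₁⟩ := LinearMap.surjective hf 1
  set φ₁ : (ι → F) →ₗ[F] F := (Θ k₁) ∘ₗ Ψ₁.restrictScalars F with hφ₁
  have hφ₁a : φ₁ a = 0 := by simp [hφ₁, hΨ₁a]
  have hφ₁w : φ₁ w' = 1 := by simp [hφ₁, hΨ₁w', hΘ, hk₁]
  have hx : tvF a φ₁ ∈ M := pure a φ₁ fun k => by simp [hφ₁, hΨ₁a]
  have hy : tvF w' φ ∈ M := pure w' φ hw'
  have hφw' : φ w' = 0 := by simpa using hw' 1
  have key : tvF a φ * tvF w' φ = tvF a φ₁ * tvF w' φ * (tvF a φ₁)⁻¹ := by
    rw [eq_mul_inv_iff_mul_eq]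
    refine gl_ext fun z => ?_
    rw [mul_mulVec', mul_mulVec', mul_mulVec', tvF_mulVec hφ₁a, tvF_mulVec hφw', tvF_mulVec hφ,
      tvF_mulVec hφw', tvF_mulVec hφ₁a]
    simp only [map_add, map_smul, hφ, hφw', hφ₁a, hφ₁w, smul_zero, smul_eq_mul, mul_zero, mul_one,
      add_zero, add_smul]
    module
  have := mul_mem (mul_mem hx hy) (inv_mem hx)
  rw [← key] at this
  simpa using mul_mem this (inv_mem hy)

end Cfsg.Agent.Lib.Forms
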