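import Cfsg.Agent.Lib.Forms.LinExtBasic

/-!
A subgroup which contains the linear maps over a field of prime degree of determinant one, and one
element moving a line over that field off the lines, contains the special linear group.
-/

set_option autoImplicit false

namespace Cfsg.Agent.Lib.Forms

open Matrix

variable {ι : Type} [Fintype ι] [DecidableEq ι] {F : Type*} [Field F] [Finite F]
  {L : Type*} [Field L] [Algebra F L] [Module L (ι → F)] [IsScalarTower F L (ι → F)]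
  [FiniteDimensional F L] {M : Subgroup (GL ι F)}

/-- A conjugate line meeting a line in a hyperplane, with the associated functional. -/
lemma lin_hyperplane (hM : HasLin L M) (hp : (Module.finrank F L).Prime) {g₀ : GL ι F}
    (hg₀ : g₀ ∈ M) {a₀ : ι → F} {k₀ : L}
    (hbad : ∀ l : L, (g₀ : Matrix ι ι F) *ᵥ (k₀ • a₀) ≠ l • ((g₀ : Matrix ι ι F) *ᵥ a₀)) :
    ∃ g ∈ M, ∃ (a e : ι → F) (Ψ₀ : (ι → F) →ₗ[L] L) (σ k' : L) (π κ : L →ₗ[F] F),
      a ≠ 0 ∧ e ≠ 0 ∧ σ ≠ 0 ∧ Ψ₀ a = 0 ∧ π ≠ 0 ∧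
      (∀ k, Ψ₀ (((g⁻¹ : GL ι F) : Matrix ι ι F) *ᵥ (k • e)) = algebraMap F L (π k) * σ) ∧
      (∀ ω : L, π ω = 0 → ∃ w : L, κ w = 0 ∧ (g : Matrix ι ι F) *ᵥ (w • a) = ω • e) ∧
      (∀ w : L, κ w = 0 → ∃ l : L, l • e = (g : Matrix ι ι F) *ᵥ (w • a)) ∧ κ k' = 1 ∧
      ∀ l : L, l • e ≠ (g : Matrix ι ι F) *ᵥ (k' • a) := by
  classical
  let P : ℕ → Prop := fun s => ∃ g ∈ M, ∃ a e : ι → F, a ≠ 0 ∧ e ≠ 0 ∧
    lineCap (L := L) g a e ≠ ⊥ ∧ lineCap (L := L) g a e ≠ ⊤ ∧
    Module.finrank F (lineCap (L := L) g a e) = s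
  set r := Module.finrank F L with hr
  have ha₀ : a₀ ≠ 0 := fun e => hbad 0 (by rw [e]; simp)
  have hP : ∃ s ≤ r, P s := by
    refine ⟨_, Submodule.finrank_le _, g₀, hg₀, a₀, (g₀ : Matrix ι ι F) *ᵥ a₀, ha₀,
      fun e => ha₀ (gl_mulVec_injective g₀ (by simp [e])), ?_, ?_, rfl⟩
    · intro e
      have : (1 : L) ∈ lineCap g₀ a₀ ((g₀ : Matrix ι ι F) *ᵥ a₀) :=
        mem_lineCap.2 ⟨1, by rw [one_smul, one_smul]⟩
      rw [e] at this
      simp at this
    · intro e
      have : k₀ ∈ lineCap g₀ a₀ ((g₀ : Matrix ι ι F) *ᵥ a₀) := e ▸ Submodule.mem_top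
      obtain ⟨l, hl⟩ := mem_lineCap.1 this
      exact hbad l hl.symm
  obtain ⟨s₀, hs₀, hPs₀⟩ := hP
  set s := Nat.findGreatest P r with hs
  obtain ⟨g, hg, a, e, ha, he, hbot, htop, hdim⟩ : P s := Nat.findGreatest_spec hs₀ hPs₀
  have hmax : ∀ g ∈ M, ∀ a e : ι → F, a ≠ 0 → e ≠ 0 → lineCap (L := L) g a e ≠ ⊥ →
      lineCap (L := L) g a e ≠ ⊤ → Module.finrank F (lineCap (L := L) g a e) ≤ s :=
    fun g hg a e ha he h1 h2 => Nat.le_findGreatest (Submodule.finrank_le _)
      ⟨g, hg, a, e, ha, he, h1, h2, rfl⟩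
  set W0 := lineCap (L := L) g a e with hW0
  have hmap1 : Module.finrank F
      (Submodule.map (Matrix.toLin' (g : Matrix ι ι F) ∘ₗ lineMap a) W0) = s := by
    rw [← hdim]
    refine LinearEquiv.finrank_eq (Submodule.equivMapOfInjective _ ?_ _).symm
    exact (gl_mulVec_injective g).comp (lineMap_injective ha)
  have hmap2 : ∀ U : Submodule F L,
      Module.finrank F (Submodule.map (lineMap e) U) = Module.finrank F U := fun U =>
    LinearEquiv.finrank_eq (Submodule.equivMapOfInjective _ (lineMap_injective he) _).symm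
  obtain ⟨k₁, hk₁⟩ : ∃ k₁ : L, ∀ l : L,
      ((g⁻¹ : GL ι F) : Matrix ι ι F) *ᵥ (k₁ • e) ≠ l • a := by
    by_contra hcon
    push Not at hcon
    have hle : Submodule.map (lineMap (L := L) e) ⊤ ≤
        Submodule.map (Matrix.toLin' (g : Matrix ι ι F) ∘ₗ lineMap a) W0 := by
      rintro _ ⟨k, -, rfl⟩
      obtain ⟨l, hl⟩ := hcon k
      have e1 : (g : Matrix ι ι F) *ᵥ (l • a) = k • e := by rw [← hl, mulVec_inv_mulVec]
      exact ⟨l, mem_lineCap.2 ⟨k, e1.symm⟩, by simpa [lineMap_apply] using e1⟩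
    have := Submodule.finrank_mono hle
    rw [hmap1, hmap2, finrank_top] at this
    exact htop (Submodule.eq_top_of_finrank_eq (le_antisymm (Submodule.finrank_le _) (by omega)))
  obtain ⟨Ψ₀, hΨa, hΨk⟩ := exists_dual_sep (L := L) hk₁
  let Z : L →ₗ[F] L := Ψ₀.restrictScalars F ∘ₗ
    Matrix.toLin' ((g⁻¹ : GL ι F) : Matrix ι ι F) ∘ₗ lineMap e
  have hZ : ∀ k, Z k = Ψ₀ (((g⁻¹ : GL ι F) : Matrix ι ι F) *ᵥ (k • e)) := fun k => rfl
  have hZ1 : Z k₁ ≠ 0 := by rw [hZ, hΨk]; exact one_ne_zero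
  have hker : Submodule.map (Matrix.toLin' (g : Matrix ι ι F) ∘ₗ lineMap a) W0 ≤
      Submodule.map (lineMap e) (LinearMap.ker Z) := by
    rintro _ ⟨k, hk, rfl⟩
    obtain ⟨l, hl⟩ := mem_lineCap.1 hk
    refine ⟨l, ?_, by simpa [lineMap_apply] using hl⟩
    rw [SetLike.mem_coe, LinearMap.mem_ker, hZ, hl, inv_mulVec_mulVec, map_smul, hΨa, smul_zero]
  have hsker : s ≤ Module.finrank F (LinearMap.ker Z) := by
    have := Submodule.finrank_mono hker
    rwa [hmap1, hmap2] at this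
  have cap : ∀ c, lineCap (g * rtT a Ψ₀ (LinearMap.mulLeft F c) * g⁻¹) e e =
      Submodule.comap (LinearMap.mulLeft F c ∘ₗ Z) W0 := by
    intro c
    ext k
    rw [mem_lineCap, Submodule.mem_comap, mem_lineCap, mul_mulVec', mul_mulVec', rtT_mulVec hΨa,
      mulVec_add, mulVec_inv_mulVec]
    constructor
    · rintro ⟨l, hl⟩
      exact ⟨l - k, by rw [sub_smul, hl]; simp [hZ]⟩
    · rintro ⟨l, hl⟩
      exact ⟨k + l, by rw [add_smul, hl]; simp [hZ]⟩
  have hbotC : ∀ c, LinearMap.ker Z ≤ Submodule.comap (LinearMap.mulLeft F c ∘ₗ Z) W0 :=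
    fun c k hk => by
      rw [Submodule.mem_comap, LinearMap.comp_apply, LinearMap.mem_ker.1 hk, map_zero]
      exact W0.zero_mem
  have hkne : LinearMap.ker Z ≠ ⊥ := fun h => by
    rw [h, finrank_bot] at hsker
    rw [Nat.le_zero.1 hsker] at hdim
    exact hbot (Submodule.finrank_eq_zero.1 hdim)
  have hy : ∀ c, g * rtT a Ψ₀ (LinearMap.mulLeft F c) * g⁻¹ ∈ M := fun c =>
    mul_mem (mul_mem hg (root_mem_lin hM hΨa c)) (inv_mem hg)
  have whole : ∀ c k, Z k ≠ 0 → c * Z k ∈ W0 → ∀ k', c * Z k' ∈ W0 := by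
    intro c k hk hck k'
    by_contra hk'
    have h1 := hmax _ (hy c) e e he he
      (fun h => hkne (eq_bot_iff.2 ((hbotC c).trans (by rw [← cap, h]))))
      (fun h => hk' (by
        have : k' ∈ Submodule.comap (LinearMap.mulLeft F c ∘ₗ Z) W0 := by
          rw [← cap, h]; trivial
        simpa using this))
    rw [cap] at h1
    have h2 := Submodule.finrank_lt_finrank_of_lt (lt_of_le_of_ne (hbotC c) fun h => hk (by
      have : k ∈ LinearMap.ker Z := by rw [h]; simpa using hck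
      simpa using this))
    omega
  set σ := Z k₁ with hσdef
  have hline : ∀ k, ∃ t : F, Z k = algebraMap F L t * σ := by
    intro k
    obtain ⟨t, ht⟩ := scalar_of_stab F hp hbot htop (l := Z k / σ) fun w hw => by
      have := whole (w / σ) k₁ hZ1 (by rw [← hσdef, div_mul_cancel₀ _ hZ1]; exact hw) k
      rwa [show Z k / σ * w = w / σ * Z k by ring]
    exact ⟨t, by rw [ht, div_mul_cancel₀ _ hZ1]⟩
  obtain ⟨π, hπ⟩ : ∃ ξ : L →ₗ[F] F, ∀ k, Z k = algebraMap F L (ξ k) * σ := by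
    obtain ⟨φ, hφ⟩ := LinearMap.exists_leftInverse_of_injective
      (LinearMap.toSpanSingleton F L σ) (LinearMap.ker_eq_bot.2 (smul_left_injective F hZ1))
    refine ⟨φ ∘ₗ Z, fun k => ?_⟩
    obtain ⟨t, ht⟩ := hline k
    have e := LinearMap.congr_fun hφ t
    simp only [LinearMap.comp_apply, LinearMap.toSpanSingleton_apply, LinearMap.id_apply] at e
    show Z k = algebraMap F L (φ (Z k)) * σ
    rw [ht, ← Algebra.smul_def, e]
    exact Algebra.smul_def t σ
  have hπ0 : π ≠ 0 := fun h => hZ1 (by rw [hσdef, hπ, h]; simp)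
  obtain ⟨k', hk'⟩ : ∃ k', k' ∉ W0 := by
    by_contra hcon
    push Not at hcon
    exact htop (eq_top_iff.2 fun k _ => hcon k)
  have hkc : Module.finrank F (LinearMap.ker Z) ≤ s := by
    have hck : ∀ k, k' / σ * Z k ∈ W0 → k ∈ LinearMap.ker Z := by
      intro k hk
      by_contra hk0
      have := whole (k' / σ) k (by simpa using hk0) hk k₁
      rw [← hσdef, div_mul_cancel₀ _ hZ1] at this
      exact hk' this
    have h1 := hmax _ (hy (k' / σ)) e e he he
      (fun h => hkne (eq_bot_iff.2 ((hbotC _).trans (by rw [← cap, h]))))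
      (fun h => hk' (by
        have : k₁ ∈ Submodule.comap (LinearMap.mulLeft F (k' / σ) ∘ₗ Z) W0 := by
          rw [← cap, h]; trivial
        rw [Submodule.mem_comap, LinearMap.comp_apply, LinearMap.mulLeft_apply, ← hσdef,
          div_mul_cancel₀ _ hZ1] at this
        exact this))
    rw [cap] at h1
    exact (Submodule.finrank_mono (hbotC (k' / σ))).trans h1
  have heq : Submodule.map (Matrix.toLin' (g : Matrix ι ι F) ∘ₗ lineMap a) W0 =
      Submodule.map (lineMap e) (LinearMap.ker Z) :=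
    Submodule.eq_of_le_of_finrank_le hker (by rw [hmap1, hmap2]; exact hkc)
  -- the intersection is a hyperplane
  have hkπ : LinearMap.ker Z = LinearMap.ker π := by
    ext k
    simp [hπ, hZ1]
  obtain ⟨κ, hκ, hκW⟩ : ∃ κ : L →ₗ[F] F, κ k' = 1 ∧ ∀ w, (κ w = 0 ↔ w ∈ W0) := by
    obtain ⟨f, hfx, hf⟩ := Submodule.exists_dual_map_eq_bot_of_notMem hk' inferInstance
    have hle : W0 ≤ LinearMap.ker f := fun w hw => by
      have := Submodule.mem_map_of_mem (f := f) hw
      rwa [hf, Submodule.mem_bot] at this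
    have heq' : W0 = LinearMap.ker f := by
      refine Submodule.eq_of_le_of_finrank_le hle ?_
      have h1 := f.finrank_range_add_finrank_ker
      rw [LinearMap.range_eq_top.2 (LinearMap.surjective fun e => hfx (by simp [e])),
        finrank_top, Module.finrank_self] at h1
      have h2 := π.finrank_range_add_finrank_ker
      rw [LinearMap.range_eq_top.2 (LinearMap.surjective hπ0), finrank_top,
        Module.finrank_self, ← hkπ] at h2
      omega
    refine ⟨(f k')⁻¹ • f, by simp [hfx], fun w => ?_⟩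
    rw [heq', LinearMap.smul_apply, smul_eq_mul, mul_eq_zero, LinearMap.mem_ker]
    simp [hfx]
  refine ⟨g, hg, a, e, Ψ₀, σ, k', π, κ, ha, he, hZ1, hΨa, hπ0, fun k => by rw [← hZ, hπ],
    fun ω hω => ?_, fun w hw => mem_lineCap.1 ((hκW w).1 hw), hκ,
    fun l hl => hk' (mem_lineCap.2 ⟨l, hl⟩)⟩
  have : lineMap e ω ∈ Submodule.map (lineMap (L := L) e) (LinearMap.ker Z) :=
    ⟨ω, by rw [hkπ]; exact hω, rfl⟩
  rw [← heq] at this
  obtain ⟨w, hw, hw'⟩ := this
  exact ⟨w, (hκW w).2 hw, by simpa [lineMap_apply] using hw'⟩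

omit [Finite F] in
/-- Every functional on the field is given by a multiplier. -/
lemma exists_mul_rep {π : L →ₗ[F] F} (hπ : π ≠ 0) (v : L) (hv : v ≠ 0) (t : F) :
    ∃ l, π (v * l) = t := by
  obtain ⟨k, hk⟩ := LinearMap.surjective hπ t
  exact ⟨k / v, by rw [mul_div_cancel₀ _ hv, hk]⟩

omit [Finite F] [FiniteDimensional F L] in
lemma tvF_eq_rtT {e : ι → F} {Ψ : (ι → F) →ₗ[L] L} (h : Ψ e = 0) {ω : L} {f : L →ₗ[F] F}
    {t : F} {A : L →ₗ[F] L} (hA : ∀ X, A X = (t * f X) • ω) :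
    tvF (ω • e) ((t • f) ∘ₗ Ψ.restrictScalars F) = rtT e Ψ A := by
  refine gl_ext fun z => ?_
  rw [tvF_mulVec (by simp [h]), rtT_mulVec h, hA, smul_assoc]
  simp

/-- Containment of the special linear group. -/
theorem sl_le_of_moved (hM : HasLin L M) (hp : (Module.finrank F L).Prime)
    (h2 : ∀ a : ι → F, ∃ b, ∀ k : L, b ≠ k • a)
    (hsmall : 3 ≤ Module.finrank F L ∨ (∃ s : F, s ≠ 0 ∧ s ≠ 1) ∨
      3 ≤ Module.finrank L (ι → F))
    {g₀ : GL ι F} (hg₀ : g₀ ∈ M) {a₀ : ι → F} {k₀ : L}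
    (hbad : ∀ l : L, (g₀ : Matrix ι ι F) *ᵥ (k₀ • a₀) ≠ l • ((g₀ : Matrix ι ι F) *ᵥ a₀)) :
    Cfsg.Geo.specialLinear ι F ≤ M := by
  classical
  obtain ⟨g, hg, a, e, Ψ₀, σ, k', π, κ, ha, he, hσ, hΨ₀, hπ, hZ, hW, hW', hκ, hk'⟩ :=
    lin_hyperplane hM hp hg₀ hbad
  set u := (g : Matrix ι ι F) *ᵥ (k' • a) with hu
  have hue : ∀ l : L, u ≠ l • e := fun l hl => hk' l hl.symm
  -- the image of the line
  have hU : ∀ l : L, ∃ m : L, (g : Matrix ι ι F) *ᵥ (l • a) = m • e + κ l • u := by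
    intro l
    obtain ⟨m, hm⟩ := hW' (l - κ l • k') (by rw [map_sub, map_smul, hκ]; simp)
    refine ⟨m, ?_⟩
    rw [sub_smul, mulVec_sub, smul_assoc, mulVec_smul, ← hu] at hm
    rw [hm, sub_add_cancel]
  obtain ⟨ω₀, hω₀, hω₀'⟩ : ∃ ω, π ω = 0 ∧ ω ≠ 0 := by
    obtain ⟨k, hk, hk0⟩ := (LinearMap.ker π).exists_mem_ne_zero_of_ne_bot fun h => by
      have h1 := π.finrank_range_add_finrank_ker
      have h2 := Submodule.finrank_le (LinearMap.range π)
      rw [h, finrank_bot] at h1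
      rw [Module.finrank_self] at h2
      have := hp.two_le
      omega
    exact ⟨k, hk, hk0⟩
  -- a functional killing the line and the new vector, or only the line
  by_cases hbig : ∃ x : ι → F, x ∉ Submodule.span L ({e, u} : Set (ι → F))
  · obtain ⟨x, hx⟩ := hbig
    obtain ⟨Ψ, hΨx, hΨS⟩ := exists_dual_one (L := L) hx
    have hΨe : Ψ e = 0 := hΨS e (Submodule.subset_span (Set.mem_insert _ _))
    have hΨu : Ψ u = 0 := hΨS u (Submodule.subset_span (by simp))
    have hΨne : Ψ ≠ 0 := fun h => by rw [h] at hΨx; simp at hΨx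
    refine sl_le_of_transvection hM hp h2 (w₀ := ω₀ • e) (smul_ne_zero hω₀' he) hΨne
      (by rw [map_smul, hΨe, smul_zero]) hπ fun t => ?_
    obtain ⟨w, hw, hwe⟩ := hW ω₀ hω₀
    set y := g * rtT a Ψ₀ (LinearMap.mulLeft F (w / σ)) * g⁻¹ with hy
    have hyM : y ∈ M := mul_mem (mul_mem hg (root_mem_lin hM hΨ₀ _)) (inv_mem hg)
    set l := algebraMap F L t with hl
    have key : y * rtT e Ψ (LinearMap.mulLeft F l) * y⁻¹ =
        rtT e Ψ ((t • π).smulRight ω₀ + LinearMap.mulLeft F l) := by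
      refine gl_ext fun z => ?_
      have hyi : ((y⁻¹ : GL ι F) : Matrix ι ι F) *ᵥ z = z - (g : Matrix ι ι F) *ᵥ
          ((w / σ * Ψ₀ (((g⁻¹ : GL ι F) : Matrix ι ι F) *ᵥ z)) • a) := by
        rw [hy, _root_.mul_inv_rev, _root_.mul_inv_rev, inv_inv, ← mul_assoc, rtT_inv hΨ₀,
          mul_mulVec', mul_mulVec', rtT_mulVec hΨ₀, mulVec_add, mulVec_inv_mulVec]
        simp [neg_smul, mulVec_neg, sub_eq_add_neg]
      have hΨy : Ψ (((y⁻¹ : GL ι F) : Matrix ι ι F) *ᵥ z) = Ψ z := by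
        obtain ⟨m, hm⟩ := hU (w / σ * Ψ₀ (((g⁻¹ : GL ι F) : Matrix ι ι F) *ᵥ z))
        rw [hyi, hm]
        simp [hΨe, hΨu, LinearMap.map_smul_of_tower]
      have hye : ∀ k : L, (y : Matrix ι ι F) *ᵥ (k • e) = (k + π k • ω₀) • e := by
        intro k
        rw [hy, mul_mulVec', mul_mulVec', rtT_mulVec hΨ₀, mulVec_add, mulVec_inv_mulVec, hZ,
          LinearMap.mulLeft_apply, show w / σ * (algebraMap F L (π k) * σ) =
            π k • w by rw [Algebra.smul_def]; field_simp, smul_assoc, mulVec_smul, hwe, add_smul,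
          smul_assoc]
      rw [mul_mulVec', mul_mulVec', rtT_mulVec hΨe, rtT_mulVec hΨe, mulVec_add, mulVec_inv_mulVec,
        hΨy, LinearMap.mulLeft_apply, hye, LinearMap.add_apply, LinearMap.smulRight_apply,
        LinearMap.smul_apply, LinearMap.mulLeft_apply]
      congr 2
      rw [hl, ← Algebra.smul_def, map_smul]
      abel
    have h1 := mul_mem (mul_mem hyM (root_mem_lin hM hΨe l)) (inv_mem hyM)
    rw [key] at h1
    have h3 := rtT_sub_mem hΨe h1 (root_mem_lin hM hΨe l)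
    rw [add_sub_cancel_right] at h3
    rwa [tvF_eq_rtT hΨe (A := (t • π).smulRight ω₀) fun X => by simp]
  push Not at hbig
  -- two dimensions
  obtain ⟨Ψ, hΨe, hΨu⟩ := exists_dual_sep (L := L) hue
  have hΨne : Ψ ≠ 0 := fun h => by rw [h] at hΨu; simp at hΨu
  have hker : ∀ z, ∃ m : L, z = m • e + Ψ z • u := by
    intro z
    obtain ⟨x, y, hxy⟩ := Submodule.mem_span_pair.1 (hbig z)
    refine ⟨x, ?_⟩
    rw [← hxy]
    simp [hΨe, hΨu]
  let η : L → (L →ₗ[F] F) := fun w => κ ∘ₗ LinearMap.mulLeft F (w / σ) ∘ₗ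
    Ψ₀.restrictScalars F ∘ₗ Matrix.toLin' ((g⁻¹ : GL ι F) : Matrix ι ι F) ∘ₗ lineMap u
  have Dmem : ∀ (ω w : L), π ω = 0 → κ w = 0 → (g : Matrix ι ι F) *ᵥ (w • a) = ω • e →
      ∀ (l : L) (A : L →ₗ[F] L),
      (∀ X, A X = -(η w X) • l + (π (l * X) - η w X * π l) • ω) → rtT e Ψ A ∈ M := by
    intro ω w hω hw hwe l A hA
    set y := g * rtT a Ψ₀ (LinearMap.mulLeft F (w / σ)) * g⁻¹ with hy
    have hyM : y ∈ M := mul_mem (mul_mem hg (root_mem_lin hM hΨ₀ _)) (inv_mem hg)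
    have hye : ∀ k : L, (y : Matrix ι ι F) *ᵥ (k • e) = (k + π k • ω) • e := by
      intro k
      rw [hy, mul_mulVec', mul_mulVec', rtT_mulVec hΨ₀, mulVec_add, mulVec_inv_mulVec, hZ,
        LinearMap.mulLeft_apply, show w / σ * (algebraMap F L (π k) * σ) =
          π k • w by rw [Algebra.smul_def]; field_simp, smul_assoc, mulVec_smul, hwe, add_smul,
        smul_assoc]
    have key : y * rtT e Ψ (LinearMap.mulLeft F l) * y⁻¹ =
        rtT e Ψ (A + LinearMap.mulLeft F l) := by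
      refine gl_ext fun z => ?_
      set θ := fun z => κ (w / σ * Ψ₀ (((g⁻¹ : GL ι F) : Matrix ι ι F) *ᵥ z)) with hθ
      have hyi : ((y⁻¹ : GL ι F) : Matrix ι ι F) *ᵥ z = z - (g : Matrix ι ι F) *ᵥ
          ((w / σ * Ψ₀ (((g⁻¹ : GL ι F) : Matrix ι ι F) *ᵥ z)) • a) := by
        rw [hy, _root_.mul_inv_rev, _root_.mul_inv_rev, inv_inv, ← mul_assoc, rtT_inv hΨ₀,
          mul_mulVec', mul_mulVec', rtT_mulVec hΨ₀, mulVec_add, mulVec_inv_mulVec]
        simp [neg_smul, mulVec_neg, sub_eq_add_neg]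
      have hθe : ∀ m : L, θ (m • e) = 0 := fun m => by
        simp only [hθ, hZ]
        rw [show w / σ * (algebraMap F L (π m) * σ) = π m • w by
          rw [Algebra.smul_def]; field_simp, map_smul, hw, smul_zero]
      have hθz : θ z = η w (Ψ z) := by
        obtain ⟨m, hm⟩ := hker z
        have := hθe m
        simp only [hθ] at this
        conv_lhs => rw [hm]
        simp only [hθ, η, mulVec_add, map_add, mul_add, this, zero_add]
        rfl
      have hΨy : Ψ (((y⁻¹ : GL ι F) : Matrix ι ι F) *ᵥ z) =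
          Ψ z - algebraMap F L (η w (Ψ z)) := by
        obtain ⟨m, hm⟩ := hU (w / σ * Ψ₀ (((g⁻¹ : GL ι F) : Matrix ι ι F) *ᵥ z))
        rw [hyi, hm, ← hθz]
        simp [hθ, hΨe, hΨu, LinearMap.map_smul_of_tower, Algebra.algebraMap_eq_smul_one]
      rw [mul_mulVec', mul_mulVec', rtT_mulVec hΨe, rtT_mulVec hΨe, mulVec_add, mulVec_inv_mulVec,
        hΨy, LinearMap.mulLeft_apply, hye, LinearMap.add_apply, LinearMap.mulLeft_apply, hA]
      congr 2
      rw [show l * (Ψ z - algebraMap F L (η w (Ψ z))) = l * Ψ z - η w (Ψ z) • l by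
        rw [Algebra.smul_def]; ring, map_sub, map_smul, smul_eq_mul]
      module
    have h1 := mul_mem (mul_mem hyM (root_mem_lin hM hΨe l)) (inv_mem hyM)
    rw [key] at h1
    have h3 := rtT_sub_mem hΨe h1 (root_mem_lin hM hΨe l)
    rwa [add_sub_cancel_right] at h3
  by_cases hgen : ∃ ω w, π ω = 0 ∧ κ w = 0 ∧ (g : Matrix ι ι F) *ᵥ (w • a) = ω • e ∧
      ∃ X₀, η w X₀ ≠ π (ω * X₀)
  · obtain ⟨ω, w, hω, hw, hwe, X₀, hX₀⟩ := hgen
    have hω0 : ω ≠ 0 := by
      rintro rfl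
      have e0 : w = 0 := lineMap_injective (F := F) ha (gl_mulVec_injective g (by
        simpa [lineMap_apply] using hwe))
      exact hX₀ (by simp [e0, η])
    refine sl_le_of_transvection hM hp h2 (w₀ := ω • e) (smul_ne_zero hω0 he) hΨne
      (by rw [map_smul, hΨe, smul_zero]) (f := π ∘ₗ LinearMap.mulLeft F ω - η w)
      (fun h => hX₀ (by
        have := LinearMap.congr_fun h X₀
        simp only [LinearMap.sub_apply, LinearMap.comp_apply, LinearMap.mulLeft_apply,
          LinearMap.zero_apply] at this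
        exact (sub_eq_zero.1 this).symm)) fun t => ?_
    rw [tvF_eq_rtT hΨe (A := (t • (π ∘ₗ LinearMap.mulLeft F ω - η w)).smulRight ω) fun X => by simp]
    refine Dmem ω w hω hw hwe (t • ω) _ fun X => ?_
    simp only [LinearMap.smulRight_apply, LinearMap.smul_apply, LinearMap.sub_apply,
      LinearMap.comp_apply, LinearMap.mulLeft_apply, smul_mul_assoc, map_smul, hω, smul_eq_mul,
      mul_zero, sub_zero]
    module
  push Not at hgen
  -- the alternating case
  let D : L → L → (L →ₗ[F] L) := fun ω l =>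
    (-(π ∘ₗ LinearMap.mulLeft F ω)).smulRight l +
      ((π ∘ₗ LinearMap.mulLeft F l) - π l • (π ∘ₗ LinearMap.mulLeft F ω)).smulRight ω
  have hD : ∀ ω l X, D ω l X = -(π (ω * X)) • l + (π (l * X) - π l * π (ω * X)) • ω :=
    fun ω l X => rfl
  have Dm : ∀ ω l, π ω = 0 → rtT e Ψ (D ω l) ∈ M := fun ω l hω => by
    obtain ⟨w, hw, hwe⟩ := hW ω hω
    refine Dmem ω w hω hw hwe l _ fun X => ?_
    rw [hD, hgen ω w hω hw hwe X]
    ring_nf
  obtain ⟨v, hv⟩ := LinearMap.surjective hπ 1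
  rcases hsmall with h3 | ⟨s, hs0, hs1⟩ | h3
  case' inr.inr =>
    classical
    haveI : Module.Finite L (ι → F) := finite_field_dim
    have h4 := Submodule.finrank_mono (show (⊤ : Submodule L (ι → F)) ≤
      Submodule.span L (({e, u} : Finset (ι → F)) : Set (ι → F)) from fun z _ => by
        simpa using hbig z)
    rw [finrank_top] at h4
    have h5 := (finrank_span_finset_le_card (R := L) ({e, u} : Finset (ι → F)))
    rw [Set.finrank] at h5
    have h6 := Finset.card_le_two (a := e) (b := u)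
    exact absurd h4 (by omega)
  · set f : L →ₗ[F] F := π ∘ₗ LinearMap.mulLeft F ((2 : F) • v - ω₀) with hf
    have hf0 : f ≠ 0 := by
      have hne : (2 : F) • v - ω₀ ≠ 0 := fun h => by
        have h' := congrArg π h
        rw [map_sub, map_smul, hv, hω₀, map_zero, smul_eq_mul, mul_one, sub_zero] at h'
        rw [h', zero_smul, zero_sub, neg_eq_zero] at h
        exact hω₀' h
      intro h
      obtain ⟨l, hl⟩ := exists_mul_rep hπ _ hne 1
      have := LinearMap.congr_fun h l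
      simp [hf, hl] at this
    refine sl_le_of_transvection hM hp h2 (w₀ := ω₀ • e) (smul_ne_zero hω₀' he) hΨne
      (by rw [map_smul, hΨe, smul_zero]) hf0 fun t => ?_
    set l := t • v with hl
    obtain ⟨c, hc, hc0⟩ : ∃ c : L, (π (ω₀ * c) = 0 ∧ π (l * c) = 0) ∧ c ≠ 0 := by
      let f : L →ₗ[F] (F × F) := (π ∘ₗ LinearMap.mulLeft F ω₀).prod (π ∘ₗ LinearMap.mulLeft F l)
      have h1 := f.finrank_range_add_finrank_ker
      have h2 := Submodule.finrank_le (LinearMap.range f)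
      rw [Module.finrank_prod, Module.finrank_self] at h2
      obtain ⟨c, hc, hc0⟩ := (LinearMap.ker f).exists_mem_ne_zero_of_ne_bot fun e => by
        rw [e, finrank_bot] at h1
        omega
      exact ⟨c, by simpa [f] using hc, hc0⟩
    let sh : L → L → (L →ₗ[F] L) := fun x y =>
      (π ∘ₗ LinearMap.mulLeft F x).smulRight y + (π ∘ₗ LinearMap.mulLeft F y).smulRight x
    have hsh : ∀ x y X, sh x y X = π (x * X) • y + π (y * X) • x := fun x y X => rfl
    set ω₁ := ω₀ * c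
    set ω₂ := l * c
    have h12 : rtT e Ψ (sh ω₁ ω₂) ∈ M := by
      have := rtT_sub_mem hΨe (rtT_sub_mem hΨe (Dm ω₁ v hc.1) (Dm (ω₁ + ω₂) v
        (by rw [map_add, hc.1, hc.2, add_zero]))) (rtT_sub_mem hΨe
          (by simpa using rtT_sub_mem hΨe (Dm ω₂ v hc.2) (Dm ω₂ v hc.2) :
            rtT e Ψ (0 : L →ₗ[F] L) ∈ M) (Dm ω₂ v hc.2))
      convert this using 2
      refine LinearMap.ext fun X => ?_
      simp only [LinearMap.sub_apply, LinearMap.zero_apply, hD, hsh, hv, add_mul, map_add]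
      module
    have hsh' : rtT e Ψ (sh ω₀ l) ∈ M := by
      have := root_congr hM hΨe hΨne he (inv_ne_zero hc0) h12
      convert this using 2
      refine LinearMap.ext fun X => ?_
      simp only [LinearMap.comp_apply, LinearMap.mulLeft_apply, hsh, mul_add, mul_smul_comm,
        ω₁, ω₂]
      rw [show ω₀ * c * (c⁻¹ * X) = ω₀ * X by field_simp,
        show l * c * (c⁻¹ * X) = l * X by field_simp,
        show c⁻¹ * (l * c) = l by field_simp, show c⁻¹ * (ω₀ * c) = ω₀ by field_simp]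
    rw [tvF_eq_rtT hΨe (A := (t • f).smulRight ω₀) fun X => by simp]
    have h4 := rtT_sub_mem hΨe (by simpa using rtT_sub_mem hΨe (Dm ω₀ l hω₀) (Dm ω₀ l hω₀) :
      rtT e Ψ (0 : L →ₗ[F] L) ∈ M) hsh'
    have h5 := rtT_sub_mem hΨe (Dm ω₀ l hω₀) h4
    convert h5 using 2
    refine LinearMap.ext fun X => ?_
    simp only [LinearMap.sub_apply, LinearMap.zero_apply, hD, hsh, LinearMap.smulRight_apply,
      LinearMap.smul_apply, hf, LinearMap.comp_apply, LinearMap.mulLeft_apply, hl, sub_mul,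
      smul_mul_assoc, map_sub, map_smul, smul_eq_mul, hv, mul_one]
    module
  · refine sl_le_of_transvection hM hp h2 (w₀ := ω₀ • e) (smul_ne_zero hω₀' he) hΨne
      (by rw [map_smul, hΨe, smul_zero]) (f := π ∘ₗ LinearMap.mulLeft F ω₀) ?_ fun t => ?_
    · intro h
      obtain ⟨l, hl⟩ := exists_mul_rep hπ _ hω₀' 1
      have := LinearMap.congr_fun h l
      simp [hl] at this
    have hne : s * s - s ≠ 0 := by
      rw [show s * s - s = s * (s - 1) by ring]
      exact mul_ne_zero hs0 (sub_ne_zero.2 hs1)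
    set l := (-t / (s * s - s)) • v with hl
    rw [tvF_eq_rtT hΨe (A := (t • (π ∘ₗ LinearMap.mulLeft F ω₀)).smulRight ω₀) fun X => by simp]
    have := rtT_sub_mem hΨe (Dm (s • ω₀) l (by rw [map_smul, hω₀, smul_zero])) (Dm ω₀ (s • l) hω₀)
    convert this using 2
    refine LinearMap.ext fun X => ?_
    simp only [LinearMap.sub_apply, hD, LinearMap.smulRight_apply, LinearMap.smul_apply,
      LinearMap.comp_apply, LinearMap.mulLeft_apply, smul_mul_assoc, map_smul, smul_eq_mul, hl, hv]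
    match_scalars <;> field_simp <;> ring

end Cfsg.Agent.Lib.Forms
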