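import Cfsg.Agent.Lib.Forms.LinExtSmall

/-!
Maximality of the semilinear group of a field of prime degree in the general and special linear
groups.
-/

set_option autoImplicit false

namespace Cfsg.Agent.Lib.Forms

open Matrix

variable {ι : Type} [Fintype ι] [DecidableEq ι] {F : Type*} [Field F] [Finite F]
  {L : Type*} [Field L] [Algebra F L]

/-- Maximality, for a field acting through an algebra map. -/
theorem linExtField_maximal (φ : L →ₐ[F] Matrix ι ι F) (hp : (Module.finrank F L).Prime)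
    (hlt : Module.finrank F L < Fintype.card ι) (H : Subgroup (GL ι F))
    (hH : (∀ a : ι → F, ∃ b, ∀ k : L, b ≠ φ k *ᵥ a) →
      ∀ g : GL ι F, g ∈ H ↔ ∀ (a : ι → F) (k : L), ∃ l : L,
        (g : Matrix ι ι F) *ᵥ (φ k *ᵥ a) = φ l *ᵥ ((g : Matrix ι ι F) *ᵥ a)) :
    IsCoatom H ∧
      Cfsg.Geo.IsMaximalIn (Cfsg.Geo.specialLinear ι F)
        (H ⊓ Cfsg.Geo.specialLinear ι F) := by
  classical
  letI : Module L (ι → F) := Module.compHom (ι → F)
    (((Matrix.toLinAlgEquiv' : Matrix ι ι F ≃ₐ[F] _).toAlgHom.comp φ).toRingHom)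
  have hsmul : ∀ (k : L) (v : ι → F), k • v = φ k *ᵥ v := fun k v => rfl
  haveI : IsScalarTower F L (ι → F) := ⟨fun c k v => by
    rw [hsmul, hsmul, map_smul, Matrix.smul_mulVec]⟩
  haveI : FiniteDimensional F L := Module.finite_of_finrank_pos hp.pos
  haveI : Module.Finite L (ι → F) := finite_field_dim
  haveI : Finite L := Module.finite_of_finite F
  haveI : Nonempty ι := Fintype.card_pos_iff.1 (by omega)
  have hdim : Module.finrank F L * Module.finrank L (ι → F) = Fintype.card ι := by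
    rw [Module.finrank_mul_finrank, Module.finrank_fintype_fun_eq_card]
  have hd2 : 2 ≤ Module.finrank L (ι → F) := by
    by_contra hcon
    have : Module.finrank F L * Module.finrank L (ι → F) ≤ Module.finrank F L * 1 :=
      Nat.mul_le_mul_left _ (by omega)
    omega
  have h2 : ∀ a : ι → F, ∃ b, ∀ k : L, b ≠ k • a := by
    intro a
    by_contra hcon
    push Not at hcon
    have h := Submodule.finrank_mono (show (⊤ : Submodule L (ι → F)) ≤
      Submodule.span L (({a} : Finset (ι → F)) : Set (ι → F)) from fun b _ => by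
        obtain ⟨k, hk⟩ := hcon b
        rw [Finset.coe_singleton]
        exact Submodule.mem_span_singleton.2 ⟨k, hk.symm⟩)
    have h5 := finrank_span_finset_le_card (R := L) ({a} : Finset (ι → F))
    rw [finrank_top] at h
    rw [Set.finrank, Finset.card_singleton] at h5
    omega
  have hH' : ∀ g : GL ι F, g ∈ H ↔ ∀ (a : ι → F) (k : L), ∃ l : L,
      (g : Matrix ι ι F) *ᵥ (k • a) = l • ((g : Matrix ι ι F) *ᵥ a) := hH h2
  have hlinH : ∀ g : GL ι F, (∀ (k : L) (z : ι → F), (g : Matrix ι ι F) *ᵥ (k • z) =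
      k • ((g : Matrix ι ι F) *ᵥ z)) → g ∈ H := fun g hg => (hH' g).2 fun a k => ⟨k, hg k a⟩
  -- the special linear group is not inside
  have hnot : ¬ Cfsg.Geo.specialLinear ι F ≤ H := by
    intro hle
    obtain ⟨a, ha⟩ := exists_ne (0 : ι → F)
    obtain ⟨ζ, hζ⟩ : ∃ ζ : L, ∀ c : F, ζ ≠ algebraMap F L c := by
      by_contra hcon
      push Not at hcon
      have hle : (⊤ : Submodule F L) ≤ F ∙ (1 : L) := fun l _ => by
        obtain ⟨c, rfl⟩ := hcon l
        exact Submodule.mem_span_singleton.2 ⟨c, by rw [Algebra.smul_def, mul_one]⟩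
      have := Submodule.finrank_mono hle
      rw [finrank_top, finrank_span_singleton one_ne_zero] at this
      have := hp.two_le
      omega
    obtain ⟨f, hfb, hfa⟩ := Submodule.exists_dual_map_eq_bot_of_notMem
      (p := F ∙ a) (x := ζ • a) (fun h => by
        obtain ⟨c, hc⟩ := Submodule.mem_span_singleton.1 h
        rw [← algebraMap_smul L c a, ← sub_eq_zero, ← sub_smul] at hc
        exact hζ c (sub_eq_zero.1 ((smul_eq_zero.1 hc).resolve_right ha)).symm) inferInstance
    have hfa0 : f a = 0 := by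
      have := Submodule.mem_map_of_mem (f := f) (Submodule.mem_span_singleton_self a)
      rwa [hfa, Submodule.mem_bot] at this
    obtain ⟨x, hx⟩ := h2 a
    set b := (f (ζ • a))⁻¹ • ζ • a with hb
    have hfb1 : f b = 1 := by rw [hb, map_smul, smul_eq_mul, inv_mul_cancel₀ hfb]
    set w := x - f x • b with hw
    have hfw : f w = 0 := by rw [hw, map_sub, map_smul, hfb1, smul_eq_mul, mul_one, sub_self]
    obtain ⟨l, hl⟩ := (hH' _).1 (hle (show tvF w f ∈ Cfsg.Geo.specialLinear ι F from
      Units.ext (uni_det _))) a ζ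
    rw [tvF_mulVec hfw, tvF_mulVec hfw, hfa0, zero_smul, add_zero, hw, hb, smul_sub,
      ← sub_eq_zero] at hl
    refine hx ((f x * (f (ζ • a))⁻¹) • ζ + (f (ζ • a))⁻¹ • (l - ζ)) ?_
    have e1 : f (ζ • a) • x = f (ζ • a) • ((f x * (f (ζ • a))⁻¹) • ζ +
        (f (ζ • a))⁻¹ • (l - ζ)) • a := by
      rw [add_smul, smul_add, smul_assoc, smul_assoc, smul_smul, smul_smul, sub_smul,
        mul_inv_cancel₀ hfb, one_smul]
      rw [smul_smul, smul_smul] at hl
      linear_combination (norm := module) hl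
    exact smul_right_injective _ hfb e1
  -- anything bigger
  have hbig : ∀ M : Subgroup (GL ι F), H ⊓ Cfsg.Geo.specialLinear ι F ≤ M →
      ∀ g ∈ M, g ∉ H → Cfsg.Geo.specialLinear ι F ≤ M := by
    intro M hM g hg hgH
    have hMl : HasLin L M := fun h hh hd => hM ⟨hlinH h hh, Units.ext hd⟩
    obtain ⟨a₀, k₀, hbad⟩ : ∃ (a₀ : ι → F) (k₀ : L), ∀ l : L,
        (g : Matrix ι ι F) *ᵥ (k₀ • a₀) ≠ l • ((g : Matrix ι ι F) *ᵥ a₀) := by
      by_contra hcon
      push Not at hcon
      exact hgH ((hH' g).2 hcon)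
    by_cases h1 : 3 ≤ Module.finrank F L ∨ (∃ s : F, s ≠ 0 ∧ s ≠ 1) ∨
        3 ≤ Module.finrank L (ι → F)
    · exact sl_le_of_moved hMl hp h2 h1 hg hbad
    · push Not at h1
      have := hp.two_le
      have hr : Module.finrank F L = 2 := by omega
      refine sl_le_of_moved_small hMl hr h2 (fun x => ?_) ?_ hg hbad
      · by_contra hx
        push Not at hx
        exact hx.2 (h1.2.1 x hx.1)
      · rw [← hdim, hr]
        omega
  refine ⟨⟨fun e => hnot (e ▸ le_top), fun M hlt' => ?_⟩, ⟨lt_of_le_of_ne inf_le_right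
    fun e => hnot (e ▸ inf_le_left), fun M hle hMle => ?_⟩⟩
  · obtain ⟨g, hg, hgH⟩ := SetLike.exists_of_lt hlt'
    have hsl := hbig M (inf_le_left.trans hlt'.le) g hg hgH
    rw [eq_top_iff]
    intro x _
    obtain ⟨a, ha⟩ := exists_ne (0 : ι → F)
    obtain ⟨Ψ, hΨ, -⟩ := exists_dual_one (L := L) (S := (⊥ : Submodule L (ι → F))) (x := a)
      (by simpa using ha)
    obtain ⟨u, hu⟩ := FiniteField.unitsMap_norm_surjective F L (Matrix.GeneralLinearGroup.det x)
    obtain ⟨d, hd, hdet⟩ := exists_dil Ψ hΨ u.ne_zero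
    have hdH : d ∈ H := hlinH d fun k z => by
      rw [hd, hd, map_smul, smul_eq_mul, smul_add, smul_smul]
      congr 2
      ring
    have hsl' : x * d⁻¹ ∈ Cfsg.Geo.specialLinear ι F := by
      rw [Cfsg.Geo.specialLinear, MonoidHom.mem_ker, map_mul, map_inv, mul_inv_eq_one, ← hu]
      exact Units.ext (by simpa using hdet.symm)
    simpa using mul_mem (hsl hsl') (hlt'.le hdH)
  · by_cases hM : M ≤ H
    · exact Or.inl (le_antisymm (le_inf hM hMle) hle)
    · obtain ⟨g, hg, hgH⟩ := SetLike.not_le_iff_exists.1 hM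
      exact Or.inr (le_antisymm hMle (hbig M hle g hg hgH))

end Cfsg.Agent.Lib.Forms
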