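import Cfsg.Agent.Lib.Forms.LinExtField

/-!
The field with two elements, dimension four and a field of degree two: two explicit words give a
transvection.
-/

set_option autoImplicit false

namespace Cfsg.Agent.Lib.Forms

open Matrix

variable {ι : Type} [Fintype ι] [DecidableEq ι] {F : Type*} [Field F] [Finite F]
  {L : Type*} [Field L] [Algebra F L] [Module L (ι → F)] [IsScalarTower F L (ι → F)]
  [FiniteDimensional F L] {M : Subgroup (GL ι F)}

/-- Containment of the special linear group in the smallest case. -/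
theorem sl_le_of_moved_small (hM : HasLin L M) (h2L : Module.finrank F L = 2)
    (h2 : ∀ a : ι → F, ∃ b, ∀ k : L, b ≠ k • a) (hq : ∀ x : F, x = 0 ∨ x = 1)
    (hι : Fintype.card ι = 4) {g₀ : GL ι F} (hg₀ : g₀ ∈ M) {a₀ : ι → F} {k₀ : L}
    (hbad : ∀ l : L, (g₀ : Matrix ι ι F) *ᵥ (k₀ • a₀) ≠ l • ((g₀ : Matrix ι ι F) *ᵥ a₀)) :
    Cfsg.Geo.specialLinear ι F ≤ M := by
  classical
  have hp : (Module.finrank F L).Prime := h2L ▸ Nat.prime_two
  haveI : Module.Finite L (ι → F) := finite_field_dim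
  obtain ⟨g, hg, a, e, Ψ₀, σ, k', π, κ, ha, he, hσ, hΨ₀, hπ, hZ, hW, hW', hκ, hk'⟩ :=
    lin_hyperplane hM hp hg₀ hbad
  obtain ⟨ω, hω, hω0⟩ : ∃ ω, π ω = 0 ∧ ω ≠ 0 := by
    obtain ⟨k, hk, hk0⟩ := (LinearMap.ker π).exists_mem_ne_zero_of_ne_bot fun h => by
      have h1 := π.finrank_range_add_finrank_ker
      have h2 := Submodule.finrank_le (LinearMap.range π)
      rw [h, finrank_bot] at h1
      rw [Module.finrank_self] at h2
      omega
    exact ⟨k, hk, hk0⟩
  obtain ⟨w, hw, hwe⟩ := hW ω hω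
  have hw0 : w ≠ 0 := fun h => by
    rw [h, zero_smul, mulVec_zero] at hwe
    exact smul_ne_zero hω0 he hwe.symm
  -- the field
  have two : (2 : F) = 0 := by
    rcases hq 2 with h | h
    · exact h
    · exact absurd (by linear_combination h : (1 : F) = 0) one_ne_zero
  have two' : (2 : L) = 0 := by rw [← map_ofNat (algebraMap F L) 2, two, map_zero]
  have four' : (4 : L) = 0 := by linear_combination (2 : L) * two'
  have three' : (3 : L) = 1 := by linear_combination two'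
  have quad : ∀ τ : L, (∀ c : F, τ ≠ algebraMap F L c) →
      τ * τ = τ + 1 ∧ ∀ x : L, ∃ p q : F, x = p • (1 : L) + q • τ := by
    intro τ hτ
    have hli : LinearIndependent F ![(1 : L), τ] := LinearIndependent.pair_iff.2 fun s t h => by
      rcases eq_or_ne t 0 with rfl | ht
      · rw [zero_smul, add_zero] at h
        exact ⟨(smul_eq_zero.1 h).resolve_right one_ne_zero, rfl⟩
      · refine absurd ?_ (hτ (-s / t))
        have e1 : t • τ = (-s) • (1 : L) := by rw [neg_smul]; exact eq_neg_of_add_eq_zero_right h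
        calc τ = t⁻¹ • (t • τ) := by rw [smul_smul, inv_mul_cancel₀ ht, one_smul]
          _ = _ := by rw [e1, smul_smul, Algebra.algebraMap_eq_smul_one, div_eq_inv_mul]
    have htop := hli.span_eq_top_of_card_eq_finrank (by simp [h2L])
    have hspan : ∀ x : L, ∃ p q : F, x = p • (1 : L) + q • τ := fun x => by
      obtain ⟨c, hc⟩ := (Submodule.mem_span_range_iff_exists_fun F).1
        (htop ▸ Submodule.mem_top : x ∈ Submodule.span F (Set.range ![(1 : L), τ]))
      exact ⟨c 0, c 1, by rw [← hc, Fin.sum_univ_two]; simp⟩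
    refine ⟨?_, hspan⟩
    have h0 : τ ≠ 0 := fun h => hτ 0 (by rw [h, map_zero])
    have h1 : τ ≠ 1 := fun h => hτ 1 (by rw [h, map_one])
    obtain ⟨p, q, hpq⟩ := hspan (τ * τ)
    rcases hq p with rfl | rfl <;> rcases hq q with rfl | rfl <;>
      simp only [zero_smul, one_smul, zero_add, add_zero] at hpq
    · exact absurd (mul_self_eq_zero.1 hpq) h0
    · exact absurd ((mul_eq_left₀ h0).1 hpq) h1
    · refine absurd ?_ h1
      have : (τ - 1) * (τ - 1) = 0 := by linear_combination hpq + (1 - τ) * two'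
      exact sub_eq_zero.1 (mul_self_eq_zero.1 this)
    · rw [hpq]; ring
  obtain ⟨ζ, hζ⟩ : ∃ ζ : L, ∀ c : F, ζ ≠ algebraMap F L c := by
    by_contra hcon
    push Not at hcon
    have hle : (⊤ : Submodule F L) ≤ F ∙ (1 : L) := fun l _ => by
      obtain ⟨c, rfl⟩ := hcon l
      exact Submodule.mem_span_singleton.2 ⟨c, by rw [Algebra.smul_def, mul_one]⟩
    have := Submodule.finrank_mono hle
    rw [finrank_top, finrank_span_singleton one_ne_zero, h2L] at this
    omega
  obtain ⟨hζ2, hζspan⟩ := quad ζ hζ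
  have hζ0 : ζ ≠ 0 := fun h => hζ 0 (by rw [h, map_zero])
  set e' := ω • e with he'
  set u := (g : Matrix ι ι F) *ᵥ (k' • a) with hu
  clear_value e' u
  have hue : ∀ l : L, u ≠ l • e' := fun l hl => hk' (l * ω) (by rw [mul_smul, ← he', ← hl, hu])
  obtain ⟨Ψ, hΨe, hΨu⟩ := exists_dual_sep (L := L) hue
  have he'0 : e' ≠ 0 := by rw [he']; exact smul_ne_zero hω0 he
  obtain ⟨Xc, hXu, hXe⟩ := exists_dual_sep (L := L) (a := u) (x := e') fun l hl => by
    rcases eq_or_ne l 0 with rfl | hl0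
    · exact he'0 (by rw [hl, zero_smul])
    · exact hue l⁻¹ (by rw [hl, smul_smul, inv_mul_cancel₀ hl0, one_smul])
  have hdim : Module.finrank L (ι → F) = 2 := by
    have := Module.finrank_mul_finrank F L (ι → F)
    rw [h2L, Module.finrank_fintype_fun_eq_card, hι] at this
    omega
  have hdec : ∀ z, z = Xc z • e' + Ψ z • u := by
    have hli : LinearIndependent L ![e', u] := LinearIndependent.pair_iff.2 fun s t h =>
      ⟨by simpa [hXe, hXu] using congrArg Xc h, by simpa [hΨe, hΨu] using congrArg Ψ h⟩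
    intro z
    obtain ⟨c, hc⟩ := (Submodule.mem_span_range_iff_exists_fun L).1
      ((hli.span_eq_top_of_card_eq_finrank (by simp [hdim])) ▸ Submodule.mem_top :
        z ∈ Submodule.span L (Set.range ![e', u]))
    rw [← hc]
    simp [Fin.sum_univ_two, hΨe, hΨu, hXe, hXu]
  have ext4 : ∀ A B : Matrix ι ι F, A *ᵥ e' = B *ᵥ e' → A *ᵥ u = B *ᵥ u →
      A *ᵥ (ζ • e') = B *ᵥ (ζ • e') → A *ᵥ (ζ • u) = B *ᵥ (ζ • u) →
      ∀ z, A *ᵥ z = B *ᵥ z := by
    intro A B h1 h2 h3 h4 z
    obtain ⟨p, q, hpq⟩ := hζspan (Xc z)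
    obtain ⟨p', q', hpq'⟩ := hζspan (Ψ z)
    rw [hdec z, hpq, hpq']
    simp only [add_smul, smul_assoc, one_smul, mulVec_add, mulVec_smul, h1, h2, h3, h4]
  -- linear maps over the field
  have mk : ∀ v₁ v₂ : ι → F, (∀ s t : L, s • v₁ + t • v₂ = 0 → s = 0 ∧ t = 0) →
      ∃ h ∈ M, ∀ z, (h : Matrix ι ι F) *ᵥ z = Xc z • v₁ + Ψ z • v₂ := by
    intro v₁ v₂ hv
    let N : (ι → F) →ₗ[F] (ι → F) :=
      (Xc.smulRight v₁ + Ψ.smulRight v₂).restrictScalars F
    have hN : ∀ z, N z = Xc z • v₁ + Ψ z • v₂ := fun z => rfl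
    have hinj : Function.Injective N := by
      rw [← LinearMap.ker_eq_bot, Submodule.eq_bot_iff]
      intro z hz
      obtain ⟨h1, h2⟩ := hv _ _ (by rw [← hN]; exact hz)
      rw [hdec z, h1, h2, zero_smul, zero_smul, add_zero]
    have hdet : (LinearMap.toMatrix' N).det ≠ 0 := by
      rw [LinearMap.det_toMatrix']
      exact ((LinearMap.isUnit_iff_ker_eq_bot N).2 (LinearMap.ker_eq_bot.2 hinj)).map
        LinearMap.det |>.ne_zero
    refine ⟨Matrix.GeneralLinearGroup.mkOfDetNeZero _ hdet, hM _ (fun k z => ?_)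
      ((hq _).resolve_left hdet), fun z => ?_⟩
    · show LinearMap.toMatrix' N *ᵥ _ = _ • (LinearMap.toMatrix' N *ᵥ _)
      rw [LinearMap.toMatrix'_mulVec, LinearMap.toMatrix'_mulVec, hN, hN, map_smul, map_smul,
        smul_add, smul_eq_mul, smul_eq_mul, mul_smul, mul_smul]
    · show LinearMap.toMatrix' N *ᵥ _ = _
      rw [LinearMap.toMatrix'_mulVec, hN]
  -- the element `y`
  have hπζ : π (ζ * ω) = 1 := by
    refine (hq _).resolve_left fun h => hπ (LinearMap.ext fun x => ?_)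
    obtain ⟨p, q, hpq⟩ := hζspan (x / ω)
    have hx : x = p • ω + q • (ζ * ω) := by
      rw [← div_mul_cancel₀ x hω0, hpq, add_mul, smul_mul_assoc, smul_mul_assoc, one_mul]
    rw [hx, map_add, map_smul, map_smul, hω, h]
    simp
  have hgu : ((g⁻¹ : GL ι F) : Matrix ι ι F) *ᵥ u = k' • a := by rw [hu, inv_mulVec_mulVec]
  set X := Ψ₀ (((g⁻¹ : GL ι F) : Matrix ι ι F) *ᵥ (ζ • u)) with hX
  have hτ : ∀ c : F, X / σ ≠ algebraMap F L c := by
    intro c hc
    rw [div_eq_iff hσ] at hc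
    -- a vector off the image of the line
    set z := ζ • u + c • (ζ • e') with hz
    have h0 : Ψ₀ (((g⁻¹ : GL ι F) : Matrix ι ι F) *ᵥ z) = 0 := by
      rw [hz, mulVec_add, mulVec_smul, map_add, ← hX, hc, he', smul_smul,
        LinearMap.map_smul_of_tower, hZ, hπζ, map_one, one_mul, Algebra.smul_def]
      linear_combination (algebraMap F L c * σ) * two'
    have hΨ₀ne : Ψ₀ ≠ 0 := fun h => hσ (by
      have := hZ (ζ * ω)
      rw [h, LinearMap.zero_apply, hπζ, map_one, one_mul] at this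
      exact this.symm)
    have hk : ∀ y, Ψ₀ y = 0 → ∃ l : L, l • a = y := by
      have h1 := Ψ₀.finrank_range_add_finrank_ker
      rw [LinearMap.range_eq_top.2 (LinearMap.surjective hΨ₀ne), finrank_top, Module.finrank_self,
        hdim] at h1
      have hle : L ∙ a ≤ LinearMap.ker Ψ₀ :=
        Submodule.span_le.2 fun y hy => by rw [Set.mem_singleton_iff.1 hy]; exact hΨ₀
      have := Submodule.eq_of_le_of_finrank_le hle (by rw [finrank_span_singleton ha]; omega)
      intro y hy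
      exact Submodule.mem_span_singleton.1 (this ▸ hy)
    obtain ⟨l, hl⟩ := hk _ h0
    have hzU : z = (g : Matrix ι ι F) *ᵥ (l • a) := by rw [hl, mulVec_inv_mulVec]
    obtain ⟨m, hm⟩ := hW' (l - κ l • k') (by rw [map_sub, map_smul, hκ]; simp)
    rw [sub_smul, mulVec_sub, smul_assoc, mulVec_smul, ← hu, ← hzU] at hm
    have := congrArg Ψ hm
    rw [show e = ω⁻¹ • e' by rw [he', smul_smul, inv_mul_cancel₀ hω0, one_smul]] at this
    simp only [hz, map_smul, map_sub, map_add, hΨe, hΨu, smul_zero, LinearMap.map_smul_of_tower,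
      smul_eq_mul, mul_one, add_zero] at this
    refine hζ (κ l) (sub_eq_zero.1 ?_)
    rw [Algebra.algebraMap_eq_smul_one]
    rw [mul_zero, mul_zero, mul_zero, smul_zero, add_zero] at this
    exact this.symm
  set τ := X / σ with hτdef
  obtain ⟨hτ2, hτspan⟩ := quad τ hτ
  set y := g * rtT a Ψ₀ (LinearMap.mulLeft F (k' / σ)) * g⁻¹ with hy
  have hyM : y ∈ M := mul_mem (mul_mem hg (root_mem_lin hM hΨ₀ _)) (inv_mem hg)
  have hyv : ∀ z, (y : Matrix ι ι F) *ᵥ z = z + (g : Matrix ι ι F) *ᵥ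
      ((k' / σ * Ψ₀ (((g⁻¹ : GL ι F) : Matrix ι ι F) *ᵥ z)) • a) := fun z => by
    rw [hy, mul_mulVec', mul_mulVec', rtT_mulVec hΨ₀, mulVec_add, mulVec_inv_mulVec,
      LinearMap.mulLeft_apply]
  have y1 : (y : Matrix ι ι F) *ᵥ e' = e' := by rw [hyv, he', hZ, hω]; simp
  have y2 : (y : Matrix ι ι F) *ᵥ u = u := by
    rw [hyv, hgu, map_smul, hΨ₀]; simp
  have y3 : (y : Matrix ι ι F) *ᵥ (ζ • e') = ζ • e' + u := by
    rw [hyv, he', smul_smul, hZ, hπζ, map_one, one_mul, div_mul_cancel₀ _ hσ, hu]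
  have y4 : (y : Matrix ι ι F) *ᵥ (ζ • u) =
      ζ • u + (g : Matrix ι ι F) *ᵥ ((τ * k') • a) := by
    rw [hyv, ← hX, show k' / σ * X = τ * k' by rw [hτdef]; ring]
  -- the two possibilities
  have hneg : ∀ v : ι → F, v + v = 0 := fun v => by rw [← two_smul F, two, zero_smul]
  obtain ⟨p, q, hpq⟩ := hτspan (k' / w)
  have hk'w : k' = p • w + q • (τ * w) := by
    rw [← div_mul_cancel₀ k' hw0, hpq, add_mul, smul_mul_assoc, smul_mul_assoc, one_mul]
  have hq1 : q = 1 := by
    refine (hq q).resolve_left fun h => ?_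
    rw [h, zero_smul, add_zero] at hk'w
    rw [hk'w, map_smul, hw, smul_zero] at hκ
    exact zero_ne_one hκ
  rw [hq1, one_smul] at hk'w
  have hgw : (g : Matrix ι ι F) *ᵥ (w • a) = e' := hwe
  obtain ⟨h₁, hh₁, hh₁v⟩ := mk (ζ • u) (ζ • e') fun s t h => by
    have h1 := congrArg Xc h
    have h2 := congrArg Ψ h
    simp [hXe, hXu, hΨe, hΨu, hζ0] at h1 h2
    exact ⟨h2, h1⟩
  have A1 : (h₁ : Matrix ι ι F) *ᵥ e' = ζ • u := by rw [hh₁v, hXe, hΨe]; simp
  have A2 : (h₁ : Matrix ι ι F) *ᵥ u = ζ • e' := by rw [hh₁v, hXu, hΨu]; simp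
  have A3 : (h₁ : Matrix ι ι F) *ᵥ (ζ • e') = ζ • u + u := by
    simp [hh₁v, map_smul, hXe, hΨe, smul_eq_mul, mul_one, mul_zero, zero_smul, add_zero,
      zero_add, smul_smul, hζ2, add_smul, one_smul, add_comm]
  have A4 : (h₁ : Matrix ι ι F) *ᵥ (ζ • u) = ζ • e' + e' := by
    simp [hh₁v, map_smul, hXu, hΨu, smul_eq_mul, mul_one, mul_zero, zero_smul, add_zero,
      zero_add, smul_smul, hζ2, add_smul, one_smul, add_comm]
  obtain ⟨f₁, hf₁⟩ : ∃ f : L →ₗ[F] F, f 1 = 1 ∧ f ζ = 0 := by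
    obtain ⟨f, hfx, hf⟩ := Submodule.exists_dual_map_eq_bot_of_notMem
      (p := F ∙ ζ) (x := (1 : L)) (fun h => by
        obtain ⟨c, hc⟩ := Submodule.mem_span_singleton.1 h
        have hc0 : c ≠ 0 := fun e => by rw [e, zero_smul] at hc; exact zero_ne_one hc
        rcases hq c with h' | h'
        · exact hc0 h'
        · rw [h', one_smul] at hc
          exact hζ 1 (by rw [hc, map_one])) inferInstance
    have hfζ : f ζ = 0 := by
      have := Submodule.mem_map_of_mem (f := f) (Submodule.mem_span_singleton_self ζ)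
      rwa [hf, Submodule.mem_bot] at this
    exact ⟨f, (hq _).resolve_left hfx, hfζ⟩
  obtain ⟨f₂, hf₂⟩ : ∃ f : L →ₗ[F] F, f 1 = 0 ∧ f ζ = 1 := by
    obtain ⟨f, hfx, hf⟩ := Submodule.exists_dual_map_eq_bot_of_notMem
      (p := F ∙ (1 : L)) (x := ζ) (fun h => by
        obtain ⟨c, hc⟩ := Submodule.mem_span_singleton.1 h
        exact hζ c (by rw [← hc, Algebra.algebraMap_eq_smul_one])) inferInstance
    have hf1 : f 1 = 0 := by
      have := Submodule.mem_map_of_mem (f := f) (Submodule.mem_span_singleton_self (1 : L))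
      rwa [hf, Submodule.mem_bot] at this
    exact ⟨f, hf1, (hq _).resolve_left hfx⟩
  rcases hq p with hp0 | hp1
  · -- `τ w = k'`
    rw [hp0, zero_smul, zero_add] at hk'w
    have hy4 : (y : Matrix ι ι F) *ᵥ (ζ • u) = ζ • u + (u + e') := by
      rw [y4, show τ * k' = k' + w by rw [hk'w, ← mul_assoc, hτ2]; ring, add_smul, mulVec_add,
        ← hu, hgw]
    obtain ⟨h₂, hh₂, hh₂v⟩ := mk (ζ • e') ((ζ + 1) • u) fun s t h => by
      have h1 := congrArg Xc h
      have h2 := congrArg Ψ h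
      have hne : ζ + 1 ≠ 0 := fun e => hζ 1 (by rw [map_one]; linear_combination e - two')
      simp [hXe, hXu, hΨe, hΨu, hζ0, hne] at h1 h2
      exact ⟨h1, h2⟩
    have B1 : (h₂ : Matrix ι ι F) *ᵥ e' = ζ • e' := by rw [hh₂v, hXe, hΨe]; simp
    have B2 : (h₂ : Matrix ι ι F) *ᵥ u = ζ • u + u := by
      rw [hh₂v, hXu, hΨu]; simp [add_smul]
    have B3 : (h₂ : Matrix ι ι F) *ᵥ (ζ • e') = ζ • e' + e' := by
      simp [hh₂v, map_smul, hXe, hΨe, smul_eq_mul, mul_one, mul_zero, zero_smul, add_zero,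
        zero_add, smul_smul, hζ2, add_smul, one_smul, add_comm]
    have B4 : (h₂ : Matrix ι ι F) *ᵥ (ζ • u) = u := by
      simp [hh₂v, map_smul, hXu, hΨu, smul_eq_mul, mul_one, mul_zero, zero_smul, zero_add,
        smul_smul, show ζ * (ζ + 1) = 1 by linear_combination hζ2 + ζ * two', one_smul]
    set v := ζ • e' + (ζ + 1) • u with hv
    set Φ : (ι → F) →ₗ[L] L := (ζ + 1) • Xc + ζ • Ψ with hΦ
    have hΦv : Φ v = 0 := by
      simp [hΦ, hv, hXe, hXu, hΨe, hΨu]
      linear_combination (ζ * (ζ + 1)) * two'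
    have hf0 : f₂ ≠ 0 := fun h => by rw [h] at hf₂; simp at hf₂
    refine sl_le_of_transvection hM hp h2 (w₀ := v) (fun h => by
      have := congrArg Xc h
      simp [hv, hXe, hXu, hζ0] at this) (fun h => by
      have := LinearMap.congr_fun h u
      simp [hΦ, hXu, hΨu, hζ0] at this) hΦv hf0 fun t => ?_
    rcases hq t with rfl | rfl
    · convert M.one_mem
      exact gl_ext fun z => by rw [tvF_mulVec (by simp)]; simp
    convert mul_mem (mul_mem (mul_mem hyM hh₁) hyM) hh₂ using 1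
    refine gl_ext (ext4 _ _ ?_ ?_ ?_ ?_) <;> rw [tvF_mulVec (by simp [hΦv])] <;>
      simp only [mul_mulVec', B1, B2, B3, B4, mulVec_add, A1, A2, A3, A4, y1, y2, y3, hy4] <;>
      simp [hΦ, hv, hXe, hXu, hΨe, hΨu, hf₂, hζ2, add_smul, mul_add] <;>
      (match_scalars <;> ring_nf <;> simp [two', four', three'])
  · -- `τ w = k' + w`
    rw [hp1, one_smul] at hk'w
    have hy4 : (y : Matrix ι ι F) *ᵥ (ζ • u) = ζ • u + e' := by
      rw [y4, show τ * k' = w by rw [hk'w, mul_add, ← mul_assoc, hτ2];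
                                 linear_combination (τ * w) * two', hgw]
    obtain ⟨h₂, hh₂, hh₂v⟩ := mk (ζ • e') (ζ • u) fun s t h => by
      have h1 := congrArg Xc h
      have h2 := congrArg Ψ h
      simp [hXe, hXu, hΨe, hΨu, hζ0] at h1 h2
      exact ⟨h1, h2⟩
    have B1 : (h₂ : Matrix ι ι F) *ᵥ e' = ζ • e' := by rw [hh₂v, hXe, hΨe]; simp
    have B2 : (h₂ : Matrix ι ι F) *ᵥ u = ζ • u := by rw [hh₂v, hXu, hΨu]; simp
    have B3 : (h₂ : Matrix ι ι F) *ᵥ (ζ • e') = ζ • e' + e' := by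
      simp [hh₂v, map_smul, hXe, hΨe, smul_eq_mul, mul_one, mul_zero, zero_smul, add_zero,
        zero_add, smul_smul, hζ2, add_smul, one_smul, add_comm]
    have B4 : (h₂ : Matrix ι ι F) *ᵥ (ζ • u) = ζ • u + u := by
      simp [hh₂v, map_smul, hXu, hΨu, smul_eq_mul, mul_one, mul_zero, zero_smul, add_zero,
        zero_add, smul_smul, hζ2, add_smul, one_smul, add_comm]
    set v := ζ • e' + ζ • u with hv
    set Φ : (ι → F) →ₗ[L] L := Xc + Ψ with hΦ
    have hΦv : Φ v = 0 := by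
      simp [hΦ, hv, hXe, hXu, hΨe, hΨu]
      linear_combination ζ * two'
    have hf0 : f₁ ≠ 0 := fun h => by rw [h] at hf₁; simp at hf₁
    refine sl_le_of_transvection hM hp h2 (w₀ := v) (fun h => by
      have := congrArg Xc h
      simp [hv, hXe, hXu, hζ0] at this) (fun h => by
      have := LinearMap.congr_fun h u
      simp [hΦ, hXu, hΨu] at this) hΦv hf0 fun t => ?_
    rcases hq t with rfl | rfl
    · convert M.one_mem
      exact gl_ext fun z => by rw [tvF_mulVec (by simp)]; simp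
    convert mul_mem (mul_mem (mul_mem hyM hh₁) hyM) hh₂ using 1
    refine gl_ext (ext4 _ _ ?_ ?_ ?_ ?_) <;> rw [tvF_mulVec (by simp [hΦv])] <;>
      simp only [mul_mulVec', B1, B2, B3, B4, mulVec_add, A1, A2, A3, A4, y1, y2, y3, hy4] <;>
      simp [hΦ, hv, hXe, hXu, hΨe, hΨu, hf₁, hζ2, add_smul, mul_add] <;>
      (match_scalars <;> ring_nf <;> simp [two', four', three'])

end Cfsg.Agent.Lib.Forms
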