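import Cfsg.Agent.Lib.Forms.TICount
import Cfsg.Agent.Lib.Forms.StabBasic
import Cfsg.Agent.Lib.Classical.SympOrder
import Cfsg.Agent.S0749

/-!
Totally isotropic frames of the symplectic form.
-/

set_option autoImplicit false

namespace Cfsg.Agent.Lib.Forms

open Matrix

section Alt

variable {F : Type*} [Field F] {V : Type*} [AddCommGroup V] [Module F V] [FiniteDimensional F V]
  (B : LinearMap.BilinForm F V)

omit [FiniteDimensional F V] in
lemma bilin_span_zero (S : Set V) (hS : ∀ x ∈ S, ∀ y ∈ S, B x y = 0) :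
    ∀ x ∈ Submodule.span F S, ∀ y ∈ Submodule.span F S, B x y = 0 := by
  intro x hx y hy
  induction hx, hy using Submodule.span_induction₂ with
  | mem_mem x y hx hy => exact hS x hx y hy
  | zero_left y hy => simp
  | zero_right x hx => simp
  | add_left x y z _ _ _ e1 e2 => simp [e1, e2]
  | add_right x y z _ _ _ e1 e2 => simp [e1, e2]
  | smul_left r x y _ _ e => simp [e]
  | smul_right r x y _ _ e => simp [e]

theorem card_alt_extensions [Fintype F] (hA : B.IsAlt) (hB : B.Nondegenerate) {k : ℕ}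
    (u : TIFrame (fun x y => B x y) k) :
    Nat.card {v : V // B v v = 0 ∧ (∀ i, B (u.1 i) v = 0) ∧
      v ∉ Submodule.span F (Set.range u.1)} =
      Fintype.card F ^ (Module.finrank F V - k) - Fintype.card F ^ k := by
  classical
  haveI : Finite V := Module.finite_of_finite F
  set P := Submodule.span F (Set.range u.1)
  set O := LinearMap.BilinForm.orthogonal B P
  have hPd : Module.finrank F P = k := by rw [finrank_span_eq_card u.2.1, Fintype.card_fin]
  have hOd : Module.finrank F O = Module.finrank F V - k := by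
    rw [← hPd]; exact LinearMap.BilinForm.finrank_orthogonal hB P
  have hmem : ∀ v, v ∈ O ↔ ∀ i, B (u.1 i) v = 0 := by
    intro v
    refine ⟨fun hv i => hv _ (Submodule.subset_span ⟨i, rfl⟩), fun hv w hw => ?_⟩
    induction hw using Submodule.span_induction with
    | mem x hx => obtain ⟨i, rfl⟩ := hx; exact hv i
    | zero => simp [LinearMap.BilinForm.IsOrtho]
    | add x y _ _ e1 e2 => simp_all [LinearMap.BilinForm.IsOrtho]
    | smul r x _ e => simp_all [LinearMap.BilinForm.IsOrtho]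
  have hPO : (P : Set V) ⊆ O := fun v hv => (hmem v).2 fun i =>
    bilin_span_zero B (Set.range u.1) (by rintro _ ⟨a, rfl⟩ _ ⟨b, rfl⟩; exact u.2.2 a b) _
      (Submodule.subset_span ⟨i, rfl⟩) _ hv
  have hset : {v : V | B v v = 0 ∧ (∀ i, B (u.1 i) v = 0) ∧ v ∉ P} = (O : Set V) \ P := by
    ext v; simp [hA.self_eq_zero v, hmem]
  have := congrArg Set.ncard hset
  rw [Set.ncard_diff hPO, ← Nat.card_coe_set_eq] at this
  refine this.trans ?_
  rw [← Nat.card_coe_set_eq, ← Nat.card_coe_set_eq]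
  change Nat.card O - Nat.card P = _
  rw [Module.natCard_eq_pow_finrank (K := F) (V := O), Module.natCard_eq_pow_finrank (K := F) (V := P), hOd, hPd,
    Nat.card_eq_fintype_card]

theorem card_alt_frame [Fintype F] (hA : B.IsAlt) (hB : B.Nondegenerate) (k : ℕ) :
    Nat.card (TIFrame (fun x y => B x y) k) = ∏ i ∈ Finset.range k,
      (Fintype.card F ^ (Module.finrank F V - i) - Fintype.card F ^ i) :=
  card_frame_eq_prod (fun x y => hA.isRefl.eq_iff) _ k fun _ _ u => card_alt_extensions B hA hB u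

end Alt

variable {F : Type*} [Field F] {m : ℕ}

local notation "Sp" => Matrix.symplecticGroup (Fin m) F

lemma sympForm_span_zero (S : Set (Fin m ⊕ Fin m → F))
    (hS : ∀ x ∈ S, ∀ y ∈ S, Cfsg.sympForm m F x y = 0) :
    ∀ x ∈ Submodule.span F S, ∀ y ∈ Submodule.span F S, Cfsg.sympForm m F x y = 0 := by
  simp only [← stdB_apply] at hS ⊢
  exact bilin_span_zero _ S hS

theorem card_symp_frame [Fintype F] (k : ℕ) :
    Nat.card (TIFrame (Cfsg.sympForm m F) k) = ∏ i ∈ Finset.range k,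
      (Fintype.card F ^ (2 * m - i) - Fintype.card F ^ i) := by
  have h : Cfsg.sympForm m F = fun x y => stdB m F x y := by
    funext x y; rw [stdB_apply]
  rw [h, card_alt_frame _ (stdB_isAlt m) (stdB_nondegenerate m)]
  simp [two_mul]

/-- Witt for isotropic frames. -/
theorem exists_sp_frame {k : ℕ} (u v : TIFrame (Cfsg.sympForm m F) k) :
    ∃ g : Sp, ∀ i, (g : Matrix (Fin m ⊕ Fin m) (Fin m ⊕ Fin m) F) *ᵥ u.1 i = v.1 i := by
  classical
  let bu := Module.Basis.span u.2.1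
  let bv := Module.Basis.span v.2.1
  obtain ⟨g, hg, hgx⟩ := Cfsg.Agent.S0749.result (stdB m F) (stdB_nondegenerate m) (stdB_isAlt m) _ _
    (bu.equiv bv (Equiv.refl _)) (fun x x' => by
      rw [stdB_apply, stdB_apply,
        sympForm_span_zero (Set.range v.1) (by rintro _ ⟨a, rfl⟩ _ ⟨b, rfl⟩; exact v.2.2 a b) _ (Subtype.mem _) _
          (Subtype.mem _),
        sympForm_span_zero (Set.range u.1) (by rintro _ ⟨a, rfl⟩ _ ⟨b, rfl⟩; exact u.2.2 a b) _ (Subtype.mem _) _
          (Subtype.mem _)])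
  let G : GL (Fin m ⊕ Fin m) F :=
    Matrix.GeneralLinearGroup.toLin.symm (LinearMap.GeneralLinearGroup.ofLinearEquiv g)
  have hG : ∀ x, (G : Matrix (Fin m ⊕ Fin m) (Fin m ⊕ Fin m) F) *ᵥ x = g x := fun x => by
    have : Matrix.toLin' (G : Matrix (Fin m ⊕ Fin m) (Fin m ⊕ Fin m) F) = g.toLinearMap := by
      have h1 : ((Matrix.GeneralLinearGroup.toLin G : LinearMap.GeneralLinearGroup F _) :
          Module.End F (Fin m ⊕ Fin m → F)) = g.toLinearMap := by
        rw [MulEquiv.apply_symm_apply]; rfl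
      exact h1
    exact LinearMap.congr_fun this x
  obtain ⟨A, hA⟩ := exists_spToGL_eq (g := G) (fun x y => by
    show stdB m F ((G : Matrix (Fin m ⊕ Fin m) (Fin m ⊕ Fin m) F) *ᵥ x) ((G : Matrix (Fin m ⊕ Fin m) (Fin m ⊕ Fin m) F) *ᵥ y) = stdB m F x y
    rw [hG, hG]; exact hg x y)
  refine ⟨A, fun i => ?_⟩
  rw [← spToGL_val m A, hA, hG]
  have h2 := hgx (bu i)
  rw [Module.Basis.equiv_apply, Equiv.refl_apply] at h2
  simpa [bu, bv, Module.Basis.span_apply] using h2

/-- The pointwise stabiliser of a frame. -/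
def fixFrame {k : ℕ} (u : Fin k → (Fin m ⊕ Fin m → F)) : Subgroup Sp where
  carrier := {g | ∀ i, (g : Matrix (Fin m ⊕ Fin m) (Fin m ⊕ Fin m) F) *ᵥ u i = u i}
  one_mem' := fun i => by simp
  mul_mem' := fun {a b} ha hb i => by
    rw [Submonoid.coe_mul, ← mulVec_mulVec, hb i, ha i]
  inv_mem' := fun {a} ha i => by
    conv_lhs => rw [← ha i]
    rw [mulVec_mulVec, ← Submonoid.coe_mul, inv_mul_cancel]
    simp

lemma fixFrame_fibre {k : ℕ} (u : Fin k → (Fin m ⊕ Fin m → F)) (g h : Sp) :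
    (∀ i, (g : Matrix (Fin m ⊕ Fin m) (Fin m ⊕ Fin m) F) *ᵥ u i =
      (h : Matrix (Fin m ⊕ Fin m) (Fin m ⊕ Fin m) F) *ᵥ u i) ↔ g⁻¹ * h ∈ fixFrame u := by
  constructor
  · intro e i
    rw [Submonoid.coe_mul, ← mulVec_mulVec, ← e i, mulVec_mulVec, ← Submonoid.coe_mul, inv_mul_cancel]
    simp
  · intro e i
    conv_lhs => rw [← e i]
    rw [mulVec_mulVec, ← Submonoid.coe_mul, mul_inv_cancel_left]

theorem card_sp_eq_frame_mul {k : ℕ} (u : TIFrame (Cfsg.sympForm m F) k) :
    Nat.card Sp = Nat.card (TIFrame (Cfsg.sympForm m F) k) * Nat.card (fixFrame u.1) := by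
  refine card_eq_card_mul _ (fun g => (⟨fun i => (g : Matrix (Fin m ⊕ Fin m) (Fin m ⊕ Fin m) F) *ᵥ u.1 i,
    u.2.1.map' (Matrix.toLin' (g : Matrix (Fin m ⊕ Fin m) (Fin m ⊕ Fin m) F)) ?_, fun i j => ?_⟩ :
      TIFrame (Cfsg.sympForm m F) k)) (fun g h => ?_) fun v => ?_
  · rw [LinearMap.ker_eq_bot]
    intro x y hxy
    have := congrArg (fun w => ((g⁻¹ : Sp) : Matrix (Fin m ⊕ Fin m) (Fin m ⊕ Fin m) F) *ᵥ w) hxy
    simpa [Matrix.toLin'_apply, mulVec_mulVec, ← Submonoid.coe_mul] using this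
  · have := Cfsg.Agent.Lib.Classical.sp_iso m g (u.1 i) (u.1 j)
    rw [stdB_apply, stdB_apply] at this
    rw [this, u.2.2]
  · rw [← fixFrame_fibre]
    exact ⟨fun e i => congrFun (congrArg Subtype.val e) i, fun e => Subtype.ext (funext e)⟩
  · obtain ⟨g, hg⟩ := exists_sp_frame u v
    exact ⟨g, Subtype.ext (funext hg)⟩

theorem card_sub_eq_mul {k : ℕ} (u : Fin k → (Fin m ⊕ Fin m → F)) (S : Subgroup Sp)
    (hS : fixFrame u ≤ S) (Y : Type*) (f : S → Y) (hs : Function.Surjective f)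
    (hf : ∀ g h : S, f g = f h ↔ ∀ i, ((g : Sp) : Matrix (Fin m ⊕ Fin m) (Fin m ⊕ Fin m) F) *ᵥ u i =
      ((h : Sp) : Matrix (Fin m ⊕ Fin m) (Fin m ⊕ Fin m) F) *ᵥ u i) :
    Nat.card S = Nat.card Y * Nat.card (fixFrame u) := by
  rw [card_eq_card_mul ((fixFrame u).subgroupOf S) f (fun g h => by
    rw [hf, fixFrame_fibre, Subgroup.mem_subgroupOf]; simp) hs]
  congr 1
  exact Nat.card_congr (Subgroup.subgroupOfEquivOfLe hS).toEquiv

end Cfsg.Agent.Lib.Forms
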