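import Cfsg.Agent.Lib.Forms.UnitarySiegel
import Cfsg.Agent.Lib.Forms.Parabolic

/-!
Maximality of subspace stabilisers in special unitary groups.
-/

set_option autoImplicit false

namespace Cfsg.Agent.Lib.Forms

open Matrix Cfsg.Geo

variable {ι : Type} [Fintype ι] [DecidableEq ι] {F : Type*} [Field F]
  {σ : F ≃+* F} {h : (ι → F) → (ι → F) → F}

/-- Isotropic vectors all of whose transvections lie in `M`. -/
def ucentres (σ : F ≃+* F) (h : (ι → F) → (ι → F) → F) (M : Subgroup (GL ι F)) : Set (ι → F) :=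
  {v | h v v = 0 ∧ ∀ c, c + σ c = 0 → tv v (c • hv h v) ∈ M}

variable (H : IsUnitaryForm σ h)
include H

omit [DecidableEq ι] [Fintype ι] in
lemma herm_sub_left (x y v : ι → F) : h (x - y) v = h x v - h y v := by
  rw [sub_eq_add_neg, H.add_left, herm_neg_left H, sub_eq_add_neg]

lemma utv_conj {g : GL ι F} (hg : g ∈ isoH h) {v : ι → F} (hv0 : h v v = 0) (c : F) :
    g * tv v (c • hv h v) * g⁻¹ = tv ((g : Matrix ι ι F) *ᵥ v) (c • hv h ((g : Matrix ι ι F) *ᵥ v)) := by
  have hgv : h ((g : Matrix ι ι F) *ᵥ v) ((g : Matrix ι ι F) *ᵥ v) = 0 := by rw [hg]; exact hv0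
  apply gl_ext; intro x
  rw [mul_mulVec', mul_mulVec', utv_mulVec H hv0, utv_mulVec H hgv, mulVec_add, mulVec_smul,
    mulVec_inv_mulVec]
  have := hg (((g⁻¹ : GL ι F) : Matrix ι ι F) *ᵥ x) v
  rw [mulVec_inv_mulVec] at this
  rw [this]

variable {M : Subgroup (GL ι F)}

lemma smul_mem_ucentres (s : F) {v : ι → F} (hv0 : v ∈ ucentres σ h M) :
    s • v ∈ ucentres σ h M := by
  refine ⟨by rw [smul_inner H, hv0.1, mul_zero], fun c hc => ?_⟩
  have e : tv (s • v) (c • hv h (s • v)) = tv v ((c * (s * σ s)) • hv h v) := by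
    apply gl_ext; intro x
    rw [utv_mulVec H (by rw [smul_inner H, hv0.1, mul_zero]), utv_mulVec H hv0.1,
      herm_smul_right H, smul_smul]
    congr 2; ring
  rw [e]
  refine hv0.2 _ ?_
  rw [map_mul, map_mul, H.involutive]
  linear_combination (s * σ s) * hc

lemma mulVec_mem_ucentres {g : GL ι F} (hg : g ∈ M) (hgi : g ∈ isoH h)
    {v : ι → F} (hv0 : v ∈ ucentres σ h M) : (g : Matrix ι ι F) *ᵥ v ∈ ucentres σ h M :=
  ⟨by rw [hgi]; exact hv0.1, fun c hc => by
    rw [← utv_conj H hgi hv0.1]; exact M.mul_mem (M.mul_mem hg (hv0.2 c hc)) (M.inv_mem hg)⟩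

/-- The isotropic vectors on the line through two non-orthogonal centres are centres. -/
lemma add_smul_mem_ucentres {u v : ι → F} (hu : u ∈ ucentres σ h M) (hv0 : v ∈ ucentres σ h M)
    (hne : h u v ≠ 0) {t : F} (hiso : h (u + t • v) (u + t • v) = 0) :
    u + t • v ∈ ucentres σ h M := by
  have hsk : t / h u v + σ (t / h u v) = 0 := by
    simp only [H.add_left, H.smul_left, herm_add_right H, herm_smul_right H, hu.1, hv0.1,
      H.herm v u] at hiso
    have : σ (h u v) ≠ 0 := by simpa using hne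
    rw [map_div₀]
    field_simp
    linear_combination hiso
  have := mulVec_mem_ucentres H (hv0.2 _ hsk) (fun x y => utv_isometry H hv0.1 hsk x y) hu
  rwa [utv_mulVec H hv0.1, div_mul_cancel₀ _ hne] at this

lemma iso_sl_le_of_ucentres [Finite F] (hn : 4 ≤ Fintype.card ι)
    (hC : ∀ v, h v v = 0 → v ∈ ucentres σ h M) : isoH h ⊓ specialLinear ι F ≤ M := by
  rw [← utvGroup_eq H (Or.inr (by omega))]
  refine (Subgroup.closure_le _).2 ?_
  rintro g ⟨v, c, hv0, hc, rfl⟩
  exact (hC v hv0).2 c hc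

/-- Maximality of the stabiliser of a totally isotropic subspace. -/
theorem unitary_isotropic_stab_isMaximalIn [Finite F] (hn : 4 ≤ Fintype.card ι)
    {W : Submodule F (ι → F)} (h0 : W ≠ ⊥) (hW : ∀ u ∈ W, ∀ v ∈ W, h u v = 0) :
    IsMaximalIn (isoH h ⊓ specialLinear ι F)
      (subspaceStabilizer W ⊓ (isoH h ⊓ specialLinear ι F)) := by
  classical
  let P : Submodule F (ι → F) :=
    { carrier := {x | ∀ w ∈ W, h x w = 0}
      add_mem' := fun {a b} ha hb w hw => by rw [H.add_left, ha w hw, hb w hw, add_zero]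
      zero_mem' := fun w _ => herm_zero_left H _
      smul_mem' := fun c a ha w hw => by rw [H.smul_left, ha w hw, mul_zero] }
  have hWP : W ≤ P := fun w hw u hu => hW w hw u hu
  have hPW : ∀ x ∈ P, (∀ p ∈ P, h x p = 0) → x ∈ W := by
    intro x _ hx
    let b := Module.finBasis F W
    have h1 : x ∈ Submodule.span F (Set.range fun i => (b i : ι → F)) :=
      mem_span_of_perp H fun p hp => (herm_eq_zero_comm H).1 (hx p fun w hw => by
        let L : W →ₗ[F] F :=
          { toFun := fun u => h (u : ι → F) p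
            map_add' := fun u u' => H.add_left _ _ _
            map_smul' := fun c u => H.smul_left c _ _ }
        have : L = 0 := b.ext fun i => (herm_eq_zero_comm H).1 (hp i)
        exact (herm_eq_zero_comm H).1 (LinearMap.congr_fun this ⟨w, hw⟩))
    refine Submodule.span_le.2 ?_ h1
    rintro _ ⟨i, rfl⟩
    exact (b i).2
  obtain ⟨w₀, hw₀, hw₀0⟩ := Submodule.exists_mem_ne_zero_of_ne_bot h0
  refine isMaximalIn_of inf_le_right ?_ fun M hle hM g hg hgn => ?_
  · obtain ⟨a, ha⟩ := (H.nondegenerate w₀ hw₀0).2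
    obtain ⟨r, hr⟩ := exists_isotropic_translate H (hW w₀ hw₀ w₀ hw₀) ha
    set v := a + r • w₀
    have hwv : h w₀ v ≠ 0 := by
      rwa [herm_add_right H, herm_smul_right H, hW w₀ hw₀ w₀ hw₀, mul_zero, add_zero]
    obtain ⟨κ, hκ0, hκ⟩ := exists_skew H
    refine ⟨tv v (κ • hv h v), utvGroup_le H (utv_mem_utvGroup hr hκ), fun hs => ?_⟩
    have h1 := mem_subspaceStabilizer.1 hs.1 w₀ hw₀
    rw [utv_mulVec H hr] at h1
    have h2 := W.smul_mem (κ * h w₀ v)⁻¹ (W.sub_mem h1 hw₀)
    rw [add_sub_cancel_left, smul_smul, inv_mul_cancel₀ (mul_ne_zero hκ0 hwv), one_smul] at h2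
    exact hwv (hW w₀ hw₀ v h2)
  have hgi : g ∈ isoH h := (hM hg).1
  have hPc : ∀ v ∈ P, h v v = 0 → v ∈ ucentres σ h M := fun v hvP hv0 => ⟨hv0, fun c hc =>
    hle ⟨tv_mem_subspaceStabilizer (hv_smul_dot_self H hv0 c) (Or.inr fun w hw => by
      rw [smul_dotProduct, hv_dot H, (herm_eq_zero_comm H).1 (hvP w hw), smul_zero]),
      utvGroup_le H (utv_mem_utvGroup hv0 hc)⟩⟩
  obtain ⟨x, hxP, hx⟩ : ∃ x, x ∉ P ∧ x ∈ ucentres σ h M := by
    by_contra hcon
    push Not at hcon
    set I := Submodule.span F {v | v ∈ P ∧ h v v = 0}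
    have hIP : I ≤ P := Submodule.span_le.2 fun v hv0 => hv0.1
    have hWI : W ≤ I := fun w hw => Submodule.subset_span ⟨hWP hw, hW w hw w hw⟩
    have hgI : I.map (Matrix.toLin' (g : Matrix ι ι F)) = I := by
      refine Submodule.eq_of_le_of_finrank_eq ?_ (finrank_map_gl _ _)
      rw [Submodule.map_span]
      refine Submodule.span_le.2 ?_
      rintro _ ⟨v, ⟨hvP, hv0⟩, rfl⟩
      rw [Matrix.toLin'_apply]
      refine Submodule.subset_span ⟨?_, by rw [hgi]; exact hv0⟩
      by_contra hnot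
      exact hcon _ hnot (mulVec_mem_ucentres H hg hgi (hPc v hvP hv0))
    refine hgn ⟨mem_subspaceStabilizer.2 fun w hw => ?_, hM hg⟩
    set y := (g : Matrix ι ι F) *ᵥ w
    have hyI : y ∈ I := hgI ▸ ⟨w, hWI hw, by simp [y]⟩
    have hyI' : ∀ z ∈ I, h y z = 0 := by
      intro z hz
      rw [← hgI] at hz
      obtain ⟨u, hu, rfl⟩ := hz
      rw [Matrix.toLin'_apply, hgi]
      exact (herm_eq_zero_comm H).1 (hIP hu w hw)
    by_contra hyW
    obtain ⟨p, hp, hyp⟩ : ∃ p ∈ P, h y p ≠ 0 := by
      by_contra hc2; push Not at hc2; exact hyW (hPW y (hIP hyI) hc2)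
    obtain ⟨c, hc⟩ := exists_isotropic_translate H (hyI' y hyI) hyp
    have := hyI' _ (Submodule.subset_span ⟨P.add_mem hp (P.smul_mem c (hIP hyI)), hc⟩)
    rw [herm_add_right H, herm_smul_right H, hyI' y hyI, mul_zero, add_zero] at this
    exact hyp this
  -- the Siegel elements of `W` preserve it
  have hK : ∀ {v z : ι → F} {c : F}, v ∈ W → h v z = 0 → c + σ c + h z z = 0 →
      usieg h v z c ∈ M := fun {v z c} hv' hvz hc => hle ⟨mem_subspaceStabilizer.2 fun w hw => by
        rw [usieg_mulVec H (hW v hv' v hv') hvz, hW w hw v hv', mul_zero, zero_add, zero_smul,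
          sub_zero]
        exact W.add_mem hw (W.smul_mem _ hv'), usieg_mem H (hW v hv' v hv') hvz hc⟩
  have exc : ∀ z : ι → F, ∃ c, c + σ c + h z z = 0 := fun z => by
    obtain ⟨c, hc⟩ := exists_trace_eq H (a := -h z z) (by rw [map_neg, herm_self_fixed H])
    exact ⟨c, by rw [hc]; ring⟩
  -- translations by `P`
  have trans : ∀ y, y ∉ P → y ∈ ucentres σ h M → ∀ u ∈ P, h (y + u) (y + u) = 0 →
      y + u ∈ ucentres σ h M := by
    intro y hyP hy u hu hiso
    obtain ⟨v, hv', hyv⟩ : ∃ v ∈ W, h y v ≠ 0 := by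
      by_contra hc2; push Not at hc2; exact hyP hc2
    set z := (-(h y v)⁻¹) • u with hz
    have hvz : h v z = 0 := (herm_eq_zero_comm H).1 ((P.smul_mem _ hu : z ∈ P) v hv')
    obtain ⟨c, hc⟩ := exc z
    have hu0 : h u v = 0 := hu v hv'
    have h1 := mulVec_mem_ucentres H (hK hv' hvz hc) (usieg_mem H (hW v hv' v hv') hvz hc).1 hy
    rw [usieg_mulVec H (hW v hv' v hv') hvz, show h y v • z = -u by
      rw [hz, smul_smul, mul_neg, mul_inv_cancel₀ hyv, neg_one_smul], sub_neg_eq_add] at h1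
    set l := c * h y v + h y z
    have e : y + u = (y + l • v + u) + (-l) • v := by module
    rw [e] at hiso ⊢
    refine add_smul_mem_ucentres H h1 (hPc v (hWP hv') (hW v hv' v hv')) ?_ hiso
    simp only [H.add_left, H.smul_left, hu0, hW v hv' v hv']
    simpa using hyv
  refine iso_sl_le_of_ucentres H hn fun x' hx' => ?_
  by_cases hx'P : x' ∈ P
  · exact hPc x' hx'P hx'
  obtain ⟨a₁, ha₁, ha₁x⟩ : ∃ a ∈ W, h a x = 1 := by
    obtain ⟨v, hv', hxv⟩ : ∃ v ∈ W, h x v ≠ 0 := by
      by_contra hc2; push Not at hc2; exact hxP hc2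
    refine ⟨(h v x)⁻¹ • v, W.smul_mem _ hv', ?_⟩
    rw [H.smul_left, inv_mul_cancel₀ fun e => hxv ((herm_eq_zero_comm H).1 e)]
  by_cases hprop : ∀ a ∈ W, h a x = 0 → h a x' = 0
  · set s := σ (h a₁ x') with hs
    have hd : x' - s • x ∈ P := fun w hw => by
      refine (herm_eq_zero_comm H).1 ?_
      have := hprop (w - h w x • a₁) (W.sub_mem hw (W.smul_mem _ ha₁)) (by
        rw [herm_sub_left H, H.smul_left, ha₁x, mul_one, sub_self])
      rw [herm_sub_left H, H.smul_left] at this
      rw [herm_sub_right H, herm_smul_right H, hs, H.involutive]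
      linear_combination this
    have hs0 : s ≠ 0 := fun e => hx'P (by simpa [e] using hd)
    have hsx : s • x ∉ P := fun he => hxP (by simpa [hs0] using P.smul_mem s⁻¹ he)
    have := trans _ hsx (smul_mem_ucentres H s hx) _ hd (by rwa [add_sub_cancel])
    rwa [add_sub_cancel] at this
  · push Not at hprop
    obtain ⟨a₀, ha₀, ha₀x, ha₀x'⟩ := hprop
    set v := a₁ + ((1 - h a₁ x') / h a₀ x') • a₀ with hvdef
    have hv' : v ∈ W := W.add_mem ha₁ (W.smul_mem _ ha₀)
    have hvx : h v x = 1 := by rw [hvdef, H.add_left, H.smul_left, ha₁x, ha₀x, mul_zero, add_zero]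
    have hvx' : h v x' = 1 := by rw [hvdef, H.add_left, H.smul_left]; field_simp; ring
    have hxv : h x v = 1 := by rw [H.herm, hvx, map_one]
    have hvz : h v (x - x') = 0 := by rw [herm_sub_right H, hvx, hvx', sub_self]
    obtain ⟨c, hc⟩ := exc (x - x')
    have h1 := mulVec_mem_ucentres H (hK hv' hvz hc) (usieg_mem H (hW v hv' v hv') hvz hc).1 hx
    rw [usieg_mulVec H (hW v hv' v hv') hvz, hxv, one_smul] at h1
    set l := c * 1 + h x (x - x')
    have e : x + l • v - (x - x') = x' + l • v := by abel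
    rw [e] at h1
    have hnot : x' + l • v ∉ P := fun he =>
      hx'P (by simpa using P.sub_mem he (P.smul_mem l (hWP hv')))
    have h2 := trans _ hnot h1 ((-l) • v) (P.smul_mem _ (hWP hv')) (by
      rwa [show x' + l • v + (-l) • v = x' by module])
    rwa [show x' + l • v + (-l) • v = x' by module] at h2

omit [DecidableEq ι] [Fintype ι] in
/-- An isotropic vector of a non-degenerate subspace not orthogonal to a given one. -/
lemma exists_iso_nonorth [Finite F] {P : Submodule F (ι → F)} (hP : IsNondegenerateOn h P)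
    (hdim : 2 ≤ Module.finrank F P) {b : ι → F} (hb : b ∈ P) (hb0 : b ≠ 0) :
    ∃ p ∈ P, h p p = 0 ∧ h p b ≠ 0 := by
  obtain ⟨r, hr, hrr, hr0⟩ : ∃ r ∈ P, h r r = 0 ∧ r ≠ 0 := by
    obtain ⟨x, hx, hxx⟩ := exists_anisotropic H hP (fun e => by rw [e, finrank_bot] at hdim; omega)
    obtain ⟨u, hu, hux⟩ : ∃ u ∈ P, u ∉ Submodule.span F {x} := by
      refine SetLike.not_le_iff_exists.1 fun hle => ?_
      have := Submodule.finrank_mono hle
      rw [finrank_span_singleton (fun e => hxx (by rw [e, herm_zero_left H]))] at this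
      omega
    set z := u - (h u x / h x x) • x with hz
    have hzP : z ∈ P := P.sub_mem hu (P.smul_mem _ hx)
    have hzx : h z x = 0 := by rw [hz, herm_sub_left H, H.smul_left]; field_simp; ring
    have hz0 : z ≠ 0 := fun e => hux (by
      rw [hz, sub_eq_zero] at e; rw [e]
      exact Submodule.smul_mem _ _ (Submodule.mem_span_singleton_self x))
    by_cases hzz : h z z = 0
    · exact ⟨z, hzP, hzz, hz0⟩
    obtain ⟨t, ht⟩ := exists_norm_eq H (a := -h x x / h z z)
      (by rw [map_div₀, map_neg, herm_self_fixed H, herm_self_fixed H])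
    refine ⟨x + t • z, P.add_mem hx (P.smul_mem _ hzP), ?_, fun e => hxx ?_⟩
    · simp only [H.add_left, H.smul_left, herm_add_right H, herm_smul_right H, hzx,
        (herm_eq_zero_comm H).1 hzx]
      field_simp at ht
      linear_combination ht
    · have := congrArg (fun y => h y x) e
      simpa [H.add_left, H.smul_left, hzx, herm_zero_left H] using this
  by_cases hrb : h r b = 0
  swap
  · exact ⟨r, hr, hrr, hrb⟩
  obtain ⟨s, hs, hrs⟩ := (hP r hr hr0).2
  obtain ⟨y, hy, hyb⟩ := (hP b hb hb0).1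
  obtain ⟨s', hs', hrs', hs'b⟩ : ∃ s' ∈ P, h r s' ≠ 0 ∧ h s' b ≠ 0 := by
    by_cases h1 : h s b = 0
    · by_cases h2 : h r y = 0
      · exact ⟨s + y, P.add_mem hs hy, by rw [herm_add_right H, h2, add_zero]; exact hrs,
          by rw [H.add_left, h1, zero_add]; exact hyb⟩
      · exact ⟨y, hy, h2, hyb⟩
    · exact ⟨s, hs, hrs, h1⟩
  obtain ⟨c, hc⟩ := exists_isotropic_translate H hrr hrs'
  exact ⟨_, P.add_mem hs' (P.smul_mem c hr), hc, by
    rwa [H.add_left, H.smul_left, hrb, mul_zero, add_zero]⟩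

omit [DecidableEq ι] [Fintype ι] in
lemma exists_norm_one_ne : ∃ μ : F, μ * σ μ = 1 ∧ μ ≠ 1 := by
  obtain ⟨x, hx⟩ : ∃ x : F, σ x ≠ x := by
    by_contra hcon; push Not at hcon
    exact H.ne_refl (RingEquiv.ext hcon)
  have hx0 : x ≠ 0 := fun e => hx (by simp [e])
  have hσ0 : σ x ≠ 0 := by simpa using hx0
  refine ⟨x / σ x, ?_, fun e => hx ?_⟩
  · rw [map_div₀, H.involutive]; field_simp
  · field_simp at e; exact e.symm

omit [DecidableEq ι] in
/-- An anisotropic vector in a subspace orthogonal to few given ones. -/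
lemma exists_aniso_perp [Finite F] {P : Submodule F (ι → F)} (hP : IsNondegenerateOn h P)
    {k : ℕ} (u : Fin k → (ι → F)) (hu : ∀ i, u i ∈ P) (hk : 2 * k < Module.finrank F P) :
    ∃ p ∈ P, (∀ i, h p (u i) = 0) ∧ h p p ≠ 0 := by
  classical
  by_contra hcon
  push Not at hcon
  let L : P →ₗ[F] (Fin k → F) :=
    { toFun := fun x i => h (x : ι → F) (u i)
      map_add' := fun a b => funext fun i => H.add_left _ _ _
      map_smul' := fun c a => funext fun i => H.smul_left c _ _ }
  set K := (LinearMap.ker L).map P.subtype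
  have hKP : K ≤ P := by rintro _ ⟨x, -, rfl⟩; exact x.2
  have hK : ∀ x ∈ K, ∀ i, h x (u i) = 0 := by
    rintro _ ⟨x, hx, rfl⟩ i; exact congrFun (LinearMap.mem_ker.1 hx) i
  have hiso : ∀ x ∈ K, h x x = 0 := fun x hx => hcon x (hKP hx) (hK x hx)
  have htot : ∀ x ∈ K, ∀ y ∈ K, h x y = 0 := by
    intro x hx y hy
    by_contra hne
    obtain ⟨r, hr⟩ := exists_trace_ne_zero H
    have := hiso _ (K.add_mem (K.smul_mem (r / h x y) hx) hy)
    simp only [H.add_left, H.smul_left, herm_add_right H, herm_smul_right H, hiso x hx, hiso y hy,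
      H.herm y x, map_div₀] at this
    have hσ : σ (h x y) ≠ 0 := by simpa using hne
    field_simp at this
    exact hr (mul_right_cancel₀ (mul_ne_zero hne hσ) (by rw [zero_mul]; linear_combination this))
  let e := Module.finBasis F K
  let T : P →ₗ[F] (Fin (Module.finrank F K) → F) :=
    { toFun := fun x j => h (x : ι → F) (e j : ι → F)
      map_add' := fun a b => funext fun j => H.add_left _ _ _
      map_smul' := fun c a => funext fun j => H.smul_left c _ _ }
  have hT : LinearMap.range T = ⊤ := by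
    by_contra hne
    obtain ⟨f, hf0, hf⟩ := Submodule.exists_le_ker_of_lt_top _ (lt_top_iff_ne_top.2 hne)
    let c : Fin (Module.finrank F K) → F := fun j => f (Pi.single j 1)
    have hfv : ∀ v, f v = ∑ j, v j * c j := fun v => by
      conv_lhs => rw [pi_eq_sum_univ' v]
      simp [map_sum, c]
    have hlin : ∀ (y : K) (x : P), h (x : ι → F) (y : ι → F) =
        ∑ j, σ (e.repr y j) * h (x : ι → F) (e j : ι → F) := by
      intro y x
      let L₁ : K →ₗ[F] F :=
        { toFun := fun s => h (s : ι → F) (x : ι → F)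
          map_add' := fun s s' => H.add_left _ _ _
          map_smul' := fun c s => H.smul_left c _ _ }
      have h1 : L₁ y = ∑ j, e.repr y j * L₁ (e j) := by
        conv_lhs => rw [← e.sum_repr y, map_sum]
        simp only [map_smul, smul_eq_mul]
      rw [H.herm]
      change σ (L₁ y) = _
      rw [h1, map_sum]
      refine Finset.sum_congr rfl fun j _ => ?_
      rw [map_mul, H.herm (x : ι → F) (e j : ι → F)]
      rfl
    let z : K := ∑ j, σ (c j) • e j
    have hz : ∀ j, e.repr z j = σ (c j) := fun j => by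
      simp [z, map_sum, Finsupp.single_apply]
    by_cases hz0 : (z : ι → F) = 0
    · refine hf0 (LinearMap.ext fun v => ?_)
      have : ∀ j, c j = 0 := fun j => by
        have := hz j
        rw [show z = 0 from Subtype.ext hz0, map_zero, Finsupp.zero_apply, eq_comm] at this
        simpa using this
      simp [hfv, this]
    · obtain ⟨x, hx, hxz⟩ := (hP _ (hKP z.2) hz0).1
      refine hxz ?_
      have h1 : f (T ⟨x, hx⟩) = 0 := LinearMap.mem_ker.1 (hf ⟨_, rfl⟩)
      rw [hfv] at h1
      rw [hlin z ⟨x, hx⟩, ← h1]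
      refine Finset.sum_congr rfl fun j _ => ?_
      rw [hz, H.involutive, mul_comm]
      rfl
  have h1 := LinearMap.finrank_range_add_finrank_ker T
  rw [hT, finrank_top, Module.finrank_fin_fun] at h1
  have h2 : Module.finrank F K ≤ Module.finrank F (LinearMap.ker T) := by
    let incl : K →ₗ[F] LinearMap.ker T :=
      LinearMap.codRestrict _ ((Submodule.inclusion hKP)) fun x =>
        LinearMap.mem_ker.2 (funext fun j => htot _ x.2 _ (e j).2)
    refine LinearMap.finrank_le_finrank_of_injective (f := incl) fun a b hab => ?_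
    exact Subtype.ext (congrArg (fun t : LinearMap.ker T => ((t : P) : ι → F)) hab)
  have h3 := LinearMap.finrank_range_add_finrank_ker L
  have h4 := Submodule.finrank_le (LinearMap.range L)
  rw [Module.finrank_fin_fun] at h4
  have h5 : Module.finrank F K = Module.finrank F (LinearMap.ker L) :=
    Submodule.finrank_map_subtype_eq _ _
  omega

end Cfsg.Agent.Lib.Forms
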