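import Cfsg.Agent.Lib.Forms.UnitaryMax
import Cfsg.Agent.Lib.Forms.LagrangePair

/-!
The stabiliser of a pair of complementary totally isotropic subspaces is maximal in the special
unitary group.
-/

set_option autoImplicit false

namespace Cfsg.Agent.Lib.Forms

open Matrix Cfsg.Geo

variable {ι : Type} [Fintype ι] [DecidableEq ι] {F : Type*} [Field F]
  {σ : F ≃+* F} {h : (ι → F) → (ι → F) → F}

/-- The rank-two element `x ↦ x + c h(x, b) a - σc h(x, a) b`. -/
noncomputable def ueE (σ : F ≃+* F) (h : (ι → F) → (ι → F) → F) (a b : ι → F) (c : F) : GL ι F :=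
  tv a (c • hv h b) * tv b ((-σ c) • hv h a)

/-- A complementary pair of totally isotropic subspaces. -/
structure UPair (h : (ι → F) → (ι → F) → F) (D : Fin 2 → Submodule F (ι → F)) (m : ℕ) : Prop where
  rank : ∀ i, Module.finrank F (D i) = m
  large : 7 ≤ m
  total : Fintype.card ι = 2 * m
  singular : ∀ i, ∀ u ∈ D i, ∀ v ∈ D i, h u v = 0
  spans : ∀ x, ∃ p : Fin 2 → (ι → F), (∀ i, p i ∈ D i) ∧ p 0 + p 1 = x

variable (H : IsUnitaryForm σ h)
include H

lemma ueE_mulVec {a b : ι → F} (ha : h a a = 0) (hb : h b b = 0) (hab : h a b = 0) (c : F)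
    (x : ι → F) :
    (ueE σ h a b c : Matrix ι ι F) *ᵥ x = x + (c * h x b) • a - (σ c * h x a) • b := by
  have hba := eq_zero_of_herm_self H hab
  rw [ueE, mul_mulVec', tv_mulVec (by simp [hv_dot H, hab]), tv_mulVec (by simp [hv_dot H, hba])]
  simp only [smul_dotProduct, hv_dot H, smul_eq_mul, H.add_left, H.smul_left, hb, mul_zero,
    add_zero]
  module

lemma ueE_mem {a b : ι → F} (ha : h a a = 0) (hb : h b b = 0) (hab : h a b = 0) (c : F) :
    ueE σ h a b c ∈ isoH h ⊓ specialLinear ι F := by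
  have hba := eq_zero_of_herm_self H hab
  refine ⟨fun x y => ?_, mul_mem (tv_mem_specialLinear _ _) (tv_mem_specialLinear _ _)⟩
  simp only [ueE_mulVec H ha hb hab, herm_sub_left H, herm_sub_right H, H.add_left, H.smul_left,
    herm_add_right H, herm_smul_right H, map_mul, H.involutive, ha, hb, hab, hba, ← H.herm]
  ring

namespace UPair

variable {D : Fin 2 → Submodule F (ι → F)} {m : ℕ} (P : UPair h D m)
include P

omit H [DecidableEq ι] in
lemma iso {i : Fin 2} {u : ι → F} (hu : u ∈ D i) : h u u = 0 := P.singular i u hu u hu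

omit [DecidableEq ι] in
lemma eq_zero_of_perp {i j : Fin 2} (hij : i ≠ j) {a : ι → F} (ha : a ∈ D i)
    (hperp : ∀ b ∈ D j, h a b = 0) : a = 0 := by
  by_contra ha0
  obtain ⟨x, hx⟩ := (H.nondegenerate a ha0).2
  obtain ⟨p, hp, rfl⟩ := P.spans x
  have : ∀ k, h a (p k) = 0 := fun k => by
    rcases fin2_or hij k with rfl | rfl
    · exact P.singular _ a ha _ (hp _)
    · exact hperp _ (hp _)
  exact hx (by rw [herm_add_right H, this, this, add_zero])

omit [DecidableEq ι] in
lemma exists_pairing {i j : Fin 2} (hij : i ≠ j) {a : ι → F} (ha : a ∈ D i) (ha0 : a ≠ 0) :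
    ∃ b ∈ D j, h a b = 1 := by
  by_contra hcon
  push Not at hcon
  refine ha0 (P.eq_zero_of_perp H hij ha fun b hb => ?_)
  by_contra hne
  refine hcon _ ((D j).smul_mem (σ (h a b)⁻¹) hb) ?_
  rw [herm_smul_right H, H.involutive, inv_mul_cancel₀ hne]

omit [DecidableEq ι] in
lemma exists_sep {i j : Fin 2} (hij : i ≠ j) {a a' : ι → F} (ha : a ∈ D i) (ha' : a' ∈ D i)
    (hind : a ∉ Submodule.span F {a'}) : ∃ b ∈ D j, h a b = 1 ∧ h a' b = 0 := by
  rcases eq_or_ne a' 0 with rfl | ha0
  · obtain ⟨b, hb, hab⟩ := P.exists_pairing H hij ha (fun e => hind (by simp [e]))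
    exact ⟨b, hb, hab, herm_zero_left H _⟩
  obtain ⟨b', hb', hab'⟩ := P.exists_pairing H hij ha' ha0
  obtain ⟨b, hb, hab⟩ := P.exists_pairing H hij
    ((D i).sub_mem ha ((D i).smul_mem (h a b') ha')) (fun e => hind (by
      rw [sub_eq_zero] at e; rw [e]
      exact Submodule.smul_mem _ _ (Submodule.mem_span_singleton_self a')))
  rw [herm_sub_left H, H.smul_left] at hab
  refine ⟨b - σ (h a' b) • b', (D j).sub_mem hb ((D j).smul_mem _ hb'), ?_, ?_⟩
  · rw [herm_sub_right H, herm_smul_right H, H.involutive]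
    linear_combination hab
  · rw [herm_sub_right H, herm_smul_right H, H.involutive, hab', mul_one, sub_self]

lemma ueE_mem_stab {a b : ι → F} {i j : Fin 2} (hij : i ≠ j) (ha : a ∈ D i) (hb : b ∈ D j)
    (hab : h a b = 0) (c : F) :
    ueE σ h a b c ∈ decompositionStabilizer D ⊓ (isoH h ⊓ specialLinear ι F) := by
  refine ⟨⟨1, fun k => Submodule.eq_of_le_of_finrank_eq (map_le_of_mulVec_mem fun x hx => ?_)
    (by rw [finrank_map_gl]; rfl)⟩, ueE_mem H (P.iso ha) (P.iso hb) hab c⟩
  rw [ueE_mulVec H (P.iso ha) (P.iso hb) hab]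
  rcases fin2_or hij k with rfl | rfl
  · rw [P.singular _ x hx a ha, mul_zero, zero_smul, sub_zero]
    exact (D _).add_mem hx ((D _).smul_mem _ ha)
  · rw [P.singular _ x hx b hb, mul_zero, zero_smul, add_zero]
    exact (D _).sub_mem hx ((D _).smul_mem _ hb)

variable {M : Subgroup (GL ι F)}
  (hle : decompositionStabilizer D ⊓ (isoH h ⊓ specialLinear ι F) ≤ M)
include hle

/-- A rank-two element inside one member gives a centre there. -/
lemma centre_of_ueE {j : Fin 2} {w p : ι → F} (hw : w ∈ D j) (hp : p ∈ D j)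
    (hind : p ∉ Submodule.span F {w}) {γ : F} (hγ : γ + σ γ = 0)
    (hm : ueE σ h w p 1 * tv w (γ • hv h w) ∈ M) : w ∈ ucentres σ h M := by
  refine ⟨P.iso hw, fun c hc => ?_⟩
  obtain ⟨i, hij⟩ : ∃ i : Fin 2, i ≠ j := exists_ne j
  obtain ⟨b, hb, hpb, hwb⟩ := P.exists_sep H (Ne.symm hij) hp hw hind
  obtain ⟨t, ht⟩ := exists_trace_eq H (a := (1 : F)) (map_one σ)
  set s := -(c * t) with hs
  have hσc : σ c = -c := eq_neg_of_add_eq_zero_right hc
  have hsc : σ s - s = c := by
    rw [hs, map_neg, map_mul, hσc]; linear_combination c * ht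
  have hh := P.ueE_mem_stab H (Ne.symm hij) hw hb hwb s
  have hww := P.iso hw
  have hbb := P.iso hb
  have hwp : h w p = 0 := P.singular j w hw p hp
  set e := ueE σ h w b s with he
  have hmove : (e : Matrix ι ι F) *ᵥ p = p + s • w := by
    rw [he, ueE_mulVec H hww hbb hwb, hpb, P.singular j p hp w hw]; simp
  have hfix : (e : Matrix ι ι F) *ᵥ w = w := by
    rw [he, ueE_mulVec H hww hbb hwb, hwb, hww]; simp
  have key : e * ueE σ h w p 1 * e⁻¹ = tv w (c • hv h w) * ueE σ h w p 1 := by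
    apply gl_ext; intro x
    have e1 : h (((e⁻¹ : GL ι F) : Matrix ι ι F) *ᵥ x) w = h x w := by
      have := hh.2.1 (((e⁻¹ : GL ι F) : Matrix ι ι F) *ᵥ x) w
      rw [mulVec_inv_mulVec, hfix] at this; exact this.symm
    have e2 : h (((e⁻¹ : GL ι F) : Matrix ι ι F) *ᵥ x) p = h x p + σ s * h x w := by
      have := hh.2.1 (((e⁻¹ : GL ι F) : Matrix ι ι F) *ᵥ x) p
      rw [mulVec_inv_mulVec, hmove, herm_add_right H, herm_smul_right H] at this
      exact this.symm
    rw [mul_mulVec', mul_mulVec', mul_mulVec', utv_mulVec H hww,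
      ueE_mulVec H hww (P.iso hp) hwp, mulVec_sub, mulVec_add, mulVec_smul, mulVec_smul,
      mulVec_inv_mulVec, hfix, hmove, e1, e2, ueE_mulVec H hww (P.iso hp) hwp, herm_sub_left H,
      H.add_left, H.smul_left, H.smul_left, hww, P.singular j p hp w hw, map_one, ← hsc]
    module
  have key' : e * (ueE σ h w p 1 * tv w (γ • hv h w)) * e⁻¹ =
      tv w (c • hv h w) * (ueE σ h w p 1 * tv w (γ • hv h w)) := by
    have e' := utv_conj H hh.2.1 hww γ
    rw [hfix] at e'
    rw [← mul_assoc (tv w (c • hv h w)), ← key]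
    calc _ = e * ueE σ h w p 1 * e⁻¹ * (e * tv w (γ • hv h w) * e⁻¹) := by group
      _ = _ := by rw [e']
  have h1 := M.mul_mem (M.mul_mem (hle hh) hm) (M.inv_mem (hle hh))
  rw [key'] at h1
  have h2 := M.mul_mem h1 (M.inv_mem hm)
  rwa [mul_inv_cancel_right] at h2

lemma centres_spread {j : Fin 2} {w : ι → F} (hw : w ∈ D j) (hw0 : w ≠ 0)
    (hC : w ∈ ucentres σ h M) {u : ι → F} (hu : u ∈ D j) : u ∈ ucentres σ h M := by
  obtain ⟨i, hij⟩ : ∃ i : Fin 2, i ≠ j := exists_ne j
  by_cases hmem : u ∈ Submodule.span F {w}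
  · obtain ⟨c, rfl⟩ := Submodule.mem_span_singleton.1 hmem
    exact smul_mem_ucentres H c hC
  have hind : w ∉ Submodule.span F {u - w} := fun h' => hmem (by
    obtain ⟨c, hc⟩ := Submodule.mem_span_singleton.1 h'
    have hc0 : c ≠ 0 := fun e => hw0 (by rw [← hc, e, zero_smul])
    refine Submodule.mem_span_singleton.2 ⟨c⁻¹ + 1, ?_⟩
    have : u - w = c⁻¹ • w := by
      conv_rhs => rw [← hc, smul_smul, inv_mul_cancel₀ hc0, one_smul]
    rw [add_smul, one_smul, ← this, sub_add_cancel])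
  have huw := (D j).sub_mem hu hw
  obtain ⟨b, hb, hwb, hub⟩ := P.exists_sep H (Ne.symm hij) hw huw hind
  have hh := P.ueE_mem_stab H (Ne.symm hij) huw hb hub 1
  have := mulVec_mem_ucentres H (hle hh) hh.2.1 hC
  rwa [ueE_mulVec H (P.iso huw) (P.iso hb) hub, hwb, P.singular j w hw _ huw, one_mul, mul_zero,
    one_smul, zero_smul, sub_zero, add_sub_cancel] at this

lemma iso_sl_le_of_members [Finite F] (hC : ∀ j, ∀ u ∈ D j, u ∈ ucentres σ h M) :
    isoH h ⊓ specialLinear ι F ≤ M := by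
  refine iso_sl_le_of_ucentres H (by rw [P.total]; have := P.large; omega) fun v hv' => ?_
  obtain ⟨p, hp, rfl⟩ := P.spans v
  have h01 : (0 : Fin 2) ≠ 1 := by decide
  rcases eq_or_ne (p 1) 0 with e | e
  · rw [e, add_zero]; exact hC 0 _ (hp 0)
  by_cases hne : h (p 0) (p 1) = 0
  swap
  · simpa using add_smul_mem_ucentres H (hC 0 _ (hp 0)) (hC 1 _ (hp 1)) hne (t := 1)
      (by rwa [one_smul])
  obtain ⟨u₁, hu₁, hqu⟩ := P.exists_pairing H h01.symm (hp 1) e
  obtain ⟨κ, hκ0, hκ⟩ := exists_skew H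
  have hσκ : σ κ = -κ := eq_neg_of_add_eq_zero_right hκ
  set u := κ • u₁ with hu'
  have hu : u ∈ D 0 := (D 0).smul_mem _ hu₁
  have huq : h (p 1) u = -κ := by rw [hu', herm_smul_right H, hqu, mul_one, hσκ]
  have hqu' : h u (p 1) = κ := by rw [H.herm, huq, map_neg, hσκ, neg_neg]
  have h1 : h (p 0 - u) (p 1) ≠ 0 := by rw [herm_sub_left H, hne, hqu']; simpa using hκ0
  have hiso : h (p 0 - u + (1 : F) • p 1) (p 0 - u + (1 : F) • p 1) = 0 := by
    rw [one_smul, H.add_left, herm_add_right H, herm_add_right H,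
      P.iso ((D 0).sub_mem (hp 0) hu), P.iso (hp 1), herm_sub_left H, hne, hqu', herm_sub_right H,
      eq_zero_of_herm_self H hne, huq]
    ring
  have ha := add_smul_mem_ucentres H (hC 0 _ ((D 0).sub_mem (hp 0) hu)) (hC 1 _ (hp 1)) h1 hiso
  have h2 : h (p 0 - u + (1 : F) • p 1) u ≠ 0 := by
    rw [one_smul, H.add_left, P.singular 0 _ ((D 0).sub_mem (hp 0) hu) _ hu, huq, zero_add]
    simpa using hκ0
  have h3 := add_smul_mem_ucentres H ha (hC 0 _ hu) h2 (t := 1)
    (by rwa [one_smul, one_smul, show p 0 - u + p 1 + u = p 0 + p 1 by abel])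
  simp only [one_smul] at h3
  rwa [show p 0 - u + p 1 + u = p 0 + p 1 by abel] at h3

/-- An element outside the stabiliser gives a centre in one of the members. -/
lemma exists_centre {g : GL ι F} (hg : g ∈ M) (hgi : g ∈ isoH h)
    (hgn : g ∉ decompositionStabilizer D) :
    ∃ j, ∃ w ∈ D j, w ≠ 0 ∧ w ∈ ucentres σ h M := by
  classical
  by_contra hnoC
  push Not at hnoC
  set G := (g : Matrix ι ι F)
  choose p hp hps using P.spans
  have h01 : (0 : Fin 2) ≠ 1 := by decide
  have puniq : ∀ x (q : Fin 2 → (ι → F)), (∀ i, q i ∈ D i) → q 0 + q 1 = x → p x = q := by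
    intro x q hq hx
    have he : p x 0 - q 0 = q 1 - p x 1 := by
      rw [sub_eq_sub_iff_add_eq_add, hps, add_comm (q 1), hx]
    have h0 : p x 0 - q 0 = 0 := P.eq_zero_of_perp H h01 ((D 0).sub_mem (hp x 0) (hq 0))
      fun b hb => by
        rw [he]; exact P.singular 1 _ ((D 1).sub_mem (hq 1) (hp x 1)) b hb
    funext i
    fin_cases i
    · exact sub_eq_zero.1 h0
    · rw [h0] at he; exact (sub_eq_zero.1 he.symm).symm
  have padd : ∀ x y, p (x + y) = p x + p y := fun x y => puniq _ _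
    (fun i => (D i).add_mem (hp x i) (hp y i))
    (by rw [Pi.add_apply, Pi.add_apply, add_add_add_comm, hps, hps])
  have psmul : ∀ (c : F) x, p (c • x) = c • p x := fun c x => puniq _ _
    (fun i => (D i).smul_mem c (hp x i)) (by rw [Pi.smul_apply, Pi.smul_apply, ← smul_add, hps])
  let π : ∀ (_ : Fin 2), (ι → F) →ₗ[F] (ι → F) := fun i =>
    { toFun := fun x => p (G *ᵥ x) i
      map_add' := fun x y => by rw [mulVec_add, padd]; rfl
      map_smul' := fun c x => by rw [mulVec_smul, psmul]; rfl }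
  suffices Hr : ∀ b : Fin 2, ∀ u₁ u₂ : ι → F, ∀ i₁ i₂ : Fin 2, i₁ ≠ i₂ → u₁ ∈ D i₁ → u₂ ∈ D i₂ →
      h u₁ u₂ = 0 → π b u₂ ≠ 0 → π b u₁ ∈ Submodule.span F {π b u₂} by
    have hzero : ∀ b, (∀ u ∈ D 0, π b u = 0) ∨ (∀ u ∈ D 1, π b u = 0) := by
      intro b
      by_contra hcon
      push Not at hcon
      obtain ⟨⟨u, hu, hfu⟩, ⟨w, hw, hhw⟩⟩ := hcon
      have hr : ∀ (i i' : Fin 2), i ≠ i' → ∀ w ∈ D i', π b w ≠ 0 →
          Module.finrank F ((D i).map (π b)) ≤ 2 := by
        intro i i' hii w hw hne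
        obtain ⟨v, hv', hwv⟩ := P.exists_pairing H hii.symm hw (fun e => hne (by rw [e, map_zero]))
        have hle' : (D i).map (π b) ≤ Submodule.span F {π b w} ⊔ Submodule.span F {π b v} := by
          rintro _ ⟨x, hx, rfl⟩
          have hx' : x - h x w • v ∈ D i := (D i).sub_mem hx ((D i).smul_mem _ hv')
          have hperp : h (x - h x w • v) w = 0 := by
            rw [herm_sub_left H, H.smul_left, H.herm v w, hwv, map_one, mul_one, sub_self]
          have h1 := Hr b _ w i i' hii hx' hw hperp hne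
          rw [map_sub, map_smul] at h1
          have h2 : h x w • π b v ∈ Submodule.span F {π b v} :=
            Submodule.smul_mem _ _ (Submodule.mem_span_singleton_self _)
          simpa using Submodule.add_mem _ (Submodule.mem_sup_left h1) (Submodule.mem_sup_right h2)
        refine le_trans (Submodule.finrank_mono hle') (le_trans
          (Submodule.finrank_add_le_finrank_add_finrank _ _) ?_)
        have := finrank_span_le_card (R := F) ({π b w} : Set (ι → F))
        have := finrank_span_le_card (R := F) ({π b v} : Set (ι → F))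
        simp at *
        omega
      have hle' : D b ≤ (D 0).map (π b) ⊔ (D 1).map (π b) := by
        intro y hy
        set x := ((g⁻¹ : GL ι F) : Matrix ι ι F) *ᵥ y
        have e : π b x = y := by
          change p (G *ᵥ x) b = y
          rw [mulVec_inv_mulVec, puniq y (fun k => if k = b then y else 0) (fun k => by
            split_ifs with hk
            · exact hk ▸ hy
            · exact Submodule.zero_mem _) (by fin_cases b <;> simp)]
          simp
        rw [← e, ← hps x, map_add]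
        exact Submodule.add_mem_sup (Submodule.mem_map_of_mem (hp x 0))
          (Submodule.mem_map_of_mem (hp x 1))
      have := Submodule.finrank_mono hle'
      have := Submodule.finrank_add_le_finrank_add_finrank ((D 0).map (π b)) ((D 1).map (π b))
      have := hr 0 1 h01 w hw hhw
      have := hr 1 0 h01.symm u hu hfu
      have := P.rank b
      have := P.large
      omega
    exfalso
    apply hgn
    have hsum : ∀ x, G *ᵥ x = π 0 x + π 1 x := fun x => (hps _).symm
    have hmem : ∀ (i b : Fin 2), (∀ b', b' ≠ b → ∀ u ∈ D i, π b' u = 0) →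
        (D i).map (Matrix.toLin' G) = D b := by
      intro i b hb
      refine Submodule.eq_of_le_of_finrank_eq (map_le_of_mulVec_mem fun u hu => ?_)
        (by rw [finrank_map_gl, P.rank, P.rank])
      rw [hsum]
      fin_cases b
      · rw [hb 1 (by decide) u hu, add_zero]; exact hp _ 0
      · rw [hb 0 (by decide) u hu, zero_add]; exact hp _ 1
    have hnz : ∀ i, ¬ ((∀ u ∈ D i, π 0 u = 0) ∧ ∀ u ∈ D i, π 1 u = 0) := by
      rintro i ⟨h0, h1⟩
      obtain ⟨u, hu, hu0⟩ : ∃ u ∈ D i, u ≠ 0 := Submodule.exists_mem_ne_zero_of_ne_bot fun e => by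
        have h' := P.rank i; rw [e, finrank_bot] at h'; have := P.large; omega
      apply hu0
      apply gl_mulVec_injective g
      change G *ᵥ u = G *ᵥ 0
      rw [hsum, h0 u hu, h1 u hu, add_zero, mulVec_zero]
    rcases hzero 0 with a | a <;> rcases hzero 1 with a' | a'
    · exact absurd ⟨a, a'⟩ (hnz 0)
    · refine ⟨Equiv.swap 0 1, fun i => ?_⟩
      fin_cases i
      · simpa using hmem 0 1 (fun b' hb' => by fin_cases b' <;> simp_all)
      · simpa using hmem 1 0 (fun b' hb' => by fin_cases b' <;> simp_all)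
    · refine ⟨1, fun i => ?_⟩
      fin_cases i
      · simpa using hmem 0 0 (fun b' hb' => by fin_cases b' <;> simp_all)
      · simpa using hmem 1 1 (fun b' hb' => by fin_cases b' <;> simp_all)
    · exact absurd ⟨a, a'⟩ (hnz 1)
  intro b u₁ u₂ i₁ i₂ hi hu₁ hu₂ horth hne
  by_contra hind
  set m₁ := G *ᵥ u₁
  set m₂ := G *ᵥ u₂
  have hm : h m₁ m₂ = 0 := by rw [hgi]; exact horth
  have hm11 : h m₁ m₁ = 0 := by rw [hgi]; exact P.iso hu₁
  have hm22 : h m₂ m₂ = 0 := by rw [hgi]; exact P.iso hu₂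
  have hm21 := eq_zero_of_herm_self H hm
  obtain ⟨a, hab⟩ : ∃ a : Fin 2, a ≠ b := exists_ne b
  obtain ⟨v₀, hv₀, hv1, hv2⟩ := P.exists_sep H hab.symm (hp m₁ b) (hp m₂ b) hind
  set v := (-1 : F) • v₀ with hvdef
  have hv' : v ∈ D a := (D a).smul_mem _ hv₀
  have hBsum : ∀ x, ∀ y ∈ D a, h x y = h (p x b) y := fun x y hy => by
    conv_lhs => rw [← hps x]
    rw [H.add_left]
    rcases fin2_cases hab with ⟨rfl, rfl⟩ | ⟨rfl, rfl⟩
    · rw [P.singular 1 _ (hp x 1) y hy, add_zero]
    · rw [P.singular 0 _ (hp x 0) y hy, zero_add]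
  have hm1v : h m₁ v = -1 := by
    rw [hBsum _ _ hv', hvdef, herm_smul_right H, hv1, map_neg, map_one, mul_one]
  have hm2v : h m₂ v = 0 := by
    rw [hBsum _ _ hv', hvdef, herm_smul_right H, hv2, mul_zero]
  obtain ⟨w, hw, hwm1, hwm2, hwv, hwout, hw0⟩ : ∃ w ∈ D b, h w m₁ = 0 ∧ h w m₂ = 0 ∧
      h w v = 0 ∧ p m₂ b ∉ Submodule.span F {w} ∧ w ≠ 0 := by
    let L : D b →ₗ[F] (Fin 3 → F) :=
      { toFun := fun w => ![h (w : ι → F) m₁, h (w : ι → F) m₂, h (w : ι → F) v]
        map_add' := fun x y => by ext i; fin_cases i <;> simp [H.add_left]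
        map_smul' := fun c x => by ext i; fin_cases i <;> simp [H.smul_left] }
    obtain ⟨w, hwK, hwout⟩ : ∃ w ∈ (LinearMap.ker L).map (D b).subtype,
        w ∉ Submodule.span F {p m₂ b} := by
      refine SetLike.not_le_iff_exists.1 fun hle' => ?_
      have h1 := Submodule.finrank_mono hle'
      rw [Submodule.finrank_map_subtype_eq] at h1
      have h2 := LinearMap.finrank_range_add_finrank_ker L
      have h3 := Submodule.finrank_le (LinearMap.range L)
      rw [Module.finrank_fin_fun] at h3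
      have h4 := finrank_span_le_card (R := F) ({p m₂ b} : Set (ι → F))
      have := P.rank b
      have := P.large
      simp at h4
      omega
    obtain ⟨⟨w, hw⟩, hker, rfl⟩ := hwK
    have e := LinearMap.mem_ker.1 hker
    refine ⟨w, hw, congrFun e 0, congrFun e 1, congrFun e 2, fun h' => hwout ?_,
      fun e' => hwout (by simp [e'])⟩
    obtain ⟨c, hc⟩ := Submodule.mem_span_singleton.1 h'
    rcases eq_or_ne c 0 with rfl | hc0
    · exfalso
      refine hne ?_
      change p m₂ b = 0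
      rw [← hc, zero_smul]
    · refine Submodule.mem_span_singleton.2 ⟨c⁻¹, ?_⟩
      simp [← hc, smul_smul, hc0]
  have hm1w := eq_zero_of_herm_self H hwm1
  have hm2w := eq_zero_of_herm_self H hwm2
  have hvw := eq_zero_of_herm_self H hwv
  have hww := P.iso hw
  have ht : ueE σ h m₁ m₂ 1 ∈ M := by
    have hu11 := P.iso hu₁
    have hu22 := P.iso hu₂
    have h1 := M.mul_mem (M.mul_mem hg (hle (P.ueE_mem_stab H hi hu₁ hu₂ horth 1))) (M.inv_mem hg)
    suffices e : g * ueE σ h u₁ u₂ 1 * g⁻¹ = ueE σ h m₁ m₂ 1 by rwa [e] at h1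
    apply gl_ext; intro x
    rw [mul_mulVec', mul_mulVec', ueE_mulVec H hu11 hu22 horth, ueE_mulVec H hm11 hm22 hm,
      mulVec_sub, mulVec_add, mulVec_smul, mulVec_smul, mulVec_inv_mulVec]
    have e1 : ∀ y, h (((g⁻¹ : GL ι F) : Matrix ι ι F) *ᵥ x) y = h x (G *ᵥ y) := fun y => by
      rw [← hgi, mulVec_inv_mulVec]
    rw [e1, e1]
  have hs := P.ueE_mem_stab H hab hv' hw hvw 1
  have h2 := M.mul_mem (M.mul_mem (hle hs) ht) (M.inv_mem (hle hs))
  set S := ueE σ h v w 1 with hSdef
  have hs1 : (S : Matrix ι ι F) *ᵥ m₁ = m₁ + w := by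
    rw [hSdef, ueE_mulVec H (P.iso hv') hww hvw, hm1v, hm1w]; simp
  have hs2 : (S : Matrix ι ι F) *ᵥ m₂ = m₂ := by
    rw [hSdef, ueE_mulVec H (P.iso hv') hww hvw, hm2v, hm2w]; simp
  have key : S * ueE σ h m₁ m₂ 1 * S⁻¹ = ueE σ h m₁ m₂ 1 * ueE σ h w m₂ 1 := by
    apply gl_ext; intro x
    have e2 : h (((S⁻¹ : GL ι F) : Matrix ι ι F) *ᵥ x) m₂ = h x m₂ := by
      have := hs.2.1 (((S⁻¹ : GL ι F) : Matrix ι ι F) *ᵥ x) m₂
      rw [mulVec_inv_mulVec, hs2] at this; exact this.symm
    have e1 : h (((S⁻¹ : GL ι F) : Matrix ι ι F) *ᵥ x) m₁ = h x m₁ + h x w := by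
      have := hs.2.1 (((S⁻¹ : GL ι F) : Matrix ι ι F) *ᵥ x) m₁
      rw [mulVec_inv_mulVec, hs1, herm_add_right H] at this; exact this.symm
    rw [mul_mulVec', mul_mulVec', mul_mulVec', ueE_mulVec H hm11 hm22 hm, mulVec_sub, mulVec_add,
      mulVec_smul, mulVec_smul, mulVec_inv_mulVec, hs1, hs2, e1, e2,
      ueE_mulVec H hww hm22 hwm2, ueE_mulVec H hm11 hm22 hm]
    simp only [herm_sub_left H, H.add_left, H.smul_left, hm22, hwm1, hwm2, hm21, map_one]
    module
  rw [key] at h2
  have h3 := M.mul_mem (M.inv_mem ht) h2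
  rw [inv_mul_cancel_left] at h3
  have hsum : p m₂ b + p m₂ a = m₂ := by
    rcases fin2_cases hab with ⟨rfl, rfl⟩ | ⟨rfl, rfl⟩
    · exact hps m₂
    · rw [add_comm]; exact hps m₂
  obtain ⟨ma, hma⟩ : ∃ y, y = p m₂ a := ⟨_, rfl⟩
  obtain ⟨mb, hmb⟩ : ∃ y, y = p m₂ b := ⟨_, rfl⟩
  have hmaD : ma ∈ D a := hma ▸ hp m₂ a
  have hmbD : mb ∈ D b := hmb ▸ hp m₂ b
  rw [← hma, ← hmb] at hsum
  have hwmb : h w mb = 0 := P.singular b w hw mb hmbD
  have hwma : h w ma = 0 := by
    have := hwm2; rw [← hsum, herm_add_right H, hwmb, zero_add] at this; exact this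
  set γ := h ma mb with hγdef
  have hγ : γ + σ γ = 0 := by
    have := hm22
    rw [← hsum, H.add_left, herm_add_right H, herm_add_right H, P.iso hmbD, P.iso hmaD,
      H.herm mb ma, ← hγdef] at this
    linear_combination this
  have key2 : ueE σ h w m₂ 1 = ueE σ h w mb 1 * tv w (γ • hv h w) * ueE σ h w ma 1 := by
    apply gl_ext; intro x
    rw [mul_mulVec', mul_mulVec', ueE_mulVec H hww hm22 hwm2,
      ueE_mulVec H hww (P.iso hmaD) hwma, utv_mulVec H hww,
      ueE_mulVec H hww (P.iso hmbD) hwmb, ← hsum]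
    simp only [herm_add_right H, herm_sub_left H, H.add_left, H.smul_left, hww, hwmb,
      eq_zero_of_herm_self H hwma, map_one, ← hγdef]
    module
  rw [key2] at h3
  have h4 := M.mul_mem h3 (M.inv_mem (hle (P.ueE_mem_stab H hab.symm hw hmaD hwma 1)))
  rw [mul_inv_cancel_right] at h4
  subst hmb
  exact hnoC b w hw hw0 (P.centre_of_ueE H hle hw hmbD hwout hγ h4)

omit hle in
/-- A product of transvections exchanging the members. -/
lemma exists_swap [Finite F] : ∃ J ∈ utvGroup σ h,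
    (D 0).map (Matrix.toLin' (J : Matrix ι ι F)) = D 1 ∧
      (D 1).map (Matrix.toLin' (J : Matrix ι ι F)) = D 0 := by
  classical
  have h01 : (0 : Fin 2) ≠ 1 := by decide
  let a := Module.finBasisOfFinrankEq F (D 0) (P.rank 0)
  let T : D 1 →ₗ[F] (Fin m → F) :=
    { toFun := fun y i => h (y : ι → F) (a i)
      map_add' := fun y y' => funext fun i => H.add_left _ _ _
      map_smul' := fun c y => funext fun i => H.smul_left c _ _ }
  have hTinj : Function.Injective T := by
    rw [← LinearMap.ker_eq_bot, LinearMap.ker_eq_bot']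
    rintro ⟨y, hy⟩ hT
    refine Subtype.ext (P.eq_zero_of_perp H h01.symm hy fun u hu => ?_)
    let L₁ : D 0 →ₗ[F] F :=
      { toFun := fun s => h (s : ι → F) y
        map_add' := fun s s' => H.add_left _ _ _
        map_smul' := fun c s => H.smul_left c _ _ }
    have : L₁ = 0 := a.ext fun i => (herm_eq_zero_comm H).1 (congrFun hT i)
    exact (herm_eq_zero_comm H).1 (LinearMap.congr_fun this ⟨u, hu⟩)
  have hTsur : Function.Surjective T :=
    (LinearMap.injective_iff_surjective_of_finrank_eq_finrank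
      (by rw [Module.finrank_fin_fun, P.rank])).1 hTinj
  choose b hb using fun i => hTsur (Pi.single i (1 : F))
  have hba : ∀ i j, h (b j : ι → F) (a i : ι → F) = if i = j then 1 else 0 := fun i j => by
    have := congrFun (hb j) i
    simpa [T, Pi.single_apply] using this
  have hab : ∀ i j, h (a i : ι → F) (b j : ι → F) = if i = j then 1 else 0 := fun i j => by
    rw [H.herm, hba]; split_ifs <;> simp
  have hP : ∀ i, HypPair h (a i : ι → F) (b i : ι → F) := fun i =>
    ⟨P.iso (a i).2, P.iso (b i).2, by rw [hab, if_pos rfl]⟩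
  obtain ⟨κ, hκ0, hκ⟩ := exists_skew H
  have step : ∀ s : Finset (Fin m), ∃ t ∈ utvGroup σ h, ∀ i,
      (t : Matrix ι ι F) *ᵥ (a i : ι → F) =
        (if i ∈ s then (-κ⁻¹) • (b i : ι → F) else (a i : ι → F)) ∧
      (t : Matrix ι ι F) *ᵥ (b i : ι → F) =
        (if i ∈ s then κ • (a i : ι → F) else (b i : ι → F)) := by
    intro s
    induction s using Finset.induction with
    | empty => exact ⟨1, one_mem _, fun i => by simp⟩
    | @insert k s hk ih =>
      obtain ⟨t, ht, htv⟩ := ih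
      obtain ⟨r, hr, hrf, hrb, hra⟩ := (hP k).exists_monomial H hκ0 hκ
      have hfix : ∀ i, i ≠ k → (r : Matrix ι ι F) *ᵥ (a i : ι → F) = a i ∧
          (r : Matrix ι ι F) *ᵥ (b i : ι → F) = b i := fun i hi =>
        ⟨hrf _ (mem_perp_pair H (P.singular 0 _ (a i).2 _ (a k).2) (by rw [hab, if_neg hi])),
          hrf _ (mem_perp_pair H (by rw [hba, if_neg (Ne.symm hi)])
            (P.singular 1 _ (b i).2 _ (b k).2))⟩
      refine ⟨r * t, mul_mem hr ht, fun i => ?_⟩
      rw [mul_mulVec', mul_mulVec', (htv i).1, (htv i).2]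
      rcases eq_or_ne i k with rfl | hik
      · simp [hk, hra, hrb]
      · by_cases his : i ∈ s
        · simp [his, mulVec_neg, mulVec_smul, (hfix i hik).1, (hfix i hik).2]
        · simp [his, hik, (hfix i hik).1, (hfix i hik).2]
  obtain ⟨J, hJ, hJv⟩ := step Finset.univ
  have hbspan : D 1 = Submodule.span F (Set.range fun i => (b i : ι → F)) := by
    have hli : LinearIndependent F b := by
      refine Fintype.linearIndependent_iff.2 fun c hc i => ?_
      have := congrArg (fun y : D 1 => T y i) hc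
      simpa [map_sum, hb, Pi.single_apply, Finset.sum_ite_eq, Finset.sum_ite_eq'] using this
    refine (Submodule.map_subtype_top (D 1)).symm.trans ?_
    rw [← (basisOfLinearIndependentOfCardEqFinrank' b hli
      (by rw [Fintype.card_fin, P.rank])).span_eq, Submodule.map_span, ← Set.range_comp]
    congr 2
    ext i
    simp
  have haspan : D 0 = Submodule.span F (Set.range fun i => (a i : ι → F)) := by
    refine (Submodule.map_subtype_top (D 0)).symm.trans ?_
    rw [← a.span_eq, Submodule.map_span, ← Set.range_comp]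
    rfl
  refine ⟨J, hJ, ?_, ?_⟩
  · refine Submodule.eq_of_le_of_finrank_eq ?_ (by rw [finrank_map_gl, P.rank, P.rank])
    rw [haspan, Submodule.map_span]
    refine Submodule.span_le.2 ?_
    rintro _ ⟨_, ⟨i, rfl⟩, rfl⟩
    simp only [Matrix.toLin'_apply, (hJv i).1, Finset.mem_univ, if_true]
    exact (D 1).smul_mem _ (b i).2
  · refine Submodule.eq_of_le_of_finrank_eq ?_ (by rw [finrank_map_gl, P.rank, P.rank])
    rw [hbspan, Submodule.map_span]
    refine Submodule.span_le.2 ?_
    rintro _ ⟨_, ⟨i, rfl⟩, rfl⟩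
    simp only [Matrix.toLin'_apply, (hJv i).2, Finset.mem_univ, if_true]
    exact (D 0).smul_mem _ (a i).2

/-- An element outside the stabiliser generates the whole group with it. -/
lemma iso_sl_le [Finite F] {g : GL ι F} (hg : g ∈ M) (hgi : g ∈ isoH h)
    (hgn : g ∉ decompositionStabilizer D) : isoH h ⊓ specialLinear ι F ≤ M := by
  obtain ⟨j, w, hw, hw0, hC⟩ := P.exists_centre H hle hg hgi hgn
  obtain ⟨J, hJ, hJ0, hJ1⟩ := P.exists_swap H
  have hJ' := utvGroup_le H hJ
  have hJM : J ∈ M := hle ⟨⟨Equiv.swap 0 1, fun i => by fin_cases i <;> simpa⟩, hJ'⟩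
  have hspread : ∀ u ∈ D j, u ∈ ucentres σ h M := fun u hu =>
    P.centres_spread H hle hw hw0 hC hu
  refine P.iso_sl_le_of_members H hle fun k u hu => ?_
  obtain ⟨i, hij⟩ : ∃ i : Fin 2, i ≠ j := exists_ne j
  rcases fin2_or hij k with rfl | rfl
  · rcases fin2_cases hij with ⟨rfl, rfl⟩ | ⟨rfl, rfl⟩
    · rw [← hJ0] at hu
      obtain ⟨y, hy, rfl⟩ := hu
      simpa using mulVec_mem_ucentres H hJM hJ'.1 (hspread y hy)
    · rw [← hJ1] at hu
      obtain ⟨y, hy, rfl⟩ := hu
      simpa using mulVec_mem_ucentres H hJM hJ'.1 (hspread y hy)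
  · exact hspread u hu

end UPair

end Cfsg.Agent.Lib.Forms
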