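import Mathlib

/-!
Witt's extension theorem for quadratic forms with non-degenerate polar form, any characteristic.
-/

set_option autoImplicit false

namespace Cfsg.Agent.Lib.Forms

open QuadraticMap

variable {F V : Type*} [Field F] [AddCommGroup V] [Module F V] (Q : QuadraticForm F V)

lemma quad_add (a b : V) : Q (a + b) = Q a + Q b + polar Q a b := by
  rw [polar]; ring

lemma quad_sub (a b : V) : Q (a - b) = Q a + Q b - polar Q a b := by
  rw [sub_eq_add_neg, quad_add, QuadraticMap.map_neg, polar_neg_right]; ring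

lemma quad_polar_self (a : V) : polar Q a a = 2 * Q a := by
  rw [polar_self, two_smul, two_mul]

/-- The reflection along an anisotropic vector, as an isometry. -/
lemma exists_quad_refl {d : V} (hd : Q d ≠ 0) :
    ∃ γ : V ≃ₗ[F] V, (∀ v, Q (γ v) = Q v) ∧ ∀ v, γ v = v - (polar Q v d / Q d) • d := by
  let f : V →ₗ[F] V :=
    LinearMap.id - ((Q d)⁻¹ • (polarBilin Q).flip d).smulRight d
  have hf : ∀ v, f v = v - (polar Q v d / Q d) • d := fun v => by
    simp [f, div_eq_inv_mul]
  have hinv : ∀ v, f (f v) = v := fun v => by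
    have hp : polar Q (v - (polar Q v d / Q d) • d) d = -polar Q v d := by
      rw [sub_eq_add_neg, ← neg_smul, polar_add_left, polar_smul_left, quad_polar_self, smul_eq_mul]
      field_simp
      ring
    rw [hf (f v), hf v, hp]
    module
  refine ⟨LinearEquiv.ofLinear f f (LinearMap.ext hinv) (LinearMap.ext hinv), fun v => ?_, hf⟩
  show Q (f v) = Q v
  rw [hf, sub_eq_add_neg, ← neg_smul, quad_add, QuadraticMap.map_smul, polar_smul_right,
    smul_eq_mul, smul_eq_mul]
  field_simp
  ring

/-- A Siegel transformation, as an isometry. -/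
lemma exists_quad_siegel {d w : V} (hd : Q d = 0) (hw : Q w = 0) (hdw : polar Q d w = 0) :
    ∃ γ : V ≃ₗ[F] V, (∀ v, Q (γ v) = Q v) ∧
      ∀ v, γ v = v + polar Q v w • d - polar Q v d • w := by
  let f : V →ₗ[F] V :=
    LinearMap.id + ((polarBilin Q).flip w).smulRight d - ((polarBilin Q).flip d).smulRight w
  let f' : V →ₗ[F] V :=
    LinearMap.id - ((polarBilin Q).flip w).smulRight d + ((polarBilin Q).flip d).smulRight w
  have hf : ∀ v, f v = v + polar Q v w • d - polar Q v d • w := fun v => by simp [f]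
  have hf' : ∀ v, f' v = v - polar Q v w • d + polar Q v d • w := fun v => by simp [f']
  have hdd : polar Q d d = 0 := by rw [quad_polar_self, hd, mul_zero]
  have hww : polar Q w w = 0 := by rw [quad_polar_self, hw, mul_zero]
  have hwd : polar Q w d = 0 := by rw [polar_comm]; exact hdw
  refine ⟨LinearEquiv.ofLinear f f' ?_ ?_, fun v => ?_, hf⟩
  · refine LinearMap.ext fun v => ?_
    rw [LinearMap.comp_apply, LinearMap.id_apply, hf, hf']
    simp only [polar_add_left, polar_sub_left, polar_smul_left, hdd, hww, hwd, hdw, smul_eq_mul,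
      mul_zero, add_zero, sub_zero]
    module
  · refine LinearMap.ext fun v => ?_
    rw [LinearMap.comp_apply, LinearMap.id_apply, hf', hf]
    simp only [polar_add_left, polar_sub_left, polar_smul_left, hdd, hww, hwd, hdw, smul_eq_mul,
      mul_zero, add_zero, sub_zero]
    module
  · show Q (f v) = Q v
    rw [hf, sub_eq_add_neg, ← neg_smul, quad_add, quad_add, QuadraticMap.map_smul,
      QuadraticMap.map_smul, hd, hw, polar_smul_right, polar_add_left, polar_smul_right,
      polar_smul_left, polar_smul_right, hdw]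
    simp only [smul_eq_mul]
    ring

variable [FiniteDimensional F V]

/-- Witt's extension theorem. -/
theorem witt_extension (hQ : (polarBilin Q).Nondegenerate) :
    ∀ (k : ℕ) (X : Submodule F V), Module.finrank F X = k → ∀ φ : X →ₗ[F] V,
      Function.Injective φ → (∀ x, Q (φ x) = Q (x : V)) →
        ∃ γ : V ≃ₗ[F] V, (∀ v, Q (γ v) = Q v) ∧ ∀ x : X, γ x = φ x := by
  classical
  intro k
  induction k with
  | zero =>
    intro X hk φ _ _
    refine ⟨LinearEquiv.refl F V, fun v => rfl, fun x => ?_⟩
    have hx : (x : V) = 0 := by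
      have := x.2
      simpa [Submodule.finrank_eq_zero.1 hk] using this
    have : x = 0 := Subtype.ext hx
    simp [this]
  | succ k ih =>
    intro X hk φ hinj hφ
    let b := Module.finBasisOfFinrankEq F X hk
    let X₀ : Submodule F V := (Submodule.span F (Set.range (b ∘ Fin.castSucc))).map X.subtype
    set x : X := b (Fin.last k)
    have hX₀X : X₀ ≤ X := by rintro _ ⟨y, -, rfl⟩; exact y.2
    have hk₀ : Module.finrank F X₀ = k := by
      rw [Submodule.finrank_map_subtype_eq,
        finrank_span_eq_card (b.linearIndependent.comp _ (Fin.castSucc_injective k)), Fintype.card_fin]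
    obtain ⟨γ₀, hγ₀Q, hγ₀⟩ := ih X₀ hk₀ (φ.comp (Submodule.inclusion hX₀X))
      (hinj.comp (Submodule.inclusion_injective hX₀X)) (fun y => hφ _)
    -- reduce to a map fixing `X₀`
    set x' := γ₀.symm (φ x) with hx'
    have hfix : ∀ y : X, (y : V) ∈ X₀ → φ y = γ₀ y := fun y hy => (hγ₀ ⟨y, hy⟩).symm
    suffices H : ∃ γ : V ≃ₗ[F] V, (∀ v, Q (γ v) = Q v) ∧ (∀ y ∈ X₀, γ y = y) ∧ γ x = x' by
      obtain ⟨γ, hγQ, hγX, hγx⟩ := H
      refine ⟨γ.trans γ₀, fun v => by rw [LinearEquiv.trans_apply, hγ₀Q, hγQ], fun y => ?_⟩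
      have : ((γ.trans γ₀).toLinearMap.comp X.subtype) = φ := b.ext fun i => by
        simp only [LinearMap.comp_apply, LinearEquiv.coe_coe, Submodule.subtype_apply,
          LinearEquiv.trans_apply]
        rcases Fin.eq_castSucc_or_eq_last i with ⟨j, rfl⟩ | rfl
        · have hm : ((b j.castSucc : X) : V) ∈ X₀ :=
            ⟨b j.castSucc, Submodule.subset_span ⟨j, rfl⟩, rfl⟩
          rw [hγX _ hm, hfix _ hm]
        · change γ₀ (γ (x : V)) = φ x
          rw [hγx, hx', LinearEquiv.apply_symm_apply]
      exact LinearMap.congr_fun this y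
    set d := x' - (x : V) with hd
    have hQx' : Q x' = Q (x : V) := by
      rw [← hγ₀Q x', hx', LinearEquiv.apply_symm_apply, hφ]
    have hperp : ∀ y ∈ X₀, polar Q y d = 0 := by
      intro y hy
      have h1 : polar Q (φ ⟨y, hX₀X hy⟩) (φ x) = polar Q y (x : V) := by
        rw [polar, polar, ← map_add, hφ, hφ, hφ, Submodule.coe_add]
      rw [hfix ⟨y, hX₀X hy⟩ hy] at h1
      have h2 : polar Q y x' = polar Q y (x : V) := by
        rw [← h1, polar, polar, ← hγ₀Q (y + x'), map_add, ← hγ₀Q y, ← hγ₀Q x', hx',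
          LinearEquiv.apply_symm_apply]
      rw [hd, polar_sub_right, h2, sub_self]
    have hxd : (x : V) + d = x' := by rw [hd, add_sub_cancel]
    have hQd : Q d = -polar Q (x : V) d := by
      have := quad_add Q (x : V) d
      rw [hxd, hQx'] at this
      linear_combination -this
    by_cases hfd : polar Q (x : V) d ≠ 0
    · have hd0 : Q d ≠ 0 := by rw [hQd]; exact neg_ne_zero.2 hfd
      obtain ⟨γ, hγQ, hγ⟩ := exists_quad_refl Q hd0
      refine ⟨γ, hγQ, fun y hy => by rw [hγ, hperp y hy, zero_div, zero_smul, sub_zero], ?_⟩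
      rw [hγ, hQd, div_neg, div_self hfd, neg_one_smul, sub_neg_eq_add, hxd]
    push Not at hfd
    rw [hfd, neg_zero] at hQd
    by_cases hA : ∃ w, (∀ y ∈ X₀, polar Q y w = 0) ∧ polar Q (x : V) w ≠ 0 ∧ polar Q x' w ≠ 0 ∧ Q w ≠ 0
    · obtain ⟨w, hwX, hwx, hwx', hw0⟩ := hA
      obtain ⟨γ₁, hγ₁Q, hγ₁⟩ := exists_quad_refl Q hw0
      set c := polar Q (x : V) w / Q w
      set x'' := γ₁ (x : V) with hx''
      have hx''e : x'' = (x : V) - c • w := hγ₁ _
      set d' := x' - x'' with hd'
      have hd'X : ∀ y ∈ X₀, polar Q y d' = 0 := fun y hy => by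
        rw [hd', hx''e, show x' - ((x : V) - c • w) = d + c • w by rw [hd]; abel, polar_add_right,
          polar_smul_right, hperp y hy, hwX y hy, smul_zero, add_zero]
      have hxd' : polar Q x'' d' = -Q d' := by
        have h1 := quad_add Q x'' d'
        rw [hd', add_sub_cancel, hQx', ← hγ₁Q (x : V), ← hx'', ← hd'] at h1
        linear_combination -h1
      have hd0 : Q d' ≠ 0 := by
        rw [hd', hx''e, show x' - ((x : V) - c • w) = d + c • w by rw [hd]; abel, quad_add,
          QuadraticMap.map_smul, hQd, polar_smul_right, smul_eq_mul, smul_eq_mul]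
        have hdw : polar Q d w = polar Q x' w - polar Q (x : V) w := by
          rw [hd, polar_sub_left]
        intro e
        -- the value is `c * polar x' w`
        have e1 : c * polar Q x' w = 0 := by
          rw [hdw] at e
          have : c * Q w = polar Q (x : V) w := div_mul_cancel₀ _ hw0
          linear_combination e - c * this
        have hc : c ≠ 0 := div_ne_zero hwx hw0
        exact hwx' ((mul_eq_zero.1 e1).resolve_left hc)
      obtain ⟨γ₂, hγ₂Q, hγ₂⟩ := exists_quad_refl Q hd0
      refine ⟨γ₁.trans γ₂, fun v => by rw [LinearEquiv.trans_apply, hγ₂Q, hγ₁Q],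
        fun y hy => ?_, ?_⟩
      · rw [LinearEquiv.trans_apply, hγ₁, hwX y hy, zero_div, zero_smul, sub_zero, hγ₂, hd'X y hy,
          zero_div, zero_smul, sub_zero]
      · rw [LinearEquiv.trans_apply, ← hx'', hγ₂, hxd', neg_div, div_self hd0, neg_one_smul,
          sub_neg_eq_add, hd', add_sub_cancel]
    · push Not at hA
      have hx0 : (x : V) ∉ X₀ := by
        rintro ⟨y, hy, e⟩
        have : y = x := Subtype.ext e
        subst this
        exact b.linearIndependent.notMem_span_image (s := Set.range Fin.castSucc)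
          (x := Fin.last k) (by simp [Fin.castSucc_ne_last]) (by rwa [← Set.range_comp])
      have hx'0 : x' ∉ X₀ := fun hm => by
        have h1 := hfix ⟨x', hX₀X hm⟩ hm
        rw [show γ₀ x' = φ x by rw [hx', LinearEquiv.apply_symm_apply]] at h1
        exact hx0 ((congrArg Subtype.val (hinj h1)) ▸ hm)
      have sep : ∀ z : V, z ∉ X₀ → ∃ w, (∀ y ∈ X₀, polar Q y w = 0) ∧ polar Q z w ≠ 0 := by
        intro z hz
        obtain ⟨f, hf1, hf0⟩ := Submodule.exists_dual_map_eq_bot_of_notMem hz inferInstance
        obtain ⟨w, hw⟩ := (LinearMap.BilinForm.toDual (polarBilin Q) hQ).surjective f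
        have hwv : ∀ v, polar Q v w = f v := fun v => by
          rw [polar_comm, ← QuadraticMap.polarBilin_apply_apply,
            ← LinearMap.BilinForm.toDual_def hQ (m := w) (n := v), hw]
        refine ⟨w, fun y hy => ?_, by rwa [hwv]⟩
        have : f y ∈ X₀.map f := ⟨y, hy, rfl⟩
        rw [hf0, Submodule.mem_bot] at this
        rw [hwv, this]
      obtain ⟨w, hwX, hwx, hwx'⟩ : ∃ w, (∀ y ∈ X₀, polar Q y w = 0) ∧ polar Q (x : V) w ≠ 0 ∧
          polar Q x' w ≠ 0 := by
        obtain ⟨w₁, hw₁, hw₁x⟩ := sep _ hx0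
        obtain ⟨w₂, hw₂, hw₂x⟩ := sep _ hx'0
        by_cases h1 : polar Q x' w₁ = 0
        · by_cases h2 : polar Q (x : V) w₂ = 0
          · refine ⟨w₁ + w₂, fun y hy => by rw [polar_add_right, hw₁ y hy, hw₂ y hy, add_zero],
              ?_, ?_⟩
            · rw [polar_add_right, h2, add_zero]; exact hw₁x
            · rw [polar_add_right, h1, zero_add]; exact hw₂x
          · exact ⟨w₂, hw₂, h2, hw₂x⟩
        · exact ⟨w₁, hw₁, hw₁x, h1⟩
      have hdd : polar Q d d = 0 := by rw [quad_polar_self, hQd, mul_zero]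
      have hw0' : Q w = 0 := hA w hwX hwx hwx'
      have hwd' : polar Q d w = 0 := by
        have h1 := hA (w + d) (fun y hy => by rw [polar_add_right, hwX y hy, hperp y hy, add_zero])
          (by rw [polar_add_right, hfd, add_zero]; exact hwx)
          (by rw [← hxd, polar_add_left, polar_add_right, polar_add_right, hfd, hdd, add_zero,
            add_zero, ← polar_add_left, hxd]; exact hwx')
        rw [quad_add, hw0', hQd, polar_comm, zero_add, zero_add] at h1
        exact h1
      obtain ⟨w, hwX, hwx, hw0, hwd⟩ : ∃ u, (∀ y ∈ X₀, polar Q y u = 0) ∧ polar Q (x : V) u = 1 ∧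
          Q u = 0 ∧ polar Q d u = 0 := by
        refine ⟨(polar Q (x : V) w)⁻¹ • w, fun y hy => ?_, ?_, ?_, ?_⟩
        · rw [polar_smul_right, hwX y hy, smul_zero]
        · rw [polar_smul_right, smul_eq_mul, inv_mul_cancel₀ hwx]
        · rw [QuadraticMap.map_smul, hw0', smul_zero]
        · rw [polar_smul_right, hwd', smul_zero]
      obtain ⟨γ, hγQ, hγ⟩ := exists_quad_siegel Q hQd hw0 hwd
      refine ⟨γ, hγQ, fun y hy => ?_, ?_⟩
      · rw [hγ, hwX y hy, hperp y hy, zero_smul, zero_smul, add_zero, sub_zero]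
      · rw [hγ, hwx, hfd, one_smul, zero_smul, sub_zero, hxd]

end Cfsg.Agent.Lib.Forms
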